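import Mathlib

set_option autoImplicit false

namespace Cfsg.Agent.Lib.Helper6

/-- A permutation of `𝔽_p^d` which is additive up to its value at `0` is affine. -/
theorem affine_of_additive (p : ℕ) [Fact p.Prime] (d : ℕ) (σ : Equiv.Perm (Fin d → ZMod p))
    (hadd : ∀ x y, σ (x + y) - σ 0 = (σ x - σ 0) + (σ y - σ 0)) :
    ∃ (A : (Fin d → ZMod p) ≃ₗ[ZMod p] (Fin d → ZMod p)) (b : Fin d → ZMod p),
      ∀ x, σ x = A x + b := by
  obtain ⟨L, hL⟩ : ∃ L : (Fin d → ZMod p) →ₗ[ZMod p] (Fin d → ZMod p), ∀ x, L x = σ x - σ 0 :=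
    ⟨(AddMonoidHom.mk' (fun z => σ z - σ 0) hadd).toZModLinearMap p, fun x => rfl⟩
  have hbij : Function.Bijective L := by
    constructor
    · intro x y hxy
      rw [hL, hL, sub_left_inj] at hxy
      exact σ.injective hxy
    · intro w
      refine ⟨σ.symm (w + σ 0), ?_⟩
      rw [hL, Equiv.apply_symm_apply, add_sub_cancel_right]
  refine ⟨LinearEquiv.ofBijective L hbij, σ 0, fun x => ?_⟩
  rw [LinearEquiv.ofBijective_apply, hL, sub_add_cancel]

/-- For `p` odd, a permutation of `𝔽_p^d` agreeing with an affine map on every triple of points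
is affine. -/
theorem affine_of_three_closed (p : ℕ) [Fact p.Prime] (hp : p ≠ 2) (d : ℕ)
    (σ : Equiv.Perm (Fin d → ZMod p))
    (h : ∀ t : Fin 3 → (Fin d → ZMod p), ∃ (A : (Fin d → ZMod p) ≃ₗ[ZMod p] (Fin d → ZMod p))
      (b : Fin d → ZMod p), ∀ i, σ (t i) = A (t i) + b) :
    ∃ (A : (Fin d → ZMod p) ≃ₗ[ZMod p] (Fin d → ZMod p)) (b : Fin d → ZMod p),
      ∀ x, σ x = A x + b := by
  have hprime : p.Prime := Fact.out
  have h2 : (2 : ZMod p) ≠ 0 := by
    intro h0
    have h1 : ((2 : ℕ) : ZMod p) = 0 := by exact_mod_cast h0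
    rw [ZMod.natCast_eq_zero_iff] at h1
    exact hp ((Nat.prime_dvd_prime_iff_eq hprime Nat.prime_two).mp h1)
  obtain ⟨hf, hh⟩ : ∃ hf : ZMod p, hf * 2 = 1 := ⟨2⁻¹, inv_mul_cancel₀ h2⟩
  have hdbl : ∀ b : Fin d → ZMod p, hf • (b + b) = b := by
    intro b
    rw [← two_smul (ZMod p) b, smul_smul, hh, one_smul]
  have hmid : ∀ x y, σ (hf • (x + y)) = hf • (σ x + σ y) := by
    intro x y
    obtain ⟨A, b, hAb⟩ := h ![x, y, hf • (x + y)]
    have e0 : σ x = A x + b := hAb 0
    have e1 : σ y = A y + b := hAb 1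
    have e2 : σ (hf • (x + y)) = A (hf • (x + y)) + b := hAb 2
    rw [e2, e0, e1, map_smul, map_add, add_add_add_comm, smul_add hf (A x + A y) (b + b), hdbl, smul_add]
  apply affine_of_additive
  have hτmid : ∀ x y, σ (hf • (x + y)) - σ 0 = hf • ((σ x - σ 0) + (σ y - σ 0)) := by
    intro x y
    rw [hmid, sub_add_sub_comm, smul_sub, hdbl]
  have hτh : ∀ x, σ (hf • x) - σ 0 = hf • (σ x - σ 0) := by
    intro x
    have := hτmid x 0
    rwa [add_zero, sub_self, add_zero] at this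
  have hτ2 : ∀ x, σ (x + x) - σ 0 = (σ x - σ 0) + (σ x - σ 0) := by
    intro x
    have := hτh (x + x)
    rw [hdbl] at this
    rw [this, ← smul_add, hdbl]
  intro x y
  have e : x + y = hf • ((x + x) + (y + y)) := by
    rw [add_add_add_comm, hdbl]
  rw [e, hτmid, hτ2, hτ2, add_add_add_comm, hdbl]

/-- In dimension at least `3`, a linear automorphism can be corrected to determinant `1` without
changing its values at two given vectors. -/
theorem exists_sl_agree {K : Type*} [Field K] (d : ℕ) (hd : 3 ≤ d)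
    (A : (Fin d → K) ≃ₗ[K] (Fin d → K)) (u v : Fin d → K) :
    ∃ B : (Fin d → K) ≃ₗ[K] (Fin d → K),
      LinearMap.det (B : (Fin d → K) →ₗ[K] (Fin d → K)) = 1 ∧ B u = A u ∧ B v = A v := by
  classical
  have hW : Submodule.span K ({u, v} : Set (Fin d → K)) < ⊤ := by
    rw [lt_top_iff_ne_top]
    intro htop
    have h1 : Module.finrank K (Submodule.span K ({u, v} : Set (Fin d → K))) ≤ 2 := by
      have := finrank_span_finset_le_card (R := K) ({u, v} : Finset (Fin d → K))
      have h2 : ({u, v} : Finset (Fin d → K)).card ≤ 2 := Finset.card_le_two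
      simp only [Finset.coe_insert, Finset.coe_singleton] at this
      exact this.trans h2
    rw [htop, finrank_top, Module.finrank_fin_fun] at h1
    omega
  obtain ⟨f, hf0, hfW⟩ := Submodule.exists_le_ker_of_lt_top _ hW
  obtain ⟨w₀, hw₀⟩ : ∃ w, f w ≠ 0 := by
    by_contra hcon
    push Not at hcon
    exact hf0 (LinearMap.ext hcon)
  have hδ : LinearMap.det (A : (Fin d → K) →ₗ[K] (Fin d → K)) ≠ 0 := (LinearEquiv.isUnit_det' A).ne_zero
  obtain ⟨δ, hδdef⟩ : ∃ δ : K, δ = LinearMap.det (A : (Fin d → K) →ₗ[K] (Fin d → K)) := ⟨_, rfl⟩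
  rw [← hδdef] at hδ
  obtain ⟨w, hwdef⟩ : ∃ w : Fin d → K, w = ((δ⁻¹ - 1) * (f w₀)⁻¹) • w₀ := ⟨_, rfl⟩
  have hfw : 1 + f w = δ⁻¹ := by
    rw [hwdef, map_smul, smul_eq_mul, mul_assoc, inv_mul_cancel₀ hw₀, mul_one]
    ring
  have hunit : IsUnit (1 + f w) := by rw [hfw]; exact (inv_ne_zero hδ).isUnit
  have hu : f u = 0 := hfW (Submodule.subset_span (by simp))
  have hv : f v = 0 := hfW (Submodule.subset_span (by simp))
  refine ⟨(LinearEquiv.dilatransvection hunit).trans A, ?_, ?_, ?_⟩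
  · have : (((LinearEquiv.dilatransvection hunit).trans A : (Fin d → K) ≃ₗ[K] (Fin d → K)) : (Fin d → K) →ₗ[K] (Fin d → K)) = (A : (Fin d → K) →ₗ[K] (Fin d → K)) ∘ₗ (LinearMap.transvection f w) := rfl
    rw [this, LinearMap.det_comp, LinearMap.transvection.det, hfw, ← hδdef, mul_inv_cancel₀ hδ]
  · show A (LinearEquiv.dilatransvection hunit u) = A u
    rw [LinearEquiv.dilatransvection.apply, hu, zero_smul, add_zero]
  · show A (LinearEquiv.dilatransvection hunit v) = A v
    rw [LinearEquiv.dilatransvection.apply, hv, zero_smul, add_zero]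

end Cfsg.Agent.Lib.Helper6
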