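import Mathlib
import Cfsg.Agent.Lib.Lead.FpfConc
import Cfsg.Agent.Lib.Lead.FrobConj2
import Cfsg.Agent.Lib.Lead.Hall
import Cfsg.Agent.Lib.Lead.SZ
import Cfsg.Agent.Lib.Helper1.Subn
import Cfsg.Agent.Lib.Helper5.ElemAbNormal
import Cfsg.Agent.Lib.Helper6.InvSylow

set_option autoImplicit false

namespace Cfsg.Agent.Lib.Helper6

open Cfsg.Agent.Lib.Lead

universe u

/-- commuting elements with orders divisible by distinct primes give an element of order `p * t`. -/
theorem exists_orderOf_mul_of_commute {G : Type*} [Group G] [Finite G] (a v : G) (hc : Commute a v)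
    {p t : ℕ} (hp : p.Prime) (ht : t.Prime) (hpt : p ≠ t) (hv : p ∣ orderOf v)
    (ha : t ∣ orderOf a) : ∃ g : G, orderOf g = p * t := by
  have hov : orderOf v ≠ 0 := (orderOf_pos v).ne'
  have hoa : orderOf a ≠ 0 := (orderOf_pos a).ne'
  have h1 : orderOf (v ^ (orderOf v / p)) = p := by
    rw [orderOf_pow_of_dvd (fun h => hov (by
      have := Nat.div_mul_cancel hv; rw [h, zero_mul] at this; exact this.symm)) (Nat.div_dvd_of_dvd hv)]
    exact Nat.div_div_self hv hov
  have h2 : orderOf (a ^ (orderOf a / t)) = t := by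
    rw [orderOf_pow_of_dvd (fun h => hoa (by
      have := Nat.div_mul_cancel ha; rw [h, zero_mul] at this; exact this.symm)) (Nat.div_dvd_of_dvd ha)]
    exact Nat.div_div_self ha hoa
  have hc' : Commute (v ^ (orderOf v / p)) (a ^ (orderOf a / t)) := (hc.symm.pow_pow _ _)
  refine ⟨v ^ (orderOf v / p) * a ^ (orderOf a / t), ?_⟩
  rw [hc'.orderOf_mul_eq_mul_orderOf_of_coprime (by rw [h1, h2]; exact (Nat.coprime_primes hp ht).2 hpt),
    h1, h2]

/-- lifting an element order from a quotient. -/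
theorem exists_orderOf_of_quotient {G : Type*} [Group G] [Finite G] (N : Subgroup G) [N.Normal]
    (x : G ⧸ N) : ∃ g : G, orderOf g = orderOf x := by
  obtain ⟨g, rfl⟩ := QuotientGroup.mk_surjective x
  have hd : orderOf (QuotientGroup.mk' N g) ∣ orderOf g := orderOf_map_dvd (QuotientGroup.mk' N) g
  have ho : orderOf g ≠ 0 := (orderOf_pos g).ne'
  set m := orderOf (QuotientGroup.mk' N g) with hm
  refine ⟨g ^ (orderOf g / m), ?_⟩
  rw [orderOf_pow_of_dvd (fun h => ho (by
    have := Nat.div_mul_cancel hd; rw [h, zero_mul] at this; exact this.symm)) (Nat.div_dvd_of_dvd hd)]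
  exact Nat.div_div_self hd ho

theorem fpf_exists_qr_aux {K V : Type*} [Group K] [Finite K] [CommGroup V] [Finite V]
    (φ : K →* MulAut V) (hφ : Fpf φ) (hV : Nontrivial V) {t t' : ℕ}
    (ht : t.Prime) (ht' : t'.Prime) (htt : t ≠ t') (W : Subgroup K) [W.Normal]
    (hW : Nat.card W = t) (y : K) (hy : orderOf y = t') : ∃ k : K, orderOf k = t * t' := by
  classical
  set A := Subgroup.zpowers y ⊔ W with hA
  have hcop : (Nat.card (Subgroup.zpowers y)).Coprime (Nat.card W) := by
    rw [Nat.card_zpowers, hy, hW]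
    exact (Nat.coprime_primes ht' ht).2 htt.symm
  have hdis : Subgroup.zpowers y ⊓ W = ⊥ :=
    disjoint_iff.1 (Subgroup.disjoint_of_coprime_natCard hcop)
  have hcardA : Nat.card A = t * t' := by
    rw [hA, card_sup_of_normal_disjoint _ _ hdis, hW, Nat.card_zpowers, hy]
  have hφA : Fpf (φ.comp A.subtype) :=
    fun a ha v hv => hφ (a : K) (fun h => ha (Subtype.ext h)) v hv
  have hcyc : IsCyclic A := by
    rcases lt_or_gt_of_ne htt with h | h
    · exact fpf_pq_cyclic (φ.comp A.subtype) hφA hV ht ht' h hcardA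
    · exact fpf_pq_cyclic (φ.comp A.subtype) hφA hV ht' ht h (by rw [hcardA, mul_comm])
  obtain ⟨g, hg⟩ := hcyc.exists_generator
  have h1 : orderOf g = Nat.card A := orderOf_eq_card_of_forall_mem_zpowers hg
  exact ⟨(g : K), by rw [Subgroup.orderOf_coe, h1, hcardA]⟩

/-- A solvable `{q, r}`-group acting fixed-point-freely has an element of order `q * r`. -/
theorem fpf_exists_qr {K V : Type*} [Group K] [Finite K] [CommGroup V] [Finite V]
    [Group.IsSolvable K] (φ : K →* MulAut V) (hφ : Fpf φ) (hV : Nontrivial V) {q r : ℕ}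
    (hq : q.Prime) (hr : r.Prime) (hqr : q ≠ r)
    (hcard : ∀ s : ℕ, s.Prime → s ∣ Nat.card K → s = q ∨ s = r)
    (hqK : q ∣ Nat.card K) (hrK : r ∣ Nat.card K) : ∃ k : K, orderOf k = q * r := by
  classical
  have hK1 : (⊤ : Subgroup K) ≠ ⊥ := by
    intro h
    have : Nat.card K = 1 := by
      rw [← Subgroup.card_top (G := K), h, Subgroup.card_bot]
    rw [this] at hqK
    exact hq.one_lt.ne' (Nat.dvd_one.1 hqK)
  have hsT : Group.IsSolvable (⊤ : Subgroup K) := inferInstance
  obtain ⟨W, t, hWn, ht, -, hW1, hWc, hWe⟩ :=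
    Cfsg.Agent.Lib.Helper5.exists_normal_exponent_prime_of_solvable (⊤ : Subgroup K) hK1 hsT
  let _ : CommGroup W :=
    { (inferInstance : Group W) with mul_comm := fun a b => Subtype.ext (hWc a a.2 b b.2) }
  have hφW : Fpf (φ.comp W.subtype) :=
    fun a ha v hv => hφ (a : K) (fun h => ha (Subtype.ext h)) v hv
  have hWcyc : IsCyclic W := fpf_comm_cyclic (φ.comp W.subtype) hφW hV
  have hWcard : Nat.card W = t := by
    obtain ⟨g, hg⟩ := hWcyc.exists_generator
    have h1 : orderOf g = Nat.card W := orderOf_eq_card_of_forall_mem_zpowers hg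
    have h2 : orderOf g ∣ t := by
      apply orderOf_dvd_of_pow_eq_one
      apply Subtype.ext
      simpa using hWe g g.2
    rcases (Nat.dvd_prime ht).1 h2 with h3 | h3
    · exfalso
      apply hW1
      rw [← Subgroup.card_eq_one]
      omega
    · omega
  have htK : t ∣ Nat.card K := by
    rw [← hWcard]; exact Subgroup.card_subgroup_dvd_card W
  rcases hcard t ht htK with rfl | rfl
  · haveI : Fact r.Prime := ⟨hr⟩
    obtain ⟨y, hy⟩ := exists_prime_orderOf_dvd_card' r hrK
    exact fpf_exists_qr_aux φ hφ hV ht hr hqr W hWcard y hy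
  · haveI : Fact q.Prime := ⟨hq⟩
    obtain ⟨y, hy⟩ := exists_prime_orderOf_dvd_card' q hqK
    obtain ⟨k, hk⟩ := fpf_exists_qr_aux φ hφ hV ht hq hqr.symm W hWcard y hy
    exact ⟨k, by rw [hk, mul_comm]⟩

/-- some element has order the product of two of the three numbers -/
def HasPair (G : Type*) [Group G] (p q r : ℕ) : Prop :=
  ∃ g : G, orderOf g = p * q ∨ orderOf g = p * r ∨ orderOf g = q * r

theorem HasPair.of_subgroup {G : Type*} [Group G] {p q r : ℕ} (H : Subgroup G)
    (h : HasPair H p q r) : HasPair G p q r := by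
  obtain ⟨g, hg⟩ := h
  exact ⟨(g : G), by rwa [Subgroup.orderOf_coe]⟩

theorem HasPair.of_quotient {G : Type*} [Group G] [Finite G] {p q r : ℕ} (N : Subgroup G)
    [N.Normal] (h : HasPair (G ⧸ N) p q r) : HasPair G p q r := by
  obtain ⟨x, hx⟩ := h
  obtain ⟨g, hg⟩ := exists_orderOf_of_quotient N x
  exact ⟨g, by rwa [hg]⟩

theorem HasPair.swap12 {G : Type*} [Group G] {p q r : ℕ} (h : HasPair G p q r) :
    HasPair G q p r := by
  obtain ⟨g, h1 | h1 | h1⟩ := h
  · exact ⟨g, Or.inl (by rw [h1, mul_comm])⟩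
  · exact ⟨g, Or.inr (Or.inr h1)⟩
  · exact ⟨g, Or.inr (Or.inl h1)⟩

theorem HasPair.rot {G : Type*} [Group G] {p q r : ℕ} (h : HasPair G r p q) :
    HasPair G p q r := by
  obtain ⟨g, h1 | h1 | h1⟩ := h
  · exact ⟨g, Or.inr (Or.inl (by rw [h1, mul_comm]))⟩
  · exact ⟨g, Or.inr (Or.inr (by rw [h1, mul_comm]))⟩
  · exact ⟨g, Or.inl h1⟩

open scoped IsMulCommutative in
theorem hasPair_core {G : Type u} [Group G] [Finite G] [Group.IsSolvable G] {p q r : ℕ}
    (hp : p.Prime) (hq : q.Prime) (hr : r.Prime) (hpq : p ≠ q) (hpr : p ≠ r) (hqr : q ≠ r)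
    (hcard : ∀ s : ℕ, s.Prime → s ∣ Nat.card G → s = p ∨ s = q ∨ s = r)
    (hqG : q ∣ Nat.card G) (hrG : r ∣ Nat.card G)
    (M : Subgroup G) [hMn : M.Normal] (hM : IsPGroup p M) (hM1 : M ≠ ⊥)
    (hMsyl : ¬ p ∣ M.index) : HasPair G p q r := by
  classical
  by_contra hno
  haveI : Fact p.Prime := ⟨hp⟩
  set V₀ := M ⊓ Subgroup.centralizer (M : Set G) with hV₀
  have hV₀n : Subgroup.normalizer (V₀ : Set G) = ⊤ := by
    have h1 := normalizer_le_normalizer_inf_centralizer M
    rw [Subgroup.normalizer_eq_top] at h1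
    exact top_le_iff.1 h1
  haveI : IsMulCommutative V₀ := by
    refine ⟨⟨fun a b => Subtype.ext ?_⟩⟩
    have hb : (b : G) ∈ Subgroup.centralizer (M : Set G) := b.2.2
    rw [Subgroup.mem_centralizer_iff] at hb
    exact hb a a.2.1
  have hV₀1 : V₀ ≠ ⊥ := by
    haveI : Nontrivial M := (Subgroup.nontrivial_iff_ne_bot M).2 hM1
    haveI := hM.center_nontrivial
    obtain ⟨z, hz⟩ := exists_ne (1 : Subgroup.center M)
    intro hbot
    have hzV : ((z : M) : G) ∈ V₀ := by
      refine ⟨(z : M).2, ?_⟩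
      show ((z : M) : G) ∈ Subgroup.centralizer (M : Set G)
      rw [Subgroup.mem_centralizer_iff]
      intro h hh
      have := Subgroup.mem_center_iff.1 z.2 ⟨h, hh⟩
      exact congrArg Subtype.val this
    rw [hbot, Subgroup.mem_bot] at hzV
    apply hz
    apply Subtype.ext
    apply Subtype.ext
    exact hzV
  -- complement
  obtain ⟨k, hk⟩ := IsPGroup.iff_card.1 hM
  have hcop : (Nat.card M).Coprime M.index := by
    rw [hk]
    exact Nat.Coprime.pow_left k ((Nat.Prime.coprime_iff_not_dvd hp).2 hMsyl)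
  obtain ⟨K, hK⟩ := Subgroup.exists_right_complement'_of_coprime hcop
  have hKcard : Nat.card K = M.index := by
    have h1 := hK.card_mul_card
    have h2 := Subgroup.card_mul_index M
    have h3 : 0 < Nat.card M := Nat.card_pos
    exact Nat.eq_of_mul_eq_mul_left h3 (h1.trans h2.symm)
  have hdvdK : ∀ s : ℕ, s.Prime → s ≠ p → s ∣ Nat.card G → s ∣ Nat.card K := by
    intro s hs hsp hsG
    rw [← hK.card_mul_card, hk] at hsG
    exact (Nat.Coprime.pow_right k ((Nat.coprime_primes hs hp).2 hsp)).dvd_of_dvd_mul_left hsG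
  have hqK : q ∣ Nat.card K := hdvdK q hq hpq.symm hqG
  have hrK : r ∣ Nat.card K := hdvdK r hr hpr.symm hrG
  have hcardK : ∀ s : ℕ, s.Prime → s ∣ Nat.card K → s = q ∨ s = r := by
    intro s hs hsK
    have hsG : s ∣ Nat.card G := hsK.trans (Subgroup.card_subgroup_dvd_card K)
    rcases hcard s hs hsG with rfl | h | h
    · exfalso; rw [hKcard] at hsK; exact hMsyl hsK
    · exact Or.inl h
    · exact Or.inr h
  have hfpf : ∀ a ∈ K, a ≠ 1 → V₀ ⊓ Subgroup.centralizer {a} = ⊥ := by
    intro a ha ha1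
    rw [eq_bot_iff]
    rintro v ⟨hv, hvc⟩
    rw [Subgroup.mem_bot]
    by_contra hv1
    have hvM : v ∈ M := hv.1
    have hpv : p ∣ orderOf v := by
      obtain ⟨j, hj⟩ := hM ⟨v, hvM⟩
      have h1 : v ^ p ^ j = 1 := congrArg Subtype.val hj
      have h2 : orderOf v ∣ p ^ j := orderOf_dvd_of_pow_eq_one h1
      obtain ⟨i, -, hi⟩ := (Nat.dvd_prime_pow hp).1 h2
      rw [hi]
      have : i ≠ 0 := by
        rintro rfl
        rw [pow_zero, orderOf_eq_one_iff] at hi
        exact hv1 hi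
      exact dvd_pow_self p this
    have hoa : orderOf a ≠ 1 := fun h => ha1 (orderOf_eq_one_iff.1 h)
    obtain ⟨t, ht, hta⟩ := Nat.exists_prime_and_dvd hoa
    have htK : t ∣ Nat.card K := hta.trans (Subgroup.orderOf_dvd_natCard K ha)
    have hcomm : Commute a v := by
      have hvc' : v ∈ Subgroup.centralizer ({a} : Set G) := hvc
      rw [Subgroup.mem_centralizer_singleton_iff] at hvc'
      exact hvc'.symm
    rcases hcardK t ht htK with rfl | rfl
    · obtain ⟨g, hg⟩ := exists_orderOf_mul_of_commute a v hcomm hp ht hpq hpv hta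
      exact hno ⟨g, Or.inl hg⟩
    · obtain ⟨g, hg⟩ := exists_orderOf_mul_of_commute a v hcomm hp ht hpr hpv hta
      exact hno ⟨g, Or.inr (Or.inl hg)⟩
  obtain ⟨φ, hφ, -⟩ := fpf_concrete K V₀ (by rw [hV₀n]; exact le_top) hfpf
  haveI : Nontrivial V₀ := (Subgroup.nontrivial_iff_ne_bot V₀).2 hV₀1
  obtain ⟨x, hx⟩ := fpf_exists_qr φ hφ inferInstance hq hr hqr hcardK hqK hrK
  exact hno ⟨(x : G), Or.inr (Or.inr (by rw [Subgroup.orderOf_coe]; exact hx))⟩

theorem three_primes_aux : ∀ (n : ℕ) (G : Type u) [Group G] [Finite G] [Group.IsSolvable G]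
    (p q r : ℕ), Nat.card G = n → p.Prime → q.Prime → r.Prime → p ≠ q → p ≠ r → q ≠ r →
    p ∣ Nat.card G → q ∣ Nat.card G → r ∣ Nat.card G → HasPair G p q r := by
  intro n
  induction n using Nat.strong_induction_on with
  | _ n ih =>
  intro G _ _ _ p q r hn hp hq hr hpq hpr hqr hpG hqG hrG
  classical
  have hG0 : Nat.card G ≠ 0 := Nat.card_pos.ne'
  by_cases h4 : ∃ s : ℕ, s.Prime ∧ s ∣ Nat.card G ∧ s ≠ p ∧ s ≠ q ∧ s ≠ r
  · obtain ⟨s, hs, hsG, hsp, hsq, hsr⟩ := h4
    have hmul : ordCompl[s] (Nat.card G) * ordProj[s] (Nat.card G) = Nat.card G := by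
      rw [mul_comm]; exact Nat.ordProj_mul_ordCompl_eq_self _ _
    have hcop : (ordCompl[s] (Nat.card G)).Coprime (ordProj[s] (Nat.card G)) :=
      (Nat.Coprime.pow_left _ (Nat.coprime_ordCompl hs hG0)).symm
    obtain ⟨H, hH⟩ := hall_exists (Nat.card G) G (ordCompl[s] (Nat.card G))
      (ordProj[s] (Nat.card G)) rfl hmul.symm hcop
    have hlt : Nat.card H < n := by
      rw [hH, ← hn]
      apply Nat.div_lt_self Nat.card_pos
      have h1 : 1 ≤ (Nat.card G).factorization s :=
        (hs.factorization_pos_of_dvd hG0 hsG)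
      calc 1 < s := hs.one_lt
        _ = s ^ 1 := (pow_one s).symm
        _ ≤ s ^ (Nat.card G).factorization s := Nat.pow_le_pow_right hs.pos h1
    have hdvd : ∀ t : ℕ, t.Prime → t ≠ s → t ∣ Nat.card G → t ∣ Nat.card H := by
      intro t ht hts htG
      rw [hH]
      rw [← hmul] at htG
      exact (Nat.Coprime.pow_right _ ((Nat.coprime_primes ht hs).2 hts)).dvd_of_dvd_mul_right htG
    exact HasPair.of_subgroup H (ih (Nat.card H) hlt H p q r rfl hp hq hr hpq hpr hqr
      (hdvd p hp (Ne.symm hsp) hpG) (hdvd q hq (Ne.symm hsq) hqG) (hdvd r hr (Ne.symm hsr) hrG))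
  · have hcard : ∀ s : ℕ, s.Prime → s ∣ Nat.card G → s = p ∨ s = q ∨ s = r := by
      intro s hs hsG
      by_contra hcon
      push Not at hcon
      exact h4 ⟨s, hs, hsG, hcon.1, hcon.2.1, hcon.2.2⟩
    -- the step for a normal `p`-subgroup
    have step : ∀ (p q r : ℕ), p.Prime → q.Prime → r.Prime → p ≠ q → p ≠ r → q ≠ r →
        p ∣ Nat.card G → q ∣ Nat.card G → r ∣ Nat.card G →
        (∀ s : ℕ, s.Prime → s ∣ Nat.card G → s = p ∨ s = q ∨ s = r) →
        ∀ (M : Subgroup G), M.Normal → IsPGroup p M → M ≠ ⊥ → HasPair G p q r := by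
      intro p q r hp hq hr hpq hpr hqr hpG hqG hrG hcard M hMn hM hM1
      haveI : Fact p.Prime := ⟨hp⟩
      by_cases hdiv : p ∣ M.index
      · obtain ⟨k, hk⟩ := IsPGroup.iff_card.1 hM
        have hdvdQ : ∀ s : ℕ, s.Prime → s ≠ p → s ∣ Nat.card G → s ∣ Nat.card (G ⧸ M) := by
          intro s hs hsp hsG
          rw [← Subgroup.card_mul_index M, hk] at hsG
          exact (Nat.Coprime.pow_right k ((Nat.coprime_primes hs hp).2 hsp)).dvd_of_dvd_mul_left hsG
        have hlt : Nat.card (G ⧸ M) < n := by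
          rw [← hn]; exact Cfsg.Agent.Lib.Helper1.card_quotient_lt_of_ne_bot M hM1
        exact HasPair.of_quotient M (ih (Nat.card (G ⧸ M)) hlt (G ⧸ M) p q r rfl hp hq hr hpq hpr hqr
          hdiv (hdvdQ q hq hpq.symm hqG) (hdvdQ r hr hpr.symm hrG))
      · exact hasPair_core hp hq hr hpq hpr hqr hcard hqG hrG M hM hM1 hdiv
    haveI : Nontrivial G := by
      rw [← Finite.one_lt_card_iff_nontrivial]
      exact lt_of_lt_of_le hp.one_lt (Nat.le_of_dvd Nat.card_pos hpG)
    obtain ⟨s, hs, M, hMn, hM, hM1⟩ := exists_normal_pSubgroup_of_solvable G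
    have hsG : s ∣ Nat.card G := by
      haveI : Fact s.Prime := ⟨hs⟩
      obtain ⟨k, hk⟩ := IsPGroup.iff_card.1 hM
      have hk0 : k ≠ 0 := by
        rintro rfl
        rw [pow_zero] at hk
        exact hM1 (Subgroup.card_eq_one.1 hk)
      have : s ∣ Nat.card M := by rw [hk]; exact dvd_pow_self s hk0
      exact this.trans (Subgroup.card_subgroup_dvd_card M)
    rcases hcard s hs hsG with rfl | rfl | rfl
    · exact step s q r hs hq hr hpq hpr hqr hpG hqG hrG hcard M hMn hM hM1
    · have := step s p r hs hp hr hpq.symm hqr hpr hqG hpG hrG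
        (fun t ht htG => by rcases hcard t ht htG with h | h | h <;> simp [h]) M hMn hM hM1
      exact this.swap12
    · have := step s p q hs hp hq hpr.symm hqr.symm hpq hrG hpG hqG
        (fun t ht htG => by rcases hcard t ht htG with h | h | h <;> simp [h]) M hMn hM hM1
      exact this.rot

/-- **Three primes lemma** (Higman/Lucido): in a finite solvable group, among any three distinct
primes dividing the order, two of them have their product as the order of an element. -/
theorem three_primes {G : Type u} [Group G] [Finite G] [Group.IsSolvable G] {p q r : ℕ}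
    (hp : p.Prime) (hq : q.Prime) (hr : r.Prime) (hpq : p ≠ q) (hpr : p ≠ r) (hqr : q ≠ r)
    (hpG : p ∣ Nat.card G) (hqG : q ∣ Nat.card G) (hrG : r ∣ Nat.card G) :
    ∃ g : G, orderOf g = p * q ∨ orderOf g = p * r ∨ orderOf g = q * r :=
  three_primes_aux (Nat.card G) G p q r rfl hp hq hr hpq hpr hqr hpG hqG hrG

end Cfsg.Agent.Lib.Helper6
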