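import Mathlib
import Cfsg.Agent.Lib.Lead.NonCyclicAb
import Cfsg.Agent.Lib.Lead.PmQ
import Cfsg.Agent.Lib.Helper1.Basic
import Cfsg.Agent.Lib.Helper1.MinNormal
import Cfsg.Agent.Lib.Helper2.Fit
import Cfsg.Agent.Lib.Helper6.ThreePrimes

set_option autoImplicit false

namespace Cfsg.Agent.Lib.Helper6

open Cfsg.Agent.Lib.Lead

universe u

theorem not_isPrimePow_mul {p q : ℕ} (hp : p.Prime) (hq : q.Prime) (hpq : p ≠ q) :
    ¬ IsPrimePow (p * q) := by
  intro h
  rw [isPrimePow_nat_iff] at h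
  obtain ⟨s, k, hs, -, hk⟩ := h
  have h1 : p ∣ s ^ k := by rw [hk]; exact dvd_mul_right p q
  have h2 : q ∣ s ^ k := by rw [hk]; exact dvd_mul_left q p
  have h3 : p = s := (Nat.prime_dvd_prime_iff_eq hp hs).1 (hp.dvd_of_dvd_pow h1)
  have h4 : q = s := (Nat.prime_dvd_prime_iff_eq hq hs).1 (hq.dvd_of_dvd_pow h2)
  exact hpq (h3.trans h4.symm)

/-- In a group all of whose elements have prime power order, commuting elements cannot have
orders divisible by two different primes. -/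
theorem cp_no_commute {G : Type*} [Group G] [Finite G]
    (hpp : ∀ g : G, g ≠ 1 → IsPrimePow (orderOf g)) (a v : G) (hc : Commute a v)
    {p t : ℕ} (hp : p.Prime) (ht : t.Prime) (hpt : p ≠ t) (hv : p ∣ orderOf v)
    (ha : t ∣ orderOf a) : False := by
  obtain ⟨g, hg⟩ := exists_orderOf_mul_of_commute a v hc hp ht hpt hv ha
  have hg1 : g ≠ 1 := by
    rintro rfl
    rw [orderOf_one] at hg
    have := hp.two_le
    have := ht.two_le
    nlinarith
  have := hpp g hg1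
  rw [hg] at this
  exact not_isPrimePow_mul hp ht hpt this

theorem exists_prime_ne_dvd_card_of_not_pGroup {T : Type*} [Group T] [Finite T] {s : ℕ}
    (_hs : s.Prime) (h : ¬ IsPGroup s T) : ∃ s' : ℕ, s'.Prime ∧ s' ≠ s ∧ s' ∣ Nat.card T := by
  by_contra hcon
  push Not at hcon
  apply h
  haveI : Fact s.Prime := ⟨_hs⟩
  have h1 : Nat.card T = s ^ (Nat.card T).primeFactorsList.length :=
    Nat.eq_prime_pow_of_unique_prime_dvd Nat.card_pos.ne' (fun {d} hd hdT => by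
      by_contra hne
      exact hcon d hd hne hdT)
  exact IsPGroup.of_card h1

theorem not_isPGroup_of_not_isSolvable {T : Type*} [Group T] [Finite T] (h : ¬ Group.IsSolvable T)
    {s : ℕ} (hs : s.Prime) : ¬ IsPGroup s T := by
  intro hT
  haveI : Fact s.Prime := ⟨hs⟩
  obtain ⟨k, hk⟩ := IsPGroup.iff_card.1 hT
  exact h (isSolvable_of_card_prime_pow hs hk)

theorem exists_mem_orderOf_eq_prime {G : Type*} [Group G] [Finite G] (A : Subgroup G) {s : ℕ}
    (hs : s.Prime) (h : s ∣ Nat.card A) : ∃ a ∈ A, orderOf a = s := by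
  haveI : Fact s.Prime := ⟨hs⟩
  obtain ⟨x, hx⟩ := exists_prime_orderOf_dvd_card' s h
  exact ⟨(x : G), x.2, by rw [Subgroup.orderOf_coe]; exact hx⟩

/-- elementwise commuting subgroups in a CP-group -/
theorem cp_commuting_subgroups {X : Type*} [Group X] [Finite X]
    (hpp : ∀ g : X, g ≠ 1 → IsPrimePow (orderOf g)) (A B : Subgroup X)
    (hcomm : ∀ a ∈ A, ∀ b ∈ B, Commute a b) (hA : A ≠ ⊥)
    (hB : ∀ s : ℕ, s.Prime → ∃ s' : ℕ, s'.Prime ∧ s' ≠ s ∧ s' ∣ Nat.card B) : False := by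
  have hA1 : Nat.card A ≠ 1 := fun h => hA (Subgroup.card_eq_one.1 h)
  obtain ⟨s, hs, hsA⟩ := Nat.exists_prime_and_dvd hA1
  obtain ⟨a, haA, ha⟩ := exists_mem_orderOf_eq_prime A hs hsA
  obtain ⟨s', hs', hne, hs'B⟩ := hB s hs
  obtain ⟨b, hbB, hb⟩ := exists_mem_orderOf_eq_prime B hs' hs'B
  exact cp_no_commute hpp a b (hcomm a haA b hbB) hs' hs hne (by rw [hb]) (by rw [ha])

theorem inf_centralizer_comm {G : Type*} [Group G] (M : Subgroup G) :
    ∀ x ∈ M ⊓ Subgroup.centralizer (M : Set G), ∀ y ∈ M ⊓ Subgroup.centralizer (M : Set G),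
      x * y = y * x := by
  intro x hx y hy
  have hb : y ∈ Subgroup.centralizer (M : Set G) := hy.2
  rw [Subgroup.mem_centralizer_iff] at hb
  exact hb x hx.1

theorem inf_centralizer_ne_bot {G : Type*} [Group G] [Finite G] {p : ℕ} [Fact p.Prime]
    (M : Subgroup G) (hM : IsPGroup p M) (hM1 : M ≠ ⊥) :
    M ⊓ Subgroup.centralizer (M : Set G) ≠ ⊥ := by
  haveI : Nontrivial M := (Subgroup.nontrivial_iff_ne_bot M).2 hM1
  haveI := hM.center_nontrivial
  obtain ⟨z, hz⟩ := exists_ne (1 : Subgroup.center M)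
  intro hbot
  have hzV : ((z : M) : G) ∈ M ⊓ Subgroup.centralizer (M : Set G) := by
    refine ⟨(z : M).2, ?_⟩
    show ((z : M) : G) ∈ Subgroup.centralizer (M : Set G)
    rw [Subgroup.mem_centralizer_iff]
    intro h hh
    have := Subgroup.mem_center_iff.1 z.2 ⟨h, hh⟩
    exact congrArg Subtype.val this
  rw [hbot, Subgroup.mem_bot] at hzV
  apply hz
  apply Subtype.ext
  apply Subtype.ext
  exact hzV

theorem dvd_orderOf_of_mem_pGroup {G : Type*} [Group G] {p : ℕ} (hp : p.Prime) (M : Subgroup G)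
    (hM : IsPGroup p M) {v : G} (hv : v ∈ M) (hv1 : v ≠ 1) : p ∣ orderOf v := by
  obtain ⟨j, hj⟩ := hM ⟨v, hv⟩
  have h1 : v ^ p ^ j = 1 := congrArg Subtype.val hj
  have h2 : orderOf v ∣ p ^ j := orderOf_dvd_of_pow_eq_one h1
  obtain ⟨i, -, hi⟩ := (Nat.dvd_prime_pow hp).1 h2
  rw [hi]
  have : i ≠ 0 := by
    rintro rfl
    rw [pow_zero, orderOf_eq_one_iff] at hi
    exact hv1 hi
  exact dvd_pow_self p this

/-- In a CP-group, the centralizer of an element of prime order `q` is a `q`-group. -/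
theorem cp_centralizer_isPGroup {G : Type*} [Group G] [Finite G]
    (hpp : ∀ g : G, g ≠ 1 → IsPrimePow (orderOf g)) {q : ℕ} (hq : q.Prime) (z : G)
    (hz : orderOf z = q) (C : Subgroup G) (hC : ∀ x ∈ C, Commute x z) : IsPGroup q C := by
  intro x
  by_cases hx1 : (x : G) = 1
  · exact ⟨0, Subtype.ext (by simpa using hx1)⟩
  have h1 := hpp (x : G) hx1
  rw [isPrimePow_nat_iff] at h1
  obtain ⟨s, k, hs, hk0, hk⟩ := h1
  have hsq : s = q := by
    by_contra hne
    exact cp_no_commute hpp (x : G) z (hC x x.2) hq hs (Ne.symm hne) (by rw [hz])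
      (by rw [← hk]; exact dvd_pow_self s hk0.ne')
  refine ⟨k, Subtype.ext ?_⟩
  rw [← hsq, hk]
  simp [pow_orderOf_eq_one]

open scoped IsMulCommutative in
/-- In a non-solvable CP-group, every solvable normal subgroup is a `p`-group. -/
theorem cp_radical_pgroup {G : Type u} [Group G] [Finite G] (hns : ¬ Group.IsSolvable G)
    (hpp : ∀ g : G, g ≠ 1 → IsPrimePow (orderOf g)) (R : Subgroup G) [hRn : R.Normal]
    (hRs : Group.IsSolvable R) : ∃ p : ℕ, p.Prime ∧ IsPGroup p R := by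
  classical
  by_cases hR1 : R = ⊥
  · refine ⟨2, Nat.prime_two, ?_⟩
    rw [hR1]
    exact IsPGroup.of_bot
  haveI : Nontrivial R := (Subgroup.nontrivial_iff_ne_bot R).2 hR1
  obtain ⟨p, hp, P, hPn, hPp, hP1⟩ := exists_normal_pSubgroup_of_solvable R
  haveI : Fact p.Prime := ⟨hp⟩
  refine ⟨p, hp, ?_⟩
  by_contra hRp
  set O := Cfsg.pCore p R with hO
  have hPO : P ≤ O := le_sSup ⟨hPn, hPp⟩
  have hO1 : O ≠ ⊥ := fun h => hP1 (le_bot_iff.1 (h ▸ hPO))
  haveI : O.Characteristic := Cfsg.Agent.Lib.Helper2.pCore_characteristic' p R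
  set N := O.map R.subtype with hN
  haveI hNn : N.Normal := inferInstance
  have hNp : IsPGroup p N := (Cfsg.Agent.Lib.Helper2.pCore_isPGroup' p R).map R.subtype
  have hN1 : N ≠ ⊥ := by
    intro h
    apply hO1
    rw [hN] at h
    exact (Subgroup.map_eq_bot_iff_of_injective O (Subgroup.subtype_injective R)).1 h
  set V := N ⊓ Subgroup.centralizer (N : Set G) with hV
  have hVn : Subgroup.normalizer (V : Set G) = ⊤ := by
    have h1 := normalizer_le_normalizer_inf_centralizer N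
    rw [Subgroup.normalizer_eq_top] at h1
    exact top_le_iff.1 h1
  haveI : IsMulCommutative V :=
    ⟨⟨fun a b => Subtype.ext (inf_centralizer_comm N a a.2 b b.2)⟩⟩
  have hV1 : V ≠ ⊥ := inf_centralizer_ne_bot N hNp hN1
  have hVp : IsPGroup p V := hNp.to_le inf_le_left
  -- a second prime
  obtain ⟨q, hq, hqp, hqR⟩ := exists_prime_ne_dvd_card_of_not_pGroup hp hRp
  haveI : Fact q.Prime := ⟨hq⟩
  obtain ⟨Q⟩ : Nonempty (Sylow q R) := inferInstance
  set Q' := (Q : Subgroup R).map R.subtype with hQ'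
  have hfrat : Subgroup.normalizer (Q' : Set G) ⊔ R = ⊤ := Sylow.normalizer_sup_eq_top Q
  set L := Subgroup.normalizer (Q' : Set G) with hL
  have hQ'p : IsPGroup q Q' := Q.2.map R.subtype
  have hQ'1 : Q' ≠ ⊥ := by
    intro h
    rw [hQ'] at h
    exact Sylow.ne_bot_of_dvd_card Q hqR
      ((Subgroup.map_eq_bot_iff_of_injective _ (Subgroup.subtype_injective R)).1 h)
  set Zq := Q' ⊓ Subgroup.centralizer (Q' : Set G) with hZq
  have hLZ : L ≤ Subgroup.normalizer (Zq : Set G) := normalizer_le_normalizer_inf_centralizer Q'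
  have hZc : ∀ x ∈ Zq, ∀ y ∈ Zq, x * y = y * x := inf_centralizer_comm Q'
  have hZ1 : Zq ≠ ⊥ := inf_centralizer_ne_bot Q' hQ'p hQ'1
  have hZp : IsPGroup q Zq := hQ'p.to_le inf_le_left
  set Ω := omegaSub Zq hZc q with hΩ
  have hΩ1 : Ω ≠ ⊥ := by
    obtain ⟨k, hk⟩ := IsPGroup.iff_card.1 hZp
    have hk0 : k ≠ 0 := by
      rintro rfl
      rw [pow_zero] at hk
      exact hZ1 (Subgroup.card_eq_one.1 hk)
    obtain ⟨z, hzZ, hz⟩ := exists_mem_orderOf_eq_prime Zq hq (by rw [hk]; exact dvd_pow_self q hk0)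
    intro h
    have hzΩ : z ∈ Ω := (mem_omegaSub Zq hZc q).2 ⟨hzZ, by rw [← hz]; exact pow_orderOf_eq_one z⟩
    rw [h, Subgroup.mem_bot] at hzΩ
    rw [hzΩ, orderOf_one] at hz
    exact hq.one_lt.ne' hz.symm
  have hLΩ : L ≤ Subgroup.normalizer (Ω : Set G) := by
    intro l hl
    apply Cfsg.Agent.Lib.Helper1.mem_normalizer_of_finite
    intro x hx
    rw [hΩ, mem_omegaSub] at hx ⊢
    refine ⟨(Subgroup.mem_normalizer_iff.1 (hLZ hl) x).1 hx.1, ?_⟩
    rw [conj_pow, hx.2, mul_one, mul_inv_cancel]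
  haveI : IsMulCommutative Ω :=
    ⟨⟨fun a b => Subtype.ext (hZc a ((mem_omegaSub Zq hZc q).1 a.2).1 b ((mem_omegaSub Zq hZc q).1 b.2).1)⟩⟩
  have hord : ∀ a ∈ Ω, a ≠ 1 → orderOf a = q := by
    intro a ha ha1
    have h1 : orderOf a ∣ q := orderOf_dvd_of_pow_eq_one ((mem_omegaSub Zq hZc q).1 ha).2
    rcases (Nat.dvd_prime hq).1 h1 with h | h
    · exact absurd (orderOf_eq_one_iff.1 h) ha1
    · exact h
  have hfpf : ∀ a ∈ Ω, a ≠ 1 → V ⊓ Subgroup.centralizer {a} = ⊥ := by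
    intro a ha ha1
    rw [eq_bot_iff]
    rintro v ⟨hv, hvc⟩
    rw [Subgroup.mem_bot]
    by_contra hv1
    have hvc' : v ∈ Subgroup.centralizer ({a} : Set G) := hvc
    rw [Subgroup.mem_centralizer_singleton_iff] at hvc'
    exact cp_no_commute hpp a v hvc'.symm hp hq (Ne.symm hqp)
      (dvd_orderOf_of_mem_pGroup hp V hVp hv hv1) (by rw [hord a ha ha1])
  have hΩcyc : IsCyclic Ω :=
    fpf_cyclic_of_comm_or_pq Ω V hV1 (by rw [hVn]; exact le_top) hfpf (Or.inl inferInstance)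
  obtain ⟨g, hg⟩ := hΩcyc.exists_generator
  set z₀ : G := (g : G) with hz₀
  have hz₀Ω : z₀ ∈ Ω := g.2
  have hz₀1 : z₀ ≠ 1 := by
    intro h
    apply hΩ1
    rw [eq_bot_iff]
    intro x hx
    obtain ⟨i, hi⟩ := Subgroup.mem_zpowers_iff.1 (hg ⟨x, hx⟩)
    have h2 : z₀ ^ i = x := by
      have := congrArg Subtype.val hi
      simpa using this
    rw [Subgroup.mem_bot, ← h2, h, one_zpow]
  have hz₀q : orderOf z₀ = q := hord z₀ hz₀Ω hz₀1
  have hΩz : ∀ x ∈ Ω, ∃ i : ℤ, x = z₀ ^ i := by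
    intro x hx
    obtain ⟨i, hi⟩ := Subgroup.mem_zpowers_iff.1 (hg ⟨x, hx⟩)
    refine ⟨i, ?_⟩
    have := congrArg Subtype.val hi
    simpa using this.symm
  have hLz : ∀ l ∈ L, ∃ i : ℤ, l * z₀ * l⁻¹ = z₀ ^ i := by
    intro l hl
    exact hΩz _ ((Subgroup.mem_normalizer_iff.1 (hLΩ hl) z₀).1 hz₀Ω)
  set C := Subgroup.centralizer ({z₀} : Set G) with hC
  have hCp : IsPGroup q C := by
    apply cp_centralizer_isPGroup hpp hq z₀ hz₀q C
    intro x hx
    rw [hC, Subgroup.mem_centralizer_singleton_iff] at hx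
    exact hx
  have hcommL : ∀ a ∈ L, ∀ b ∈ L, a * b * a⁻¹ * b⁻¹ ∈ C := by
    intro a ha b hb
    obtain ⟨i, hi⟩ := hLz a⁻¹ (L.inv_mem ha)
    obtain ⟨j, hj⟩ := hLz b⁻¹ (L.inv_mem hb)
    have e1 : a⁻¹ * b⁻¹ * z₀ * (a⁻¹ * b⁻¹)⁻¹ = z₀ ^ (i * j) := by
      calc a⁻¹ * b⁻¹ * z₀ * (a⁻¹ * b⁻¹)⁻¹ = a⁻¹ * (b⁻¹ * z₀ * b⁻¹⁻¹) * a⁻¹⁻¹ := by group
        _ = a⁻¹ * z₀ ^ j * a⁻¹⁻¹ := by rw [hj]
        _ = (a⁻¹ * z₀ * a⁻¹⁻¹) ^ j := conj_zpow.symm
        _ = z₀ ^ (i * j) := by rw [hi, zpow_mul]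
    have e2 : b⁻¹ * a⁻¹ * z₀ * (b⁻¹ * a⁻¹)⁻¹ = z₀ ^ (i * j) := by
      calc b⁻¹ * a⁻¹ * z₀ * (b⁻¹ * a⁻¹)⁻¹ = b⁻¹ * (a⁻¹ * z₀ * a⁻¹⁻¹) * b⁻¹⁻¹ := by group
        _ = b⁻¹ * z₀ ^ i * b⁻¹⁻¹ := by rw [hi]
        _ = (b⁻¹ * z₀ * b⁻¹⁻¹) ^ i := conj_zpow.symm
        _ = z₀ ^ (i * j) := by rw [hj, mul_comm i j, zpow_mul]
    rw [hC, Subgroup.mem_centralizer_singleton_iff]
    calc a * b * a⁻¹ * b⁻¹ * z₀ = (a * b) * (a⁻¹ * b⁻¹ * z₀ * (a⁻¹ * b⁻¹)⁻¹) * (a⁻¹ * b⁻¹) := by group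
      _ = (a * b) * (b⁻¹ * a⁻¹ * z₀ * (b⁻¹ * a⁻¹)⁻¹) * (a⁻¹ * b⁻¹) := by rw [e1, e2]
      _ = z₀ * (a * b * a⁻¹ * b⁻¹) := by group
  -- L is solvable
  have hLsol : Group.IsSolvable L := by
    have hCL : IsPGroup q (C.subgroupOf L) := hCp.comap_subtype
    obtain ⟨k, hk⟩ := IsPGroup.iff_card.1 hCL
    haveI : Group.IsSolvable (C.subgroupOf L) := isSolvable_of_card_prime_pow hq hk
    refine Group.isSolvable_of_ker_le_range (C.subgroupOf L).subtype (Abelianization.of (G := L)) ?_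
    rw [Abelianization.ker_of, Subgroup.range_subtype, commutator_def, Subgroup.commutator_le]
    intro a _ b _
    rw [Subgroup.mem_subgroupOf, commutatorElement_def]
    exact hcommL a a.2 b b.2
  -- hence G/R is solvable
  have hsurj : Function.Surjective ((QuotientGroup.mk' R).comp L.subtype) := by
    intro y
    obtain ⟨x, rfl⟩ := QuotientGroup.mk_surjective y
    have hx : x ∈ L ⊔ R := by rw [hfrat]; exact Subgroup.mem_top x
    have hx' : x ∈ ((L ⊔ R : Subgroup G) : Set G) := hx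
    rw [Subgroup.mul_normal L R] at hx'
    obtain ⟨l, hl, r, hr, rfl⟩ := Set.mem_mul.1 hx'
    refine ⟨⟨l, hl⟩, ?_⟩
    simp only [MonoidHom.comp_apply, Subgroup.coe_subtype, QuotientGroup.mk'_apply]
    rw [QuotientGroup.mk_mul, (QuotientGroup.eq_one_iff r).2 hr, mul_one]
  haveI := hLsol
  have hQsol : Group.IsSolvable (G ⧸ R) := Group.isSolvable_of_surjective hsurj
  exact hns (isSolvable_of_normal R hRs hQsol)

/-- A minimal normal subgroup of a CP-group without solvable normal subgroups is simple. -/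
theorem cp_minNormal_simple {X : Type u} [Group X] [Finite X]
    (hpp : ∀ g : X, g ≠ 1 → IsPrimePow (orderOf g))
    (hns : ∀ N : Subgroup X, N.Normal → Group.IsSolvable N → N = ⊥)
    (M : Subgroup X) [hMn : M.Normal] (hM1 : M ≠ ⊥)
    (hmin : ∀ K : Subgroup X, K.Normal → K ≤ M → K = ⊥ ∨ K = M) : IsSimpleGroup M := by
  classical
  haveI : Nontrivial M := (Subgroup.nontrivial_iff_ne_bot M).2 hM1
  refine ⟨fun T' hT'n => ?_⟩
  by_contra hcon
  push Not at hcon
  -- choose a nontrivial normal subgroup of M of least order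
  have hex : ∃ n : ℕ, ∃ T : Subgroup M, T.Normal ∧ T ≠ ⊥ ∧ T ≠ ⊤ ∧ Nat.card T = n :=
    ⟨_, T', hT'n, hcon.1, hcon.2, rfl⟩
  obtain ⟨T₀, hT₀n, hT₀1, hT₀top, hT₀card⟩ := Nat.find_spec hex
  have hleast : ∀ S : Subgroup M, S.Normal → S ≠ ⊥ → S ≤ T₀ → S = T₀ := by
    intro S hSn hS1 hST
    by_contra hne
    have hlt : Nat.card S < Nat.card T₀ := by
      rcases lt_or_eq_of_le (Subgroup.card_le_of_le hST) with h | h
      · exact h
      · exact absurd (Subgroup.eq_of_le_of_card_ge hST h.ge) hne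
    have hStop : S ≠ ⊤ := fun h => hT₀top (top_le_iff.1 (h ▸ hST))
    exact Nat.find_min hex (hT₀card ▸ hlt) ⟨S, hSn, hS1, hStop, rfl⟩
  -- T₀ is not a prime power group
  have hT₀np : ∀ s : ℕ, s.Prime → ¬ IsPGroup s T₀ := by
    intro s hs hT₀p
    haveI : Fact s.Prime := ⟨hs⟩
    set O := Cfsg.pCore s M with hO
    have hTO : T₀ ≤ O := le_sSup ⟨hT₀n, hT₀p⟩
    haveI : O.Characteristic := Cfsg.Agent.Lib.Helper2.pCore_characteristic' s M
    have hOn : (O.map M.subtype).Normal := inferInstance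
    have hOp : IsPGroup s (O.map M.subtype) :=
      (Cfsg.Agent.Lib.Helper2.pCore_isPGroup' s M).map M.subtype
    obtain ⟨k, hk⟩ := IsPGroup.iff_card.1 hOp
    have h1 := hns _ hOn (isSolvable_of_card_prime_pow hs hk)
    have h2 : O = ⊥ := (Subgroup.map_eq_bot_iff_of_injective O (Subgroup.subtype_injective M)).1 h1
    exact hT₀1 (le_bot_iff.1 (h2 ▸ hTO))
  set T := T₀.map M.subtype with hT
  have hTM : T ≤ M := by
    rintro x ⟨y, -, rfl⟩
    exact y.2
  have hmemT : ∀ (x : X) (hx : x ∈ M), x ∈ T ↔ (⟨x, hx⟩ : M) ∈ T₀ := by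
    intro x hx
    constructor
    · rintro ⟨y, hy, hyx⟩
      have : y = ⟨x, hx⟩ := Subtype.ext hyx
      rw [← this]; exact hy
    · intro h
      exact ⟨⟨x, hx⟩, h, rfl⟩
  -- M normalizes T
  have hMT : ∀ m ∈ M, ∀ t ∈ T, m * t * m⁻¹ ∈ T := by
    intro m hm t ht
    have htM := hTM ht
    rw [hmemT _ (hMn.conj_mem t htM m)]
    have := hT₀n.conj_mem ⟨t, htM⟩ ((hmemT t htM).1 ht) ⟨m, hm⟩
    exact this
  -- some conjugate of T differs from T
  have hexx : ∃ x : X, ∃ t ∈ T, x * t * x⁻¹ ∉ T := by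
    by_contra hno
    push Not at hno
    have hTn : T.Normal := ⟨fun t ht x => hno x t ht⟩
    have hT1 : T ≠ ⊥ := by
      intro h
      exact hT₀1 ((Subgroup.map_eq_bot_iff_of_injective T₀ (Subgroup.subtype_injective M)).1 h)
    rcases hmin T hTn hTM with h | h
    · exact hT1 h
    · apply hT₀top
      rw [eq_top_iff]
      intro y _
      have : (y : X) ∈ T := by rw [h]; exact y.2
      exact (hmemT _ y.2).1 this
  obtain ⟨x, t₁, ht₁, hxt₁⟩ := hexx
  set T₂ := T.map (MulAut.conj x).toMonoidHom with hT₂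
  have hmemT₂ : ∀ y : X, y ∈ T₂ ↔ x⁻¹ * y * x ∈ T := by
    intro y
    constructor
    · rintro ⟨t, ht, rfl⟩
      have : x⁻¹ * ((MulAut.conj x).toMonoidHom t) * x = t := by
        simp [MulAut.conj_apply, mul_assoc]
      rw [this]; exact ht
    · intro h
      refine ⟨x⁻¹ * y * x, h, ?_⟩
      simp [MulAut.conj_apply, mul_assoc]
  have hT₂M : T₂ ≤ M := by
    intro y hy
    rw [hmemT₂] at hy
    have h1 := hMn.conj_mem _ (hTM hy) x
    have h2 : x * (x⁻¹ * y * x) * x⁻¹ = y := by group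
    rw [h2] at h1
    exact h1
  have hMT₂ : ∀ m ∈ M, ∀ u ∈ T₂, m * u * m⁻¹ ∈ T₂ := by
    intro m hm u hu
    rw [hmemT₂] at hu ⊢
    have hm' : x⁻¹ * m * x ∈ M := by
      have := hMn.conj_mem m hm x⁻¹
      simpa using this
    have := hMT _ hm' _ hu
    have e : x⁻¹ * m * x * (x⁻¹ * u * x) * (x⁻¹ * m * x)⁻¹ = x⁻¹ * (m * u * m⁻¹) * x := by group
    rw [e] at this
    exact this
  have hcardT₂ : Nat.card T₂ = Nat.card T :=
    Subgroup.card_map_of_injective (MulAut.conj x).injective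
  -- T ⊓ T₂ = ⊥
  have hinf : T ⊓ T₂ = ⊥ := by
    set S : Subgroup M := T₀ ⊓ T₂.subgroupOf M with hS
    have hSn : S.Normal := by
      refine ⟨fun y hy m => ?_⟩
      refine ⟨hT₀n.conj_mem y hy.1 m, ?_⟩
      show m * y * m⁻¹ ∈ T₂.subgroupOf M
      rw [Subgroup.mem_subgroupOf]
      exact hMT₂ m m.2 y (Subgroup.mem_subgroupOf.1 hy.2)
    by_cases hS1 : S = ⊥
    · rw [eq_bot_iff]
      rintro y ⟨hy1, hy2⟩
      have hyM := hTM hy1
      have : (⟨y, hyM⟩ : M) ∈ S := ⟨(hmemT y hyM).1 hy1, Subgroup.mem_subgroupOf.2 hy2⟩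
      rw [hS1, Subgroup.mem_bot] at this
      rw [Subgroup.mem_bot]
      exact congrArg Subtype.val this
    · exfalso
      have hST : S = T₀ := hleast S hSn hS1 inf_le_left
      have hTT₂ : T ≤ T₂ := by
        intro y hy
        have hyM := hTM hy
        have : (⟨y, hyM⟩ : M) ∈ S := by rw [hST]; exact (hmemT y hyM).1 hy
        exact Subgroup.mem_subgroupOf.1 this.2
      have hTeq : T = T₂ := Subgroup.eq_of_le_of_card_ge hTT₂ hcardT₂.le
      apply hxt₁
      rw [hTeq]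
      exact ⟨t₁, ht₁, rfl⟩
  have hcomm : ∀ a ∈ T, ∀ b ∈ T₂, Commute a b := by
    intro a ha b hb
    have h1 : a * b * a⁻¹ * b⁻¹ ∈ T := by
      have := hMT b (hT₂M hb) a⁻¹ (T.inv_mem ha)
      have e : a * b * a⁻¹ * b⁻¹ = a * (b * a⁻¹ * b⁻¹) := by group
      rw [e]
      exact T.mul_mem ha this
    have h2 : a * b * a⁻¹ * b⁻¹ ∈ T₂ := by
      have := hMT₂ a (hTM ha) b hb
      exact T₂.mul_mem this (T₂.inv_mem hb)
    have h3 : a * b * a⁻¹ * b⁻¹ ∈ T ⊓ T₂ := ⟨h1, h2⟩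
    rw [hinf, Subgroup.mem_bot] at h3
    show a * b = b * a
    calc a * b = (a * b * a⁻¹ * b⁻¹) * (b * a) := by group
      _ = b * a := by rw [h3, one_mul]
  have hT1 : T ≠ ⊥ := by
    intro h
    exact hT₀1 ((Subgroup.map_eq_bot_iff_of_injective T₀ (Subgroup.subtype_injective M)).1 h)
  have hcardT : Nat.card T = Nat.card T₀ :=
    Subgroup.card_map_of_injective (Subgroup.subtype_injective M)
  exact cp_commuting_subgroups hpp T T₂ hcomm hT1 (fun s hs => by
    rw [hcardT₂, hcardT]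
    exact exists_prime_ne_dvd_card_of_not_pGroup hs (hT₀np s hs))

/-- A CP-group without nontrivial solvable normal subgroups has a unique minimal normal subgroup,
which is non-abelian simple. -/
theorem cp_unique_minimal {X : Type u} [Group X] [Finite X] [Nontrivial X]
    (hpp : ∀ g : X, g ≠ 1 → IsPrimePow (orderOf g))
    (hns : ∀ N : Subgroup X, N.Normal → Group.IsSolvable N → N = ⊥) :
    ∃ M : Subgroup X, M.Normal ∧ IsSimpleGroup M ∧ ¬ IsMulCommutative M ∧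
      ∀ N : Subgroup X, N.Normal → N ≠ ⊥ → M ≤ N := by
  classical
  obtain ⟨M, hMn, -, hM1, hmin⟩ :=
    Cfsg.Agent.Lib.Helper1.exists_minimal_normal_le (⊤ : Subgroup X) inferInstance top_ne_bot
  haveI := hMn
  refine ⟨M, hMn, cp_minNormal_simple hpp hns M hM1 hmin, ?_, ?_⟩
  · intro hc
    apply hM1
    apply hns M hMn
    exact Group.isSolvable_of_comm (fun a b => hc.is_comm.comm a b)
  · intro N hNn hN1
    haveI := hNn
    have hMNn : (M ⊓ N).Normal := inferInstance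
    rcases hmin (M ⊓ N) hMNn inf_le_left with h | h
    · exfalso
      have hcomm : ∀ a ∈ M, ∀ b ∈ N, Commute a b := by
        intro a ha b hb
        have h3 : a * b * a⁻¹ * b⁻¹ ∈ M ⊓ N := by
          refine ⟨?_, ?_⟩
          · have := hMn.conj_mem a⁻¹ (M.inv_mem ha) b
            have e : a * b * a⁻¹ * b⁻¹ = a * (b * a⁻¹ * b⁻¹) := by group
            rw [e]
            exact M.mul_mem ha this
          · have := hNn.conj_mem b hb a
            exact N.mul_mem this (N.inv_mem hb)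
        rw [h, Subgroup.mem_bot] at h3
        show a * b = b * a
        calc a * b = (a * b * a⁻¹ * b⁻¹) * (b * a) := by group
          _ = b * a := by rw [h3, one_mul]
      have hNns : ¬ Group.IsSolvable N := fun hs => hN1 (hns N hNn hs)
      exact cp_commuting_subgroups hpp M N hcomm hM1 (fun s hs =>
        exists_prime_ne_dvd_card_of_not_pGroup hs (not_isPGroup_of_not_isSolvable hNns hs))
    · rw [← h]; exact inf_le_right

end Cfsg.Agent.Lib.Helper6
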