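import Mathlib

set_option autoImplicit false

namespace Cfsg.Agent.Lib.Helper6

variable {G : Type*} [Group G]

/-- If a subgroup `C` contains every element of prime power order `q ^ b` with `q ≠ p`, then it
contains every element of order prime to `p`. -/
theorem mem_of_coprime_order [Finite G] (p : ℕ) (C : Subgroup G)
    (hC : ∀ y : G, (∃ q b : ℕ, q.Prime ∧ q ≠ p ∧ orderOf y = q ^ b) → y ∈ C) :
    ∀ n : ℕ, ∀ h : G, orderOf h = n → n.Coprime p → h ∈ C := by
  intro n
  induction n using Nat.strong_induction_on with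
  | _ n ih =>
    intro h hn hcop
    by_cases h1 : n = 1
    · rw [h1, orderOf_eq_one_iff] at hn
      rw [hn]; exact one_mem _
    · have hnpos : 0 < n := by rw [← hn]; exact orderOf_pos h
      obtain ⟨q, hq, hqn⟩ := Nat.exists_prime_and_dvd h1
      obtain ⟨v, m, hqm, hnm⟩ := Nat.exists_eq_pow_mul_and_not_dvd hnpos.ne' q hq.ne_one
      have hv : v ≠ 0 := by
        intro hv0
        rw [hv0, pow_zero, one_mul] at hnm
        rw [hnm] at hqn
        exact hqm hqn
      have hmpos : 0 < m := by
        rcases Nat.eq_zero_or_pos m with h0 | h0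
        · rw [h0, mul_zero] at hnm; omega
        · exact h0
      have hqp : q ≠ p := by
        intro hqp
        rw [← hqp] at hcop
        have : q ∣ Nat.gcd n q := Nat.dvd_gcd hqn dvd_rfl
        rw [hcop] at this
        exact hq.one_lt.ne' (Nat.dvd_one.mp this)
      -- h^m has order q^v
      have ho1 : orderOf (h ^ m) = q ^ v := by
        rw [orderOf_pow_of_dvd hmpos.ne' (by rw [hn, hnm]; exact dvd_mul_left _ _), hn, hnm]
        exact Nat.mul_div_cancel _ hmpos
      have hmem1 : h ^ m ∈ C := hC _ ⟨q, v, hq, hqp, ho1⟩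
      -- h^(q^v) has order m < n
      have hqv : 0 < q ^ v := pow_pos hq.pos v
      have ho2 : orderOf (h ^ (q ^ v)) = m := by
        rw [orderOf_pow_of_dvd hqv.ne' (by rw [hn, hnm]; exact dvd_mul_right _ _), hn, hnm]
        exact Nat.mul_div_cancel_left _ hqv
      have hmlt : m < n := by
        rw [hnm]
        have : 1 < q ^ v := Nat.one_lt_pow hv hq.one_lt
        nlinarith
      have hmcop : m.Coprime p := Nat.Coprime.coprime_dvd_left (by rw [hnm]; exact dvd_mul_left _ _) hcop
      have hmem2 : h ^ (q ^ v) ∈ C := ih m hmlt _ ho2 hmcop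
      -- Bezout
      have hcop2 : Nat.Coprime m (q ^ v) := by
        apply Nat.Coprime.pow_right
        exact (Nat.Coprime.symm ((Nat.Prime.coprime_iff_not_dvd hq).mpr hqm))
      have hbez : IsCoprime (m : ℤ) ((q ^ v : ℕ) : ℤ) := Nat.isCoprime_iff_coprime.mpr hcop2
      obtain ⟨a, b, hab⟩ := hbez
      have e : h = (h ^ m) ^ a * (h ^ (q ^ v)) ^ b := by
        rw [← zpow_natCast, ← zpow_natCast, ← zpow_mul, ← zpow_mul, ← zpow_add]
        have : (m : ℤ) * a + ((q ^ v : ℕ) : ℤ) * b = 1 := by rw [← hab]; ring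
        rw [this, zpow_one]
      rw [e]
      exact C.mul_mem (C.zpow_mem hmem1 a) (C.zpow_mem hmem2 b)

end Cfsg.Agent.Lib.Helper6
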