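import Mathlib
import Cfsg.Agent.Lib.Helper1.Basic
import Cfsg.Agent.Lib.Helper1.Subn

set_option autoImplicit false

universe u

namespace Cfsg.Agent.Lib.Helper6

open Pointwise

/-- a subnormal non-normal subgroup has a conjugate, different from it, inside its normalizer -/
theorem exists_conj_le_normalizer_of_subnormal {K : Type*} [Group K] (B : Subgroup K)
    (hB : B.IsSubnormal) (hn : ¬ B.Normal) :
    ∃ x : K, x ∉ Subgroup.normalizer (B : Set K) ∧
      ∀ b ∈ B, x * b * x⁻¹ ∈ Subgroup.normalizer (B : Set K) := by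
  classical
  obtain ⟨n, f, hmono, hnorm, h0, hn'⟩ := Subgroup.IsSubnormal.exists_chain hB
  have hex : ∃ j, ¬ f j ≤ Subgroup.normalizer (B : Set K) := by
    refine ⟨n, ?_⟩
    rw [hn']
    intro h
    exact hn (Subgroup.normalizer_eq_top_iff.1 (top_le_iff.1 h))
  have hj := Nat.find_spec hex
  have hjmin := fun m (hm : m < Nat.find hex) => Nat.find_min hex hm
  obtain ⟨j, hjeq⟩ : ∃ j, j = Nat.find hex := ⟨_, rfl⟩
  rw [← hjeq] at hj hjmin
  have hj0 : j ≠ 0 := by
    rintro rfl
    apply hj
    rw [h0]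
    exact Subgroup.le_normalizer
  obtain ⟨i, rfl⟩ : ∃ i, j = i + 1 := ⟨j - 1, by omega⟩
  have hi : f i ≤ Subgroup.normalizer (B : Set K) := by
    have := hjmin i (by omega)
    exact not_not.1 this
  obtain ⟨x, hx, hxN⟩ := SetLike.not_le_iff_exists.1 hj
  have hnn : f (i + 1) ≤ Subgroup.normalizer ((f i : Subgroup K) : Set K) :=
    (Subgroup.normal_subgroupOf_iff_le_normalizer (hmono (Nat.le_succ i))).1 (hnorm i)
  refine ⟨x, hxN, ?_⟩
  intro b hb
  apply hi
  have hbi : b ∈ f i := by
    have : f 0 ≤ f i := hmono (Nat.zero_le i)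
    rw [h0] at this
    exact this hb
  exact (Subgroup.mem_normalizer_iff.1 (hnn hx) b).1 hbi

/-- ambient version -/
theorem exists_conj_le_normalizer_of_subnormal' {G : Type*} [Group G] (B K : Subgroup G)
    (hBK : B ≤ K) (hB : (B.subgroupOf K).IsSubnormal)
    (hn : ¬ K ≤ Subgroup.normalizer (B : Set G)) :
    ∃ x ∈ K, x ∉ Subgroup.normalizer (B : Set G) ∧
      ∀ b ∈ B, x * b * x⁻¹ ∈ Subgroup.normalizer (B : Set G) := by
  have hn' : ¬ (B.subgroupOf K).Normal := by
    intro h
    exact hn ((Subgroup.normal_subgroupOf_iff_le_normalizer hBK).1 h)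
  obtain ⟨x, hx1, hx2⟩ := exists_conj_le_normalizer_of_subnormal _ hB hn'
  rw [← Subgroup.subgroupOf_normalizer_eq hBK] at hx1 hx2
  refine ⟨x.1, x.2, ?_, ?_⟩
  · intro h
    exact hx1 (Subgroup.mem_subgroupOf.2 h)
  · intro b hb
    have := hx2 ⟨b, hBK hb⟩ (Subgroup.mem_subgroupOf.2 hb)
    exact Subgroup.mem_subgroupOf.1 this

/-- conjugates of subnormal subgroups of proper subgroups -/
theorem subnormal_conj_subgroupOf {G : Type*} [Group G] (S H : Subgroup G) (x : G)
    (hS : (S.subgroupOf (H.comap (MulAut.conj x).toMonoidHom)).IsSubnormal) :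
    ((MulAut.conj x • S).subgroupOf H).IsSubnormal := by
  let ψ : ↥H →* ↥(H.comap (MulAut.conj x).toMonoidHom) :=
    { toFun := fun h => ⟨x⁻¹ * h.1 * x, by
        rw [Subgroup.mem_comap]
        have : (MulAut.conj x).toMonoidHom (x⁻¹ * h.1 * x) = h.1 := by
          simp [MulAut.conj_apply, mul_assoc]
        rw [this]; exact h.2⟩
      map_one' := by
        apply Subtype.ext; simp
      map_mul' := by
        intro a b
        apply Subtype.ext
        simp only [Subgroup.coe_mul]
        group }
  have h := hS.comap ψ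
  have heq : (S.subgroupOf (H.comap (MulAut.conj x).toMonoidHom)).comap ψ =
      (MulAut.conj x • S).subgroupOf H := by
    ext h
    rw [Subgroup.mem_comap, Subgroup.mem_subgroupOf, Subgroup.mem_subgroupOf,
      Cfsg.Agent.Lib.Helper1.mem_conj_smul]
    rfl
  rw [heq] at h
  exact h

/-- Wielandt's zipper lemma. -/
theorem zipper (G : Type u) [Group G] [Finite G] : ∀ n : ℕ, ∀ S : Subgroup G,
    Nat.card G - Nat.card S = n →
    (∀ H : Subgroup G, S ≤ H → H ≠ ⊤ → (S.subgroupOf H).IsSubnormal) → ¬ S.IsSubnormal →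
    ∃ M : Subgroup G, IsCoatom M ∧ S ≤ M ∧ ∀ H : Subgroup G, S ≤ H → H ≠ ⊤ → H ≤ M := by
  intro n
  induction n using Nat.strong_induction_on with
  | _ n ih =>
  intro S hn h1 h2
  have hSnn : ¬ S.Normal := fun h => h2 h.isSubnormal
  have hN : Subgroup.normalizer (S : Set G) ≠ ⊤ := fun h =>
    hSnn (Subgroup.normalizer_eq_top_iff.1 h)
  obtain ⟨M, hM, hNM⟩ := (eq_top_or_exists_le_coatom (Subgroup.normalizer (S : Set G))).resolve_left hN
  have hSM : S ≤ M := Subgroup.le_normalizer.trans hNM
  have key : ∀ K : Subgroup G, IsCoatom K → S ≤ K → K = M := by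
    intro K hK hSK
    by_contra hne
    have hsubK := h1 K hSK hK.1
    by_cases hKN : K ≤ Subgroup.normalizer (S : Set G)
    · exact hne (((hK.le_iff_eq hM.1).1 (hKN.trans hNM)).symm)
    obtain ⟨x, hxK, hxN, hxc⟩ := exists_conj_le_normalizer_of_subnormal' S K hSK hsubK hKN
    obtain ⟨S', hS'⟩ : ∃ S' : Subgroup G, S' = MulAut.conj x • S := ⟨_, rfl⟩
    have hS'N : S' ≤ Subgroup.normalizer (S : Set G) := by
      intro y hy
      rw [hS', Cfsg.Agent.Lib.Helper1.mem_conj_smul] at hy
      have := hxc _ hy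
      have e : x * (x⁻¹ * y * x) * x⁻¹ = y := by group
      rwa [e] at this
    have hS'K : S' ≤ K := by
      intro y hy
      rw [hS', Cfsg.Agent.Lib.Helper1.mem_conj_smul] at hy
      have h1 := hSK hy
      have e : y = x * (x⁻¹ * y * x) * x⁻¹ := by group
      rw [e]
      exact K.mul_mem (K.mul_mem hxK h1) (K.inv_mem hxK)
    obtain ⟨T, hT⟩ : ∃ T : Subgroup G, T = S ⊔ S' := ⟨_, rfl⟩
    have hST : S ≤ T := hT ▸ le_sup_left
    have hS'T : S' ≤ T := hT ▸ le_sup_right
    have hTN : T ≤ Subgroup.normalizer (S : Set G) := hT ▸ sup_le Subgroup.le_normalizer hS'N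
    have hTM : T ≤ M := hTN.trans hNM
    have hTK : T ≤ K := hT ▸ sup_le hSK hS'K
    have hSneT : S ≠ T := by
      intro h
      apply hxN
      apply Cfsg.Agent.Lib.Helper1.mem_normalizer_of_finite
      intro s hs
      have : x * s * x⁻¹ ∈ S' := by
        rw [hS']; exact Cfsg.Agent.Lib.Helper1.conj_mem_conj_smul x hs
      rw [h]; exact hS'T this
    have hlt : S < T := lt_of_le_of_ne hST hSneT
    have hcardlt : Nat.card S < Nat.card T := by
      have hle := Subgroup.card_le_of_le hST
      rcases Nat.lt_or_ge (Nat.card S) (Nat.card T) with h | h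
      · exact h
      · exfalso
        have heq : Nat.card S = Nat.card T := le_antisymm hle h
        have : S = T := by
          apply SetLike.coe_injective
          apply Set.eq_of_subset_of_ncard_le hST
          · rw [← Nat.card_coe_set_eq, ← Nat.card_coe_set_eq]
            exact h
        exact hSneT this
    have hcardT : Nat.card T ≤ Nat.card G := Subgroup.card_le_card_group T
    have hT1 : ∀ H : Subgroup G, T ≤ H → H ≠ ⊤ → (T.subgroupOf H).IsSubnormal := by
      intro H hTH hH
      have hSH : S ≤ H := hST.trans hTH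
      have hS'H : S' ≤ H := hS'T.trans hTH
      have ha := h1 H hSH hH
      have hb : (S'.subgroupOf H).IsSubnormal := by
        rw [hS']
        apply subnormal_conj_subgroupOf
        apply h1
        · intro s hs
          rw [Subgroup.mem_comap]
          apply hS'H
          rw [hS']
          exact Cfsg.Agent.Lib.Helper1.conj_mem_conj_smul x hs
        · intro htop
          apply hH
          rw [eq_top_iff]
          intro g _
          have : x⁻¹ * g * x ∈ H.comap (MulAut.conj x).toMonoidHom := by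
            rw [htop]; trivial
          rw [Subgroup.mem_comap] at this
          have e : (MulAut.conj x).toMonoidHom (x⁻¹ * g * x) = g := by
            simp [MulAut.conj_apply, mul_assoc]
          rwa [e] at this
      have hc := Cfsg.Agent.Lib.Helper1.subnormal_sup _ ↥H rfl _ _ ha hb
      rw [hT, Subgroup.subgroupOf_sup hSH hS'H]
      exact hc
    have hT2 : ¬ T.IsSubnormal := by
      intro hTs
      apply h2
      exact Subgroup.IsSubnormal.step S T hST hTs
        ((Subgroup.normal_subgroupOf_iff_le_normalizer hST).2 hTN)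
    obtain ⟨M', hM', hTM', hall⟩ := ih (Nat.card G - Nat.card T) (by omega) T rfl hT1 hT2
    have e1 : K = M' := ((hK.le_iff_eq hM'.1).1 (hall K hTK hK.1)).symm
    have e2 : M = M' := ((hM.le_iff_eq hM'.1).1 (hall M hTM hM.1)).symm
    exact hne (e1.trans e2.symm)
  refine ⟨M, hM, hSM, ?_⟩
  intro H hSH hH
  obtain ⟨K, hK, hHK⟩ := (eq_top_or_exists_le_coatom H).resolve_left hH
  rw [← key K hK (hSH.trans hHK)]
  exact hHK

end Cfsg.Agent.Lib.Helper6
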