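import Mathlib
import Cfsg.Agent.Lib.Helper1.Basic
import Cfsg.Agent.Lib.Helper1.Subn
import Cfsg.Agent.Lib.Helper6.Zipper

set_option autoImplicit false

universe u

namespace Cfsg.Agent.Lib.Helper6

open Pointwise

theorem coe_iterate_engel {G : Type*} [Group G] (H : Subgroup G) (g : ↥H) (m : ℕ) (x : ↥H) :
    (((fun c : ↥H => c * g * c⁻¹ * g⁻¹)^[m] x : ↥H) : G) =
      (fun c : G => c * (g : G) * c⁻¹ * (g : G)⁻¹)^[m] (x : G) := by
  induction m with
  | zero => rfl
  | succ m ih =>
    rw [Function.iterate_succ_apply', Function.iterate_succ_apply', ← ih]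
    simp

/-- Baer: a left Engel element of a finite group generates a subnormal subgroup. -/
theorem engel_subnormal : ∀ n : ℕ, ∀ (G : Type u) [Group G] [Finite G], Nat.card G = n →
    ∀ g : G, (∀ x : G, ∃ m : ℕ, (fun c : G => c * g * c⁻¹ * g⁻¹)^[m] x = 1) →
    (Subgroup.zpowers g).IsSubnormal := by
  intro n
  induction n using Nat.strong_induction_on with
  | _ n ih =>
  intro G _ _ hn g hE
  by_contra h2
  have h1 : ∀ H : Subgroup G, Subgroup.zpowers g ≤ H → H ≠ ⊤ →
      ((Subgroup.zpowers g).subgroupOf H).IsSubnormal := by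
    intro H hgH hH
    have hg : g ∈ H := hgH (Subgroup.mem_zpowers g)
    have hcard : Nat.card H < n := by
      rw [← hn]
      exact Cfsg.Agent.Lib.Helper1.card_lt_of_lt_top (lt_top_iff_ne_top.2 hH)
    have hE' : ∀ x : ↥H, ∃ m : ℕ,
        (fun c : ↥H => c * (⟨g, hg⟩ : ↥H) * c⁻¹ * (⟨g, hg⟩ : ↥H)⁻¹)^[m] x = 1 := by
      intro x
      obtain ⟨m, hm⟩ := hE x.1
      refine ⟨m, ?_⟩
      apply Subtype.ext
      rw [coe_iterate_engel]
      exact hm
    have h3 := ih (Nat.card H) hcard ↥H rfl ⟨g, hg⟩ hE'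
    have heq : (Subgroup.zpowers g).subgroupOf H = Subgroup.zpowers (⟨g, hg⟩ : ↥H) := by
      ext y
      rw [Subgroup.mem_subgroupOf, Subgroup.mem_zpowers_iff, Subgroup.mem_zpowers_iff]
      constructor
      · rintro ⟨k, hk⟩
        exact ⟨k, Subtype.ext (by simpa using hk)⟩
      · rintro ⟨k, hk⟩
        exact ⟨k, by rw [← hk]; simp⟩
    rw [heq]
    exact h3
  obtain ⟨M, hM, hgM, hall⟩ := zipper G _ (Subgroup.zpowers g) rfl h1 h2
  have hgM' : g ∈ M := hgM (Subgroup.mem_zpowers g)
  have hMnn : ¬ M.Normal := by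
    intro hMn
    apply h2
    exact Subgroup.IsSubnormal.trans hgM (h1 M hgM hM.1) hMn.isSubnormal
  have key : ∀ x : G, x ∉ M → x * g * x⁻¹ * g⁻¹ ∉ M := by
    intro x hx hc
    have h3 : x * g * x⁻¹ ∈ M := by
      have := M.mul_mem hc hgM'
      simpa using this
    have hle : Subgroup.zpowers g ≤ M.comap (MulAut.conj x).toMonoidHom := by
      rw [Subgroup.zpowers_le, Subgroup.mem_comap]
      simpa [MulAut.conj_apply] using h3
    have hne : M.comap (MulAut.conj x).toMonoidHom ≠ ⊤ := by
      intro htop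
      apply hM.1
      rw [eq_top_iff]
      intro y _
      have : x⁻¹ * y * x ∈ M.comap (MulAut.conj x).toMonoidHom := by
        rw [htop]; trivial
      rw [Subgroup.mem_comap] at this
      have e : (MulAut.conj x).toMonoidHom (x⁻¹ * y * x) = y := by
        simp [MulAut.conj_apply, mul_assoc]
      rwa [e] at this
    have hle2 := hall _ hle hne
    have hxinv : x⁻¹ ∈ Subgroup.normalizer (M : Set G) := by
      apply Cfsg.Agent.Lib.Helper1.mem_normalizer_of_finite
      intro m hm
      apply hle2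
      rw [Subgroup.mem_comap]
      have e : (MulAut.conj x).toMonoidHom (x⁻¹ * m * x⁻¹⁻¹) = m := by
        simp [MulAut.conj_apply, mul_assoc]
      rw [e]; exact hm
    have hxN : x ∈ Subgroup.normalizer (M : Set G) := by
      have := Subgroup.inv_mem _ hxinv
      simpa using this
    have hlt : M < Subgroup.normalizer (M : Set G) :=
      lt_of_le_of_ne Subgroup.le_normalizer (fun h => hx (h ▸ hxN))
    exact hMnn (Subgroup.normalizer_eq_top_iff.1 (hM.2 _ hlt))
  obtain ⟨x, -, hx⟩ := SetLike.exists_of_lt (lt_top_iff_ne_top.2 hM.1)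
  have hiter : ∀ m : ℕ, (fun c : G => c * g * c⁻¹ * g⁻¹)^[m] x ∉ M := by
    intro m
    induction m with
    | zero => exact hx
    | succ m ihm =>
      rw [Function.iterate_succ_apply']
      exact key _ ihm
  obtain ⟨m, hm⟩ := hE x
  apply hiter m
  rw [hm]
  exact M.one_mem

theorem foldl_replicate_engel {G : Type*} [Group G] (g : G) (n : ℕ) (x : G) :
    (List.replicate n g).foldl (fun a b => a * b * a⁻¹ * b⁻¹) x =
      (fun c : G => c * g * c⁻¹ * g⁻¹)^[n] x := by
  induction n generalizing x with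
  | zero => rfl
  | succ n ih =>
    rw [List.replicate_succ, List.foldl_cons, ih, Function.iterate_succ_apply]

end Cfsg.Agent.Lib.Helper6
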