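import Mathlib
import Cfsg.Agent.S0098
import Cfsg.Agent.Lib.Helper7.ElemAbCount

set_option autoImplicit false

namespace Cfsg.Agent.Lib.Helper6.Extra2

open Matrix Cfsg.Agent.S3799 Cfsg.Agent.S0098

section
variable {E : Type*} [Group E] {p : ℕ} [Fact p.Prime]

structure Amb2 (E : Type*) [Group E] (p : ℕ) [Fact p.Prime] (z : E) : Prop where
  hzp : z ^ p = 1
  hz : ∀ g : E, g * z = z * g
  hzo : orderOf z = p
  hcen : ∀ w : E, (∀ g : E, g * w = w * g) → ∃ c : ZMod p, w = pw z c
  hcm : ∀ g h k : E, k * ((h * g)⁻¹ * (g * h)) = ((h * g)⁻¹ * (g * h)) * k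

noncomputable def mkPM2 {n : ℕ} (x : Fin n → E) (hx : ∀ i, x i ^ p = 1)
    (hxx : ∀ i j, x i * x j = x j * x i) : PM n p E x := by
  classical
  let ϕ : Fin n → (ZMod p →+ Additive E) := fun i =>
    { toFun := fun c => Additive.ofMul (pw (x i) c)
      map_zero' := by rw [pw_zero]; rfl
      map_add' := fun c d => by rw [pw_add (hx i)]; rfl }
  have hcomm : Pairwise fun i j => ∀ c d, AddCommute (ϕ i c) (ϕ j d) := by
    intro i j _ c d
    show Additive.ofMul (pw (x i) c * pw (x j) d) = Additive.ofMul (pw (x j) d * pw (x i) c)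
    congr 1
    exact ((Commute.pow_pow (show Commute (x i) (x j) from hxx i j) _ _)).eq
  let Φ := AddMonoidHom.noncommPiCoprod ϕ hcomm
  exact
    { f := fun a => Additive.toMul (Φ a)
      zero := by rw [map_zero]; rfl
      add := fun a b => by rw [map_add]; rfl
      single := fun i c => by
        rw [AddMonoidHom.noncommPiCoprod_single]; rfl }

theorem S1 {n : ℕ} {x y : Fin n → E} {z : E} (A : Amb2 E p z) (G : Good x y z)
    (Y : PM n p E y) (i : Fin n) (b : Fin n → ZMod p) :
    x i * Y.f b = Y.f b * x i * pw z (b i) := by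
  have h := Y.rel_right A.hz A.hzp (Pi.single i 1) (fun j => by rw [G.xy i j, zif (p := p)]) b
  rw [single_dotProduct, one_mul] at h
  exact h

theorem S2 {n : ℕ} {x y : Fin n → E} {z : E} (A : Amb2 E p z) (G : Good x y z)
    (X : PM n p E x) (Y : PM n p E y) (a b : Fin n → ZMod p) :
    X.f a * Y.f b = Y.f b * X.f a * pw z (a ⬝ᵥ b) :=
  X.rel_left A.hz A.hzp b (fun i => S1 A G Y i b) a

theorem S3 {n : ℕ} {x y : Fin n → E} {z : E} (A : Amb2 E p z) (G : Good x y z)
    (X : PM n p E x) (a : Fin n → ZMod p) (j : Fin n) :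
    X.f a * y j = y j * X.f a * pw z (a j) := by
  have h := X.rel_left A.hz A.hzp (Pi.single j 1) (fun i => by rw [G.xy i j, zif' (p := p)]) a
  rw [dotProduct_single, mul_one] at h
  exact h

theorem phi_mul2 {n : ℕ} {x y : Fin n → E} {z : E} (A : Amb2 E p z) (G : Good x y z)
    (X : PM n p E x) (Y : PM n p E y) (g g' : Heis n p) :
    phiFun z X Y (g * g') = phiFun z X Y g * phiFun z X Y g' := by
  unfold phiFun
  rw [Heis.mul_a, Heis.mul_b, Heis.mul_c, Y.add, X.add, pw_add A.hzp, pw_add A.hzp]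
  exact phi_mul_aux (fun k => pw_central A.hz _ k) (fun k => pw_central A.hz _ k)
    (fun k => pw_central A.hz _ k) (S2 A G X Y g.a g'.b)

theorem phi_y2 {n : ℕ} {x y : Fin n → E} {z : E} (A : Amb2 E p z) (G : Good x y z)
    (X : PM n p E x) (Y : PM n p E y) (t : Heis n p) (j : Fin n) :
    phiFun z X Y t * y j = y j * phiFun z X Y t * pw z (t.a j) := by
  unfold phiFun
  have h1 := S3 A G X t.a j
  have h2 : y j * Y.f t.b = Y.f t.b * y j := Y.comm_of (fun i => G.yy j i) t.b
  calc Y.f t.b * X.f t.a * pw z t.c * y j = Y.f t.b * X.f t.a * (pw z t.c * y j) := by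
        simp only [mul_assoc]
    _ = Y.f t.b * X.f t.a * (y j * pw z t.c) := by rw [← pw_central A.hz t.c (y j)]
    _ = Y.f t.b * (X.f t.a * y j) * pw z t.c := by simp only [mul_assoc]
    _ = Y.f t.b * (y j * X.f t.a * pw z (t.a j)) * pw z t.c := by rw [h1]
    _ = (Y.f t.b * y j) * X.f t.a * (pw z (t.a j) * pw z t.c) := by simp only [mul_assoc]
    _ = (y j * Y.f t.b) * X.f t.a * (pw z t.c * pw z (t.a j)) := by
        rw [← h2, pw_central A.hz t.c (pw z (t.a j))]
    _ = y j * (Y.f t.b * X.f t.a * pw z t.c) * pw z (t.a j) := by simp only [mul_assoc]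

theorem x_phi2 {n : ℕ} {x y : Fin n → E} {z : E} (A : Amb2 E p z) (G : Good x y z)
    (X : PM n p E x) (Y : PM n p E y) (t : Heis n p) (i : Fin n) :
    x i * phiFun z X Y t = phiFun z X Y t * x i * pw z (t.b i) := by
  unfold phiFun
  have h1 := S1 A G Y i t.b
  have h2 : x i * X.f t.a = X.f t.a * x i := X.comm_of (fun k => G.xx i k) t.a
  calc x i * (Y.f t.b * X.f t.a * pw z t.c) = (x i * Y.f t.b) * X.f t.a * pw z t.c := by
        simp only [mul_assoc]
    _ = Y.f t.b * x i * pw z (t.b i) * X.f t.a * pw z t.c := by rw [h1]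
    _ = Y.f t.b * x i * (pw z (t.b i) * X.f t.a) * pw z t.c := by simp only [mul_assoc]
    _ = Y.f t.b * x i * (X.f t.a * pw z (t.b i)) * pw z t.c := by
        rw [← pw_central A.hz (t.b i) (X.f t.a)]
    _ = Y.f t.b * (x i * X.f t.a) * (pw z (t.b i) * pw z t.c) := by simp only [mul_assoc]
    _ = Y.f t.b * (X.f t.a * x i) * (pw z t.c * pw z (t.b i)) := by
        rw [h2, pw_central A.hz t.c (pw z (t.b i))]
    _ = Y.f t.b * X.f t.a * (x i * pw z t.c) * pw z (t.b i) := by simp only [mul_assoc]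
    _ = Y.f t.b * X.f t.a * (pw z t.c * x i) * pw z (t.b i) := by
        rw [pw_central A.hz t.c (x i)]
    _ = Y.f t.b * X.f t.a * pw z t.c * x i * pw z (t.b i) := by simp only [mul_assoc]

theorem phi_inj2 {n : ℕ} {x y : Fin n → E} {z : E} (A : Amb2 E p z) (G : Good x y z)
    (X : PM n p E x) (Y : PM n p E y) : Function.Injective (phiFun z X Y) := by
  have key : ∀ t : Heis n p, phiFun z X Y t = 1 → t = 1 := by
    intro t ht
    have ha : ∀ j, t.a j = 0 := by
      intro j
      have h := phi_y2 A G X Y t j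
      rw [ht, one_mul, mul_one] at h
      have h' : y j * 1 = y j * pw z (t.a j) := by rw [mul_one]; exact h
      exact pw_eq_one A.hzo (mul_left_cancel h').symm
    have hb : ∀ i, t.b i = 0 := by
      intro i
      have h := x_phi2 A G X Y t i
      rw [ht, one_mul, mul_one] at h
      have h' : x i * 1 = x i * pw z (t.b i) := by rw [mul_one]; exact h
      exact pw_eq_one A.hzo (mul_left_cancel h').symm
    have hc : t.c = 0 := by
      have h : Y.f t.b * X.f t.a * pw z t.c = 1 := ht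
      rw [funext hb, funext ha] at h
      have h0a : X.f (fun _ => (0 : ZMod p)) = 1 := X.zero
      have h0b : Y.f (fun _ => (0 : ZMod p)) = 1 := Y.zero
      rw [h0a, h0b, one_mul, one_mul] at h
      exact pw_eq_one A.hzo h
    exact Cfsg.Agent.S3799.Heis.ext (funext ha) (funext hb) hc
  exact (injective_iff_map_eq_one (MonoidHom.mk' (phiFun z X Y) (phi_mul2 A G X Y))).mpr key

theorem adjust2 {n : ℕ} {x y : Fin n → E} {z : E} (A : Amb2 E p z) (G : Good x y z)
    (X : PM n p E x) (Y : PM n p E y) (g : E) :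
    ∃ t : Heis n p, (∀ i, x i * (g * phiFun z X Y t) = (g * phiFun z X Y t) * x i) ∧
      (∀ j, (g * phiFun z X Y t) * y j = y j * (g * phiFun z X Y t)) := by
  have hα : ∀ j, ∃ c : ZMod p, g * y j = y j * g * pw z c := by
    intro j
    obtain ⟨c, hc⟩ := A.hcen ((y j * g)⁻¹ * (g * y j)) (fun k => A.hcm g (y j) k)
    refine ⟨c, ?_⟩
    rw [← hc]; group
  have hβ : ∀ i, ∃ c : ZMod p, x i * g = g * x i * pw z c := by
    intro i
    obtain ⟨c, hc⟩ := A.hcen ((g * x i)⁻¹ * (x i * g)) (fun k => A.hcm (x i) g k)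
    refine ⟨c, ?_⟩
    rw [← hc]; group
  choose α hα using hα
  choose β hβ using hβ
  refine ⟨⟨-α, -β, 0⟩, ?_, ?_⟩
  · intro i
    have h1 : x i * phiFun z X Y ⟨-α, -β, 0⟩ = phiFun z X Y ⟨-α, -β, 0⟩ * x i * pw z (-(β i)) :=
      x_phi2 A G X Y ⟨-α, -β, 0⟩ i
    generalize phiFun z X Y ⟨-α, -β, 0⟩ = u at h1 ⊢
    calc x i * (g * u) = (x i * g) * u := by rw [mul_assoc]
      _ = g * x i * pw z (β i) * u := by rw [hβ i]
      _ = g * x i * (pw z (β i) * u) := by simp only [mul_assoc]
      _ = g * x i * (u * pw z (β i)) := by rw [← pw_central A.hz (β i) u]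
      _ = g * (x i * u) * pw z (β i) := by simp only [mul_assoc]
      _ = g * (u * x i * pw z (-(β i))) * pw z (β i) := by rw [h1]
      _ = g * u * x i * (pw z (-(β i)) * pw z (β i)) := by simp only [mul_assoc]
      _ = g * u * x i := by rw [← pw_add A.hzp, neg_add_cancel, pw_zero, mul_one]
  · intro j
    have h1 : phiFun z X Y ⟨-α, -β, 0⟩ * y j = y j * phiFun z X Y ⟨-α, -β, 0⟩ * pw z (-(α j)) :=
      phi_y2 A G X Y ⟨-α, -β, 0⟩ j
    generalize phiFun z X Y ⟨-α, -β, 0⟩ = u at h1 ⊢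
    calc g * u * y j = g * (u * y j) := by rw [mul_assoc]
      _ = g * (y j * u * pw z (-(α j))) := by rw [h1]
      _ = (g * y j) * u * pw z (-(α j)) := by simp only [mul_assoc]
      _ = y j * g * pw z (α j) * u * pw z (-(α j)) := by rw [hα j]
      _ = y j * g * (pw z (α j) * u) * pw z (-(α j)) := by simp only [mul_assoc]
      _ = y j * g * (u * pw z (α j)) * pw z (-(α j)) := by rw [← pw_central A.hz (α j) u]
      _ = y j * (g * u) * (pw z (α j) * pw z (-(α j))) := by simp only [mul_assoc]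
      _ = y j * (g * u) := by rw [← pw_add A.hzp, add_neg_cancel, pw_zero, mul_one]

end

/-! ### the minus-type model -/

@[ext] structure HQ (n : ℕ) where
  a : Fin n → ZMod 2
  b : Fin n → ZMod 2
  c : ZMod 2
  α : ZMod 2
  β : ZMod 2

namespace HQ

variable {n : ℕ}

instance : Mul (HQ n) := ⟨fun s t => ⟨s.a + t.a, s.b + t.b,
  s.c + t.c + s.a ⬝ᵥ t.b + s.α * t.α + s.β * t.β + s.α * t.β, s.α + t.α, s.β + t.β⟩⟩
instance : One (HQ n) := ⟨⟨0, 0, 0, 0, 0⟩⟩
instance : Inv (HQ n) := ⟨fun s => ⟨-s.a, -s.b,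
  -s.c + s.a ⬝ᵥ s.b + s.α * s.α + s.β * s.β + s.α * s.β, -s.α, -s.β⟩⟩

@[simp] theorem mul_a (s t : HQ n) : (s * t).a = s.a + t.a := rfl
@[simp] theorem mul_b (s t : HQ n) : (s * t).b = s.b + t.b := rfl
@[simp] theorem mul_c (s t : HQ n) :
    (s * t).c = s.c + t.c + s.a ⬝ᵥ t.b + s.α * t.α + s.β * t.β + s.α * t.β := rfl
@[simp] theorem mul_α (s t : HQ n) : (s * t).α = s.α + t.α := rfl
@[simp] theorem mul_β (s t : HQ n) : (s * t).β = s.β + t.β := rfl
@[simp] theorem one_a : (1 : HQ n).a = 0 := rfl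
@[simp] theorem one_b : (1 : HQ n).b = 0 := rfl
@[simp] theorem one_c : (1 : HQ n).c = 0 := rfl
@[simp] theorem one_α : (1 : HQ n).α = 0 := rfl
@[simp] theorem one_β : (1 : HQ n).β = 0 := rfl
@[simp] theorem inv_a (s : HQ n) : (s⁻¹).a = -s.a := rfl
@[simp] theorem inv_b (s : HQ n) : (s⁻¹).b = -s.b := rfl
@[simp] theorem inv_c (s : HQ n) :
    (s⁻¹).c = -s.c + s.a ⬝ᵥ s.b + s.α * s.α + s.β * s.β + s.α * s.β := rfl
@[simp] theorem inv_α (s : HQ n) : (s⁻¹).α = -s.α := rfl
@[simp] theorem inv_β (s : HQ n) : (s⁻¹).β = -s.β := rfl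

instance : Group (HQ n) := Group.ofLeftAxioms
  (by
    intro s t u
    ext1
    · simp [add_assoc]
    · simp [add_assoc]
    · simp only [mul_c, mul_a, mul_b, mul_α, mul_β, add_dotProduct, dotProduct_add]; ring
    · simp [add_assoc]
    · simp [add_assoc])
  (by intro s; ext1 <;> simp)
  (by
    intro s
    ext1
    · simp
    · simp
    · simp only [mul_c, inv_a, inv_b, inv_c, inv_α, inv_β, one_c, neg_dotProduct]; ring
    · exact neg_add_cancel s.α
    · exact neg_add_cancel s.β)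

def equivProd : HQ n ≃ (Fin n → ZMod 2) × (Fin n → ZMod 2) × ZMod 2 × ZMod 2 × ZMod 2 where
  toFun s := (s.a, s.b, s.c, s.α, s.β)
  invFun t := ⟨t.1, t.2.1, t.2.2.1, t.2.2.2.1, t.2.2.2.2⟩
  left_inv s := rfl
  right_inv t := rfl

instance : Finite (HQ n) := Finite.of_equiv _ equivProd.symm

theorem card_hq : Nat.card (HQ n) = 2 ^ (3 + 2 * n) := by
  rw [Nat.card_congr equivProd, Nat.card_prod, Nat.card_prod, Nat.card_prod, Nat.card_prod,
    Nat.card_fun, Nat.card_zmod, Nat.card_fin]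
  ring

end HQ

theorem zmod2_cases (c : ZMod 2) : c = 0 ∨ c = 1 := by revert c; decide

section
variable {E : Type*} [Group E]

theorem cen2 {z : E} (A : Amb2 E 2 z) {w : E} (hw : ∀ g : E, g * w = w * g) : w = 1 ∨ w = z := by
  obtain ⟨c, hc⟩ := A.hcen w hw
  rcases zmod2_cases c with rfl | rfl
  · left; rw [hc, pw_zero]
  · right; rw [hc, pw_one]

theorem comm2 {z : E} (A : Amb2 E 2 z) (g h : E) : g * h = h * g ∨ g * h = h * g * z := by
  have e : g * h = h * g * ((h * g)⁻¹ * (g * h)) := by group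
  rcases cen2 A (fun k => A.hcm g h k) with h1 | h1
  · left
    rw [h1, mul_one] at e
    exact e
  · right
    rw [h1] at e
    exact e

theorem comm_phi {p : ℕ} [Fact p.Prime] {n : ℕ} {x y : Fin n → E} {z : E} (A : Amb2 E p z)
    (X : PM n p E x) (Y : PM n p E y) {g : E} (hgx : ∀ i, x i * g = g * x i)
    (hgy : ∀ j, g * y j = y j * g) (t : Heis n p) :
    g * phiFun z X Y t = phiFun z X Y t * g := by
  unfold phiFun
  have h1 : g * Y.f t.b = Y.f t.b * g := Y.comm_of hgy t.b
  have h2 : g * X.f t.a = X.f t.a * g := X.comm_of (fun i => (hgx i).symm) t.a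
  calc g * (Y.f t.b * X.f t.a * pw z t.c) = (g * Y.f t.b) * X.f t.a * pw z t.c := by
        simp only [mul_assoc]
    _ = Y.f t.b * g * X.f t.a * pw z t.c := by rw [h1]
    _ = Y.f t.b * (g * X.f t.a) * pw z t.c := by simp only [mul_assoc]
    _ = Y.f t.b * (X.f t.a * g) * pw z t.c := by rw [h2]
    _ = Y.f t.b * X.f t.a * (g * pw z t.c) := by simp only [mul_assoc]
    _ = Y.f t.b * X.f t.a * (pw z t.c * g) := by rw [pw_central A.hz t.c g]
    _ = Y.f t.b * X.f t.a * pw z t.c * g := by simp only [mul_assoc]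

theorem exists_partner {n : ℕ} {x y : Fin n → E} {z : E} (A : Amb2 E 2 z) (G : Good x y z)
    (X : PM n 2 E x) (Y : PM n 2 E y) (g : E) (hgx : ∀ i, x i * g = g * x i)
    (hgy : ∀ j, g * y j = y j * g) (hg : ¬ ∀ k : E, k * g = g * k) :
    ∃ w : E, (∀ i, x i * w = w * x i) ∧ (∀ j, w * y j = y j * w) ∧ g * w = w * g * z := by
  push_neg at hg
  obtain ⟨w₀, hw₀⟩ := hg
  obtain ⟨t, htx, hty⟩ := adjust2 A G X Y w₀
  have hgφ := comm_phi A X Y hgx hgy t
  refine ⟨w₀ * phiFun z X Y t, htx, hty, ?_⟩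
  rcases comm2 A g (w₀ * phiFun z X Y t) with h | h
  · exfalso
    apply hw₀
    have h3 : g * w₀ * phiFun z X Y t = w₀ * g * phiFun z X Y t := by
      calc g * w₀ * phiFun z X Y t = g * (w₀ * phiFun z X Y t) := by rw [mul_assoc]
        _ = w₀ * phiFun z X Y t * g := h
        _ = w₀ * (phiFun z X Y t * g) := by rw [mul_assoc]
        _ = w₀ * (g * phiFun z X Y t) := by rw [hgφ]
        _ = w₀ * g * phiFun z X Y t := by rw [mul_assoc]
    exact (mul_right_cancel h3).symm
  · exact h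

theorem good_snoc {n : ℕ} {x y : Fin n → E} {z : E} (G : Good x y z) (g v : E)
    (hgx : ∀ i, x i * g = g * x i) (hgy : ∀ j, g * y j = y j * g)
    (hvx : ∀ i, x i * v = v * x i) (hvy : ∀ j, v * y j = y j * v) (hrel : g * v = v * g * z) :
    Good (Fin.snoc x g : Fin (n + 1) → E) (Fin.snoc y v : Fin (n + 1) → E) z := by
  refine ⟨?_, ?_, ?_⟩
  · intro i j
    induction i using Fin.lastCases with
    | last =>
      induction j using Fin.lastCases with
      | last => rfl
      | cast j => simp only [Fin.snoc_last, Fin.snoc_castSucc]; exact (hgx j).symm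
    | cast i =>
      induction j using Fin.lastCases with
      | last => simp only [Fin.snoc_last, Fin.snoc_castSucc]; exact hgx i
      | cast j => simp only [Fin.snoc_castSucc]; exact G.xx i j
  · intro i j
    induction i using Fin.lastCases with
    | last =>
      induction j using Fin.lastCases with
      | last => rfl
      | cast j => simp only [Fin.snoc_last, Fin.snoc_castSucc]; exact hvy j
    | cast i =>
      induction j using Fin.lastCases with
      | last => simp only [Fin.snoc_last, Fin.snoc_castSucc]; exact (hvy i).symm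
      | cast j => simp only [Fin.snoc_castSucc]; exact G.yy i j
  · intro i j
    induction i using Fin.lastCases with
    | last =>
      induction j using Fin.lastCases with
      | last => simp only [Fin.snoc_last, if_true]; exact hrel
      | cast j =>
        simp only [Fin.snoc_last, Fin.snoc_castSucc]
        rw [if_neg (Fin.castSucc_lt_last j).ne', mul_one]
        exact hgy j
    | cast i =>
      induction j using Fin.lastCases with
      | last =>
        simp only [Fin.snoc_last, Fin.snoc_castSucc]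
        rw [if_neg (Fin.castSucc_lt_last i).ne, mul_one]
        exact hvx i
      | cast j =>
        simp only [Fin.snoc_castSucc, Fin.castSucc_inj]
        exact G.xy i j

structure DF {n : ℕ} (x y : Fin n → E) (z : E) : Prop where
  good : Good x y z
  xs : ∀ i, x i ^ 2 = 1
  ys : ∀ i, y i ^ 2 = 1

theorem extendD {n : ℕ} {x y : Fin n → E} {z : E} (A : Amb2 E 2 z) (D : DF x y z)
    (g : E) (hgx : ∀ i, x i * g = g * x i) (hgy : ∀ j, g * y j = y j * g)
    (hg : ¬ ∀ k : E, k * g = g * k) (hg2 : g ^ 2 = 1) (hsq : ∀ e : E, e ^ 2 = 1 ∨ e ^ 2 = z) :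
    ∃ (x' y' : Fin (n + 1) → E), DF x' y' z := by
  obtain ⟨w, hwx, hwy, hgw⟩ := exists_partner A D.good (mkPM2 x D.xs D.good.xx)
    (mkPM2 y D.ys D.good.yy) g hgx hgy hg
  have hzz : z * z = 1 := by rw [← pow_two]; exact A.hzp
  have hgg : g * g = 1 := by rw [← pow_two]; exact hg2
  have hwg : w * g = g * w * z := by rw [hgw, mul_assoc (w * g), hzz, mul_one]
  have hv : ∃ v : E, (∀ i, x i * v = v * x i) ∧ (∀ j, v * y j = y j * v) ∧
      g * v = v * g * z ∧ v ^ 2 = 1 := by
    rcases hsq w with h1 | h1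
    · exact ⟨w, hwx, hwy, hgw, h1⟩
    · refine ⟨g * w, ?_, ?_, ?_, ?_⟩
      · intro i; rw [← mul_assoc, hgx i, mul_assoc, hwx i, mul_assoc]
      · intro j; rw [mul_assoc, hwy j, ← mul_assoc, hgy j, mul_assoc]
      · calc g * (g * w) = (g * g) * w := by rw [mul_assoc]
          _ = (g * g) * w * (z * z) := by rw [hzz, mul_one]
          _ = g * (g * w * z) * z := by simp only [mul_assoc]
          _ = g * (w * g) * z := by rw [← hwg]
          _ = g * w * g * z := by simp only [mul_assoc]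
      · calc (g * w) ^ 2 = (g * w) * (g * w) := pow_two _
          _ = g * (w * g) * w := by simp only [mul_assoc]
          _ = g * (g * w * z) * w := by rw [hwg]
          _ = (g * g) * w * (z * w) := by simp only [mul_assoc]
          _ = (g * g) * w * (w * z) := by rw [A.hz w]
          _ = (g * g) * (w * w) * z := by simp only [mul_assoc]
          _ = 1 := by rw [hgg, ← pow_two w, h1, one_mul, hzz]
  obtain ⟨v, hvx, hvy, hrel, hv2⟩ := hv
  refine ⟨(Fin.snoc x g : Fin (n + 1) → E), (Fin.snoc y v : Fin (n + 1) → E),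
    good_snoc D.good g v hgx hgy hvx hvy hrel, ?_, ?_⟩
  · intro i
    induction i using Fin.lastCases with
    | last => simp only [Fin.snoc_last]; exact hg2
    | cast i => simp only [Fin.snoc_castSucc]; exact D.xs i
  · intro i
    induction i using Fin.lastCases with
    | last => simp only [Fin.snoc_last]; exact hv2
    | cast i => simp only [Fin.snoc_castSucc]; exact D.ys i

theorem qmul {g w z : E} (hgg : g * g = z) (hww : w * w = z) (hzz : z * z = 1)
    (hz : ∀ t : E, t * z = z * t) (hgw : g * w = w * g * z) (α β α' β' : ZMod 2) :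
    (w ^ β.val * g ^ α.val) * (w ^ β'.val * g ^ α'.val) =
      pw z (α * α' + β * β' + α * β') * (w ^ (β + β').val * g ^ (α + α').val) := by
  have h11 : (1 : ZMod 2) + 1 = 0 := by decide
  have hv1 : (1 : ZMod 2).val = 1 := by decide
  have e1 : g * w = z * (w * g) := by rw [hgw, hz (w * g)]
  have e1' : ∀ t, g * (w * t) = z * (w * (g * t)) := fun t => by
    rw [← mul_assoc, e1]; simp only [mul_assoc]
  have e2 : g * z = z * g := hz g
  have e2' : ∀ t, g * (z * t) = z * (g * t) := fun t => by rw [← mul_assoc, e2, mul_assoc]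
  have e3 : w * z = z * w := hz w
  have e3' : ∀ t, w * (z * t) = z * (w * t) := fun t => by rw [← mul_assoc, e3, mul_assoc]
  have e4' : ∀ t, g * (g * t) = z * t := fun t => by rw [← mul_assoc, hgg]
  have e5' : ∀ t, w * (w * t) = z * t := fun t => by rw [← mul_assoc, hww]
  have e6' : ∀ t, z * (z * t) = t := fun t => by rw [← mul_assoc, hzz, one_mul]
  rcases zmod2_cases α with rfl | rfl <;> rcases zmod2_cases β with rfl | rfl <;>
    rcases zmod2_cases α' with rfl | rfl <;> rcases zmod2_cases β' with rfl | rfl <;>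
    simp only [pw, h11, hv1, ZMod.val_zero, pow_zero, pow_one, mul_one, one_mul, mul_zero,
      zero_mul, add_zero, zero_add, mul_assoc, e1, e1', e2, e2', e3, e3', hgg, e4', hww, e5',
      hzz, e6']

end

section
variable {E : Type*} [Group E]

theorem aux4 {P P' q q' q'' ζ : E} (hq : q * q' = ζ * q'') (hcomm : q * P' = P' * q) :
    P * P' * ζ * q'' = (P * q) * (P' * q') := by
  calc P * P' * ζ * q'' = P * P' * (ζ * q'') := by rw [mul_assoc]
    _ = P * P' * (q * q') := by rw [hq]
    _ = P * (P' * q) * q' := by simp only [mul_assoc]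
    _ = P * (q * P') * q' := by rw [hcomm]
    _ = (P * q) * (P' * q') := by simp only [mul_assoc]

theorem classify [Finite E] {z : E} (A : Amb2 E 2 z) (hsq : ∀ e : E, e ^ 2 = 1 ∨ e ^ 2 = z) :
    ∃ n, Nonempty (Heis n 2 ≃* E) ∨ Nonempty (HQ n ≃* E) := by
  classical
  have hz1 : z ≠ 1 := by
    intro h
    have := A.hzo
    rw [h, orderOf_one] at this
    omega
  have hzz : z * z = 1 := by rw [← pow_two]; exact A.hzp
  have hv1 : (1 : ZMod 2).val = 1 := by decide
  have hP0 : ∃ (x y : Fin 0 → E), DF x y z :=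
    ⟨fun i => i.elim0, fun i => i.elim0,
      ⟨⟨fun i => i.elim0, fun i => i.elim0, fun i => i.elim0⟩, fun i => i.elim0, fun i => i.elim0⟩⟩
  have hbound : ∀ n, (∃ (x y : Fin n → E), DF x y z) → 2 ^ (1 + 2 * n) ≤ Nat.card E := by
    rintro n ⟨x, y, D⟩
    have hinj := phi_inj2 A D.good (mkPM2 x D.xs D.good.xx) (mkPM2 y D.ys D.good.yy)
    rw [← Heis.card_heis (n := n) (p := 2)]
    exact Nat.card_le_card_of_injective _ hinj
  have hmax : ∃ n, (∃ (x y : Fin n → E), DF x y z) ∧
      ¬ ∃ (x y : Fin (n + 1) → E), DF x y z := by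
    by_contra hcon
    push_neg at hcon
    have hall : ∀ n, ∃ (x y : Fin n → E), DF x y z := by
      intro n
      induction n with
      | zero => exact hP0
      | succ n ih => exact hcon n ih
    have h1 := hbound (Nat.card E) (hall _)
    have h2 : Nat.card E < 2 ^ (1 + 2 * Nat.card E) := by
      calc Nat.card E < 2 ^ Nat.card E := Nat.lt_two_pow_self
        _ ≤ 2 ^ (1 + 2 * Nat.card E) := Nat.pow_le_pow_right (by norm_num) (by omega)
    omega
  obtain ⟨n, ⟨x, y, D⟩, hno⟩ := hmax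
  let X : PM n 2 E x := mkPM2 x D.xs D.good.xx
  let Y : PM n 2 E y := mkPM2 y D.ys D.good.yy
  let Φ : Heis n 2 →* E := MonoidHom.mk' (phiFun z X Y) (phi_mul2 A D.good X Y)
  have hinj : Function.Injective Φ := phi_inj2 A D.good X Y
  have hφ0 : ∀ c : ZMod 2, phiFun z X Y ⟨0, 0, c⟩ = pw z c := by
    intro c
    show Y.f 0 * X.f 0 * pw z c = pw z c
    rw [Y.zero, X.zero, one_mul, one_mul]
  by_cases hC : ∀ g : E, (∀ i, x i * g = g * x i) → (∀ j, g * y j = y j * g) →
      ∀ k : E, k * g = g * k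
  · refine ⟨n, Or.inl ⟨MulEquiv.ofBijective Φ ⟨hinj, ?_⟩⟩⟩
    intro g
    obtain ⟨t, htx, hty⟩ := adjust2 A D.good X Y g
    obtain ⟨c, hc⟩ := A.hcen _ (hC _ htx hty)
    refine ⟨(⟨0, 0, c⟩ : Heis n 2) * t⁻¹, ?_⟩
    rw [map_mul, map_inv]
    have h1 : Φ ⟨0, 0, c⟩ = pw z c := hφ0 c
    rw [h1, ← hc]
    show g * phiFun z X Y t * (phiFun z X Y t)⁻¹ = g
    group
  · push_neg at hC
    obtain ⟨g, hgx, hgy, hgnc⟩ := hC
    have hgnc' : ¬ ∀ k : E, k * g = g * k := by push_neg; exact hgnc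
    have hCsq : ∀ e : E, (∀ i, x i * e = e * x i) → (∀ j, e * y j = y j * e) →
        (¬ ∀ k : E, k * e = e * k) → e ^ 2 = z := by
      intro e hex hey henc
      rcases hsq e with h | h
      · exact absurd (extendD A D e hex hey henc h hsq) hno
      · exact h
    obtain ⟨w, hwx, hwy, hgw⟩ := exists_partner A D.good X Y g hgx hgy hgnc'
    have hwnc : ¬ ∀ k : E, k * w = w * k := by
      intro h
      have h1 := h g
      rw [hgw] at h1
      exact hz1 (mul_left_cancel (a := w * g) (by rw [h1, mul_one]))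
    have hgg : g * g = z := by rw [← pow_two]; exact hCsq g hgx hgy hgnc'
    have hww : w * w = z := by rw [← pow_two]; exact hCsq w hwx hwy hwnc
    have hqx : ∀ (α β : ZMod 2) (i : Fin n),
        x i * (w ^ β.val * g ^ α.val) = (w ^ β.val * g ^ α.val) * x i := by
      intro α β i
      have h1 : x i * w ^ β.val = w ^ β.val * x i :=
        ((Commute.pow_right (show Commute (x i) w from hwx i) _)).eq
      have h2 : x i * g ^ α.val = g ^ α.val * x i :=
        ((Commute.pow_right (show Commute (x i) g from hgx i) _)).eq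
      rw [← mul_assoc, h1, mul_assoc, h2, mul_assoc]
    have hqy : ∀ (α β : ZMod 2) (j : Fin n),
        (w ^ β.val * g ^ α.val) * y j = y j * (w ^ β.val * g ^ α.val) := by
      intro α β j
      have h1 : w ^ β.val * y j = y j * w ^ β.val :=
        ((Commute.pow_left (show Commute w (y j) from hwy j) _)).eq
      have h2 : g ^ α.val * y j = y j * g ^ α.val :=
        ((Commute.pow_left (show Commute g (y j) from hgy j) _)).eq
      rw [mul_assoc, h2, ← mul_assoc, h1, mul_assoc]
    let ψf : HQ n → E := fun s => phiFun z X Y ⟨s.a, s.b, s.c⟩ * (w ^ s.β.val * g ^ s.α.val)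
    have hψmul : ∀ s t : HQ n, ψf (s * t) = ψf s * ψf t := by
      intro s t
      have hq := qmul hgg hww hzz A.hz hgw s.α s.β t.α t.β
      have hcomm := comm_phi A X Y (hqx s.α s.β) (hqy s.α s.β) ⟨t.a, t.b, t.c⟩
      have h1 : phiFun z X Y ⟨(s * t).a, (s * t).b, (s * t).c⟩ =
          phiFun z X Y ⟨s.a, s.b, s.c⟩ * phiFun z X Y ⟨t.a, t.b, t.c⟩ *
            pw z (s.α * t.α + s.β * t.β + s.α * t.β) := by
        have hc : (s * t).c = (s.c + t.c + s.a ⬝ᵥ t.b) + (s.α * t.α + s.β * t.β + s.α * t.β) := by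
          rw [HQ.mul_c]; ring
        have e1 : phiFun z X Y ⟨(s * t).a, (s * t).b, (s * t).c⟩ =
            phiFun z X Y ((⟨s.a, s.b, s.c⟩ : Heis n 2) * ⟨t.a, t.b, t.c⟩) *
              pw z (s.α * t.α + s.β * t.β + s.α * t.β) := by
          show Y.f (s * t).b * X.f (s * t).a * pw z (s * t).c =
            Y.f (s.b + t.b) * X.f (s.a + t.a) * pw z (s.c + t.c + s.a ⬝ᵥ t.b) *
              pw z (s.α * t.α + s.β * t.β + s.α * t.β)
          rw [hc, pw_add A.hzp, ← mul_assoc]
          rfl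
        rw [e1, phi_mul2 A D.good X Y]
      show phiFun z X Y ⟨(s * t).a, (s * t).b, (s * t).c⟩ *
        (w ^ (s.β + t.β).val * g ^ (s.α + t.α).val) = _
      rw [h1]
      exact aux4 hq hcomm
    let Ψ : HQ n →* E := MonoidHom.mk' ψf hψmul
    have hΨinj : Function.Injective Ψ := by
      rw [injective_iff_map_eq_one]
      rintro ⟨a, b, c, α, β⟩ hs
      have hs' : phiFun z X Y ⟨a, b, c⟩ * (w ^ β.val * g ^ α.val) = 1 := hs
      have hqx' := hqx α β
      have hqy' := hqy α β
      obtain ⟨q, hq⟩ : ∃ q, q = w ^ β.val * g ^ α.val := ⟨_, rfl⟩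
      rw [← hq] at hs' hqx' hqy'
      have hφ : phiFun z X Y ⟨a, b, c⟩ = q⁻¹ := eq_inv_of_mul_eq_one_left hs'
      have ha : ∀ j, a j = 0 := by
        intro j
        have h := phi_y2 A D.good X Y ⟨a, b, c⟩ j
        rw [hφ] at h
        have hc : q⁻¹ * y j = y j * q⁻¹ := by
          calc q⁻¹ * y j = q⁻¹ * (y j * q) * q⁻¹ := by group
            _ = q⁻¹ * (q * y j) * q⁻¹ := by rw [hqy' j]
            _ = y j * q⁻¹ := by group
        rw [hc] at h
        have h' : y j * q⁻¹ * 1 = y j * q⁻¹ * pw z (a j) := by rw [mul_one]; exact h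
        exact pw_eq_one A.hzo (mul_left_cancel h').symm
      have hb : ∀ i, b i = 0 := by
        intro i
        have h := x_phi2 A D.good X Y ⟨a, b, c⟩ i
        rw [hφ] at h
        have hc : x i * q⁻¹ = q⁻¹ * x i := by
          calc x i * q⁻¹ = q⁻¹ * (q * x i) * q⁻¹ := by group
            _ = q⁻¹ * (x i * q) * q⁻¹ := by rw [hqx' i]
            _ = q⁻¹ * x i := by group
        rw [hc] at h
        have h' : q⁻¹ * x i * 1 = q⁻¹ * x i * pw z (b i) := by rw [mul_one]; exact h
        exact pw_eq_one A.hzo (mul_left_cancel h').symm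
      obtain rfl : a = 0 := funext ha
      obtain rfl : b = 0 := funext hb
      rw [hφ0] at hs'
      have hqcen : ∀ k : E, k * q = q * k := by
        intro k
        have hq' : q = (pw z c)⁻¹ := eq_inv_of_mul_eq_one_right hs'
        rw [hq']
        have h5 := pw_central A.hz c k
        calc k * (pw z c)⁻¹ = (pw z c)⁻¹ * (pw z c * k) * (pw z c)⁻¹ := by group
          _ = (pw z c)⁻¹ * (k * pw z c) * (pw z c)⁻¹ := by rw [h5]
          _ = (pw z c)⁻¹ * k := by group
      have hβ : β = 0 := by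
        rcases zmod2_cases β with h | h
        · exact h
        · exfalso
          subst h
          have h1 := hqcen g
          rw [hq, hv1, pow_one] at h1
          have h2 : g * (w * g ^ α.val) = w * g ^ α.val * g * z := by
            calc g * (w * g ^ α.val) = (g * w) * g ^ α.val := by rw [mul_assoc]
              _ = w * g * z * g ^ α.val := by rw [hgw]
              _ = w * (g * (z * g ^ α.val)) := by simp only [mul_assoc]
              _ = w * (g * (g ^ α.val * z)) := by rw [A.hz (g ^ α.val)]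
              _ = w * ((g * g ^ α.val) * z) := by simp only [mul_assoc]
              _ = w * ((g ^ α.val * g) * z) := by rw [← pow_succ, ← pow_succ']
              _ = w * g ^ α.val * g * z := by simp only [mul_assoc]
          rw [h2] at h1
          exact hz1 (mul_left_cancel (a := w * g ^ α.val * g) (by rw [h1, mul_one]))
      subst hβ
      have hα : α = 0 := by
        rcases zmod2_cases α with h | h
        · exact h
        · exfalso
          subst h
          apply hgnc'
          intro k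
          have h1 := hqcen k
          rw [hq, hv1, ZMod.val_zero, pow_zero, pow_one, one_mul] at h1
          exact h1
      subst hα
      have hc0 : c = 0 := by
        rw [hq, ZMod.val_zero, pow_zero, pow_zero, one_mul, mul_one] at hs'
        exact pw_eq_one A.hzo hs'
      subst hc0
      rfl
    have hΨsurj : Function.Surjective Ψ := by
      intro e
      have hφR : ∀ t : Heis n 2, phiFun z X Y t ∈ Ψ.range := by
        intro t
        refine ⟨⟨t.a, t.b, t.c, 0, 0⟩, ?_⟩
        show phiFun z X Y ⟨t.a, t.b, t.c⟩ * (w ^ (0 : ZMod 2).val * g ^ (0 : ZMod 2).val) =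
          phiFun z X Y t
        rw [ZMod.val_zero, pow_zero, pow_zero, one_mul, mul_one]
      have hgR : g ∈ Ψ.range := by
        refine ⟨⟨0, 0, 0, 1, 0⟩, ?_⟩
        show phiFun z X Y ⟨0, 0, 0⟩ * (w ^ (0 : ZMod 2).val * g ^ (1 : ZMod 2).val) = g
        rw [hφ0, pw_zero, hv1, ZMod.val_zero, pow_zero, pow_one, one_mul, one_mul]
      have hwR : w ∈ Ψ.range := by
        refine ⟨⟨0, 0, 0, 0, 1⟩, ?_⟩
        show phiFun z X Y ⟨0, 0, 0⟩ * (w ^ (1 : ZMod 2).val * g ^ (0 : ZMod 2).val) = w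
        rw [hφ0, pw_zero, hv1, ZMod.val_zero, pow_zero, pow_one, one_mul, mul_one]
      have hzR : ∀ c : ZMod 2, pw z c ∈ Ψ.range := by
        intro c
        have h := hφR ⟨0, 0, c⟩
        rw [hφ0] at h
        exact h
      obtain ⟨t, htx, hty⟩ := adjust2 A D.good X Y e
      suffices h : e * phiFun z X Y t ∈ Ψ.range by
        have h2 := mul_mem h (inv_mem (hφR t))
        rw [mul_inv_cancel_right] at h2
        exact MonoidHom.mem_range.mp h2
      generalize e * phiFun z X Y t = c₀ at htx hty ⊢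
      obtain ⟨c₁, h1x, h1y, h1w, h1R⟩ : ∃ c₁ : E, (∀ i, x i * c₁ = c₁ * x i) ∧
          (∀ j, c₁ * y j = y j * c₁) ∧ c₁ * w = w * c₁ ∧ (c₁ ∈ Ψ.range → c₀ ∈ Ψ.range) := by
        rcases comm2 A c₀ w with h | h
        · exact ⟨c₀, htx, hty, h, id⟩
        · refine ⟨c₀ * g, ?_, ?_, ?_, ?_⟩
          · intro i; rw [← mul_assoc, htx i, mul_assoc, hgx i, mul_assoc]
          · intro j; rw [mul_assoc, hgy j, ← mul_assoc, hty j, mul_assoc]
          · calc c₀ * g * w = c₀ * (g * w) := by rw [mul_assoc]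
              _ = c₀ * (w * g * z) := by rw [hgw]
              _ = (c₀ * w) * g * z := by simp only [mul_assoc]
              _ = w * c₀ * z * g * z := by rw [h]
              _ = w * c₀ * (z * g) * z := by simp only [mul_assoc]
              _ = w * c₀ * (g * z) * z := by rw [A.hz g]
              _ = w * (c₀ * g) * (z * z) := by simp only [mul_assoc]
              _ = w * (c₀ * g) := by rw [hzz, mul_one]
          · intro hm
            have h3 := mul_mem hm (inv_mem hgR)
            rw [mul_inv_cancel_right] at h3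
            exact h3
      obtain ⟨c₂, h2x, h2y, h2w, h2g, h2R⟩ : ∃ c₂ : E, (∀ i, x i * c₂ = c₂ * x i) ∧
          (∀ j, c₂ * y j = y j * c₂) ∧ c₂ * w = w * c₂ ∧ c₂ * g = g * c₂ ∧
          (c₂ ∈ Ψ.range → c₁ ∈ Ψ.range) := by
        rcases comm2 A c₁ g with h | h
        · exact ⟨c₁, h1x, h1y, h1w, h, id⟩
        · have hwg : w * g = g * w * z := by rw [hgw, mul_assoc (w * g), hzz, mul_one]
          refine ⟨c₁ * w, ?_, ?_, ?_, ?_, ?_⟩
          · intro i; rw [← mul_assoc, h1x i, mul_assoc, hwx i, mul_assoc]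
          · intro j; rw [mul_assoc, hwy j, ← mul_assoc, h1y j, mul_assoc]
          · rw [h1w, mul_assoc, h1w]
          · calc c₁ * w * g = c₁ * (w * g) := by rw [mul_assoc]
              _ = c₁ * (g * w * z) := by rw [hwg]
              _ = (c₁ * g) * w * z := by simp only [mul_assoc]
              _ = g * c₁ * z * w * z := by rw [h]
              _ = g * c₁ * (z * w) * z := by simp only [mul_assoc]
              _ = g * c₁ * (w * z) * z := by rw [A.hz w]
              _ = g * (c₁ * w) * (z * z) := by simp only [mul_assoc]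
              _ = g * (c₁ * w) := by rw [hzz, mul_one]
          · intro hm
            have h3 := mul_mem hm (inv_mem hwR)
            rw [mul_inv_cancel_right] at h3
            exact h3
      apply h1R
      apply h2R
      have hc2cen : ∀ k : E, k * c₂ = c₂ * k := by
        by_contra hnc
        have hc2sq : c₂ ^ 2 = z := hCsq c₂ h2x h2y hnc
        have hgc_x : ∀ i, x i * (g * c₂) = (g * c₂) * x i := by
          intro i; rw [← mul_assoc, hgx i, mul_assoc, h2x i, mul_assoc]
        have hgc_y : ∀ j, (g * c₂) * y j = y j * (g * c₂) := by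
          intro j; rw [mul_assoc, h2y j, ← mul_assoc, hgy j, mul_assoc]
        have hgc_nc : ¬ ∀ k : E, k * (g * c₂) = (g * c₂) * k := by
          intro hk
          have h3 := hk w
          have h4 : g * c₂ * w = w * (g * c₂) * z := by
            calc g * c₂ * w = g * (c₂ * w) := by rw [mul_assoc]
              _ = g * (w * c₂) := by rw [h2w]
              _ = (g * w) * c₂ := by rw [mul_assoc]
              _ = w * g * z * c₂ := by rw [hgw]
              _ = w * g * (z * c₂) := by simp only [mul_assoc]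
              _ = w * g * (c₂ * z) := by rw [A.hz c₂]
              _ = w * (g * c₂) * z := by simp only [mul_assoc]
          rw [h4] at h3
          exact hz1 (mul_left_cancel (a := w * (g * c₂)) (by rw [← h3, mul_one]))
        have hsq1 : (g * c₂) ^ 2 = 1 := by
          calc (g * c₂) ^ 2 = (g * c₂) * (g * c₂) := pow_two _
            _ = g * (c₂ * g) * c₂ := by simp only [mul_assoc]
            _ = g * (g * c₂) * c₂ := by rw [h2g]
            _ = (g * g) * (c₂ * c₂) := by simp only [mul_assoc]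
            _ = 1 := by rw [hgg, ← pow_two c₂, hc2sq, hzz]
        have h6 := hCsq (g * c₂) hgc_x hgc_y hgc_nc
        rw [hsq1] at h6
        exact hz1 h6.symm
      obtain ⟨c, hc⟩ := A.hcen c₂ hc2cen
      rw [hc]
      exact hzR c
    exact ⟨n, Or.inr ⟨MulEquiv.ofBijective Ψ ⟨hΨinj, hΨsurj⟩⟩⟩

end

section
variable {E : Type*} [Group E]

theorem amb2_of_extraspecial [Finite E] (h : Cfsg.IsExtraspecial 2 E) :
    ∃ z : E, Amb2 E 2 z ∧ ∀ e : E, e ^ 2 = 1 ∨ e ^ 2 = z := by
  obtain ⟨⟨hP, hFr, hComm⟩, hZ⟩ := h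
  obtain ⟨⟨z, hzm⟩, hz1, hzu⟩ := (Nat.card_eq_two_iff' (1 : Subgroup.center E)).mp hZ
  have hz1' : z ≠ 1 := fun h => hz1 (Subtype.ext h)
  have hall : ∀ w ∈ Subgroup.center E, w = 1 ∨ w = z := by
    intro w hw
    by_cases h : w = 1
    · exact Or.inl h
    · right
      have := hzu ⟨w, hw⟩ (fun h' => h (congrArg Subtype.val h'))
      exact congrArg Subtype.val this
  have hzz : z * z = 1 := by
    rcases hall (z * z) (mul_mem hzm hzm) with h | h
    · exact h
    · exfalso
      apply hz1'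
      have : z * z = z * 1 := by rw [h, mul_one]
      exact mul_left_cancel this
  have hzp : z ^ 2 = 1 := by rw [pow_two]; exact hzz
  refine ⟨z, ⟨hzp, fun g => (Subgroup.mem_center_iff.mp hzm g), orderOf_eq_prime hzp hz1', ?_, ?_⟩, ?_⟩
  · intro w hw
    rcases hall w (Subgroup.mem_center_iff.mpr hw) with h | h
    · exact ⟨0, by rw [h, pw_zero]⟩
    · exact ⟨1, by rw [h, pw_one]⟩
  · intro g h k
    have hmem : (h * g)⁻¹ * (g * h) ∈ Subgroup.center E := by
      rw [← hComm]
      have h1 := Subgroup.commutator_mem_commutator (Subgroup.mem_top g⁻¹) (Subgroup.mem_top h⁻¹)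
      rw [← commutator_def, commutatorElement_def] at h1
      have e : g⁻¹ * h⁻¹ * g⁻¹⁻¹ * h⁻¹⁻¹ = (h * g)⁻¹ * (g * h) := by group
      rw [← e]; exact h1
    exact Subgroup.mem_center_iff.mp hmem k
  · intro e
    have h1 : e ^ 2 ∈ frattini E := Cfsg.Agent.Lib.Helper7.pow_mem_frattini hP e
    rw [hFr] at h1
    exact hall _ h1

theorem classify2 [Finite E] (h : Cfsg.IsExtraspecial 2 E) :
    ∃ n, Nonempty (Heis n 2 ≃* E) ∨ Nonempty (HQ n ≃* E) := by
  obtain ⟨z, A, hsq⟩ := amb2_of_extraspecial h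
  exact classify A hsq

theorem card_sq_congr {M : Type*} [Group M] (e : M ≃* E) :
    Nat.card {x : M // x ^ 2 = 1} = Nat.card {x : E // x ^ 2 = 1} :=
  Nat.card_congr (e.toEquiv.subtypeEquiv (fun x => by
    show x ^ 2 = 1 ↔ (e x) ^ 2 = 1
    rw [← map_pow, MulEquiv.map_eq_one_iff]))

end

/-! ### counting involutions in the models -/

def sgn (u : ZMod 2) : ℤ := if u = 0 then 1 else -1

theorem sgn_add (u v : ZMod 2) : sgn (u + v) = sgn u * sgn v := by revert u v; decide

theorem count_zero {T : Type*} [Fintype T] (Q : T → ZMod 2) :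
    2 * (Nat.card {t : T // Q t = 0} : ℤ) = Fintype.card T + ∑ t, sgn (Q t) := by
  classical
  rw [Nat.card_eq_fintype_card, Fintype.card_subtype]
  have h1 : ∀ t : T, (1 : ℤ) + sgn (Q t) = 2 * (if Q t = 0 then 1 else 0) := by
    intro t
    unfold sgn
    split_ifs <;> norm_num
  have h2 : ∑ t : T, ((1 : ℤ) + sgn (Q t)) = (Fintype.card T : ℤ) + ∑ t, sgn (Q t) := by
    rw [Finset.sum_add_distrib]; simp
  rw [← h2, Finset.sum_congr rfl (fun t _ => h1 t), ← Finset.mul_sum, Finset.sum_boole]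

theorem sum_dot (n : ℕ) :
    ∑ a : Fin n → ZMod 2, ∑ b : Fin n → ZMod 2, sgn (a ⬝ᵥ b) = 2 ^ n := by
  classical
  have h0 : ∀ a : Fin n → ZMod 2, a ≠ 0 → ∑ b : Fin n → ZMod 2, sgn (a ⬝ᵥ b) = 0 := by
    intro a ha
    obtain ⟨i, hi⟩ : ∃ i, a i ≠ 0 := by
      by_contra hcon
      push_neg at hcon
      exact ha (funext hcon)
    have hai : a i = 1 := by
      rcases zmod2_cases (a i) with h | h
      · exact absurd h hi
      · exact h
    obtain ⟨v, hv⟩ : ∃ v : Fin n → ZMod 2, v = Pi.single i 1 := ⟨_, rfl⟩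
    have hre : ∑ b : Fin n → ZMod 2, sgn (a ⬝ᵥ b) =
        ∑ b : Fin n → ZMod 2, sgn (a ⬝ᵥ (b + v)) :=
      (Fintype.sum_equiv (Equiv.addRight v) (fun b => sgn (a ⬝ᵥ (b + v)))
        (fun b => sgn (a ⬝ᵥ b)) (fun b => rfl)).symm
    have h2 : ∀ b : Fin n → ZMod 2, sgn (a ⬝ᵥ (b + v)) = - sgn (a ⬝ᵥ b) := by
      intro b
      rw [dotProduct_add, hv, dotProduct_single, hai, mul_one, sgn_add]
      have h3 : sgn 1 = -1 := by decide
      rw [h3]; ring
    rw [Finset.sum_congr rfl (fun b _ => h2 b), Finset.sum_neg_distrib] at hre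
    linarith
  rw [Finset.sum_eq_single (0 : Fin n → ZMod 2)]
  · have h4 : ∀ b : Fin n → ZMod 2, sgn ((0 : Fin n → ZMod 2) ⬝ᵥ b) = 1 := by
      intro b; rw [zero_dotProduct]; rfl
    rw [Finset.sum_congr rfl (fun b _ => h4 b)]
    simp
  · intro a _ ha
    exact h0 a ha
  · intro h
    exact absurd (Finset.mem_univ _) h

theorem heis_sq {n : ℕ} (x : Heis n 2) : x ^ 2 = 1 ↔ x.a ⬝ᵥ x.b = 0 := by
  have h2 : ∀ u : ZMod 2, u + u = 0 := by decide
  rw [pow_two]
  constructor
  · intro h
    have h3 := congrArg Heis.c h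
    rw [Heis.mul_c, Heis.one_c, h2, zero_add] at h3
    exact h3
  · intro h
    refine Cfsg.Agent.S3799.Heis.ext ?_ ?_ ?_
    · funext i; exact h2 _
    · funext i; exact h2 _
    · show x.c + x.c + x.a ⬝ᵥ x.b = 0
      rw [h2, h, add_zero]

theorem j_heis (n : ℕ) : Nat.card {x : Heis n 2 // x ^ 2 = 1} = 2 ^ (2 * n) + 2 ^ n := by
  classical
  let e : Heis n 2 ≃ (Fin n → ZMod 2) × (Fin n → ZMod 2) × ZMod 2 :=
    { toFun := fun x => (x.a, x.b, x.c)
      invFun := fun t => ⟨t.1, t.2.1, t.2.2⟩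
      left_inv := fun _ => rfl
      right_inv := fun _ => rfl }
  have h1 : Nat.card {x : Heis n 2 // x ^ 2 = 1} =
      Nat.card {t : (Fin n → ZMod 2) × (Fin n → ZMod 2) × ZMod 2 // t.1 ⬝ᵥ t.2.1 = 0} :=
    Nat.card_congr (e.subtypeEquiv (fun x => heis_sq x))
  have h2 := count_zero (fun t : (Fin n → ZMod 2) × (Fin n → ZMod 2) × ZMod 2 => t.1 ⬝ᵥ t.2.1)
  have h3 : ∑ t : (Fin n → ZMod 2) × (Fin n → ZMod 2) × ZMod 2, sgn (t.1 ⬝ᵥ t.2.1) =
      2 * 2 ^ n := by
    rw [← sum_dot n]
    simp only [Fintype.sum_prod_type, Finset.sum_const, Finset.card_univ, ZMod.card,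
      nsmul_eq_mul, Finset.mul_sum]
    rfl
  have h4 : (Fintype.card ((Fin n → ZMod 2) × (Fin n → ZMod 2) × ZMod 2) : ℤ) =
      2 * 2 ^ (2 * n) := by
    simp only [Fintype.card_prod, Fintype.card_pi, ZMod.card, Finset.prod_const, Finset.card_univ,
      Fintype.card_fin]
    push_cast
    ring
  rw [h3, h4] at h2
  rw [h1]
  have h5 : (Nat.card {t : (Fin n → ZMod 2) × (Fin n → ZMod 2) × ZMod 2 // t.1 ⬝ᵥ t.2.1 = 0} : ℤ) =
      2 ^ (2 * n) + 2 ^ n := by linarith
  exact_mod_cast h5

theorem hq_sq {n : ℕ} (s : HQ n) :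
    s ^ 2 = 1 ↔ s.a ⬝ᵥ s.b + (s.α * s.α + s.β * s.β + s.α * s.β) = 0 := by
  have h2 : ∀ u : ZMod 2, u + u = 0 := by decide
  have hc : (s * s).c = (s.c + s.c) + (s.a ⬝ᵥ s.b + (s.α * s.α + s.β * s.β + s.α * s.β)) := by
    rw [HQ.mul_c]; ring
  rw [pow_two]
  constructor
  · intro h
    have h3 := congrArg HQ.c h
    rw [hc, HQ.one_c, h2, zero_add] at h3
    exact h3
  · intro h
    refine HQ.ext ?_ ?_ ?_ ?_ ?_
    · funext i; exact h2 _
    · funext i; exact h2 _
    · rw [hc, h2, h, add_zero]; rfl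
    · exact h2 _
    · exact h2 _

theorem j_hq (n : ℕ) : Nat.card {s : HQ n // s ^ 2 = 1} + 2 ^ (n + 1) = 2 ^ (2 * n + 2) := by
  classical
  have h1 : Nat.card {s : HQ n // s ^ 2 = 1} =
      Nat.card {t : (Fin n → ZMod 2) × (Fin n → ZMod 2) × ZMod 2 × ZMod 2 × ZMod 2 //
        t.1 ⬝ᵥ t.2.1 + (t.2.2.2.1 * t.2.2.2.1 + t.2.2.2.2 * t.2.2.2.2 + t.2.2.2.1 * t.2.2.2.2) = 0} :=
    Nat.card_congr (HQ.equivProd.subtypeEquiv (fun s => hq_sq s))
  have h2 := count_zero (fun t : (Fin n → ZMod 2) × (Fin n → ZMod 2) × ZMod 2 × ZMod 2 × ZMod 2 =>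
    t.1 ⬝ᵥ t.2.1 + (t.2.2.2.1 * t.2.2.2.1 + t.2.2.2.2 * t.2.2.2.2 + t.2.2.2.1 * t.2.2.2.2))
  have hin : ∑ c : ZMod 2, ∑ α : ZMod 2, ∑ β : ZMod 2, sgn (α * α + β * β + α * β) = -4 := by
    decide
  have h3 : ∑ t : (Fin n → ZMod 2) × (Fin n → ZMod 2) × ZMod 2 × ZMod 2 × ZMod 2,
      sgn (t.1 ⬝ᵥ t.2.1 + (t.2.2.2.1 * t.2.2.2.1 + t.2.2.2.2 * t.2.2.2.2 + t.2.2.2.1 * t.2.2.2.2)) =
      -4 * 2 ^ n := by
    rw [← sum_dot n, ← hin]
    simp only [Fintype.sum_prod_type, sgn_add, ← Finset.mul_sum, ← Finset.sum_mul]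
    ring
  have h4 : (Fintype.card ((Fin n → ZMod 2) × (Fin n → ZMod 2) × ZMod 2 × ZMod 2 × ZMod 2) : ℤ) =
      8 * 2 ^ (2 * n) := by
    simp only [Fintype.card_prod, Fintype.card_pi, ZMod.card, Finset.prod_const, Finset.card_univ,
      Fintype.card_fin]
    push_cast
    ring
  rw [h3, h4] at h2
  rw [h1]
  have h5 : (Nat.card {t : (Fin n → ZMod 2) × (Fin n → ZMod 2) × ZMod 2 × ZMod 2 × ZMod 2 //
        t.1 ⬝ᵥ t.2.1 + (t.2.2.2.1 * t.2.2.2.1 + t.2.2.2.2 * t.2.2.2.2 + t.2.2.2.1 * t.2.2.2.2) = 0} : ℤ)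
        + 2 ^ (n + 1) = 2 ^ (2 * n + 2) := by
    have e1 : (2 : ℤ) ^ (n + 1) = 2 * 2 ^ n := by rw [pow_succ]; ring
    have e2 : (2 : ℤ) ^ (2 * n + 2) = 4 * 2 ^ (2 * n) := by rw [pow_add]; ring
    rw [e1, e2]
    linarith
  exact_mod_cast h5

end Cfsg.Agent.Lib.Helper6.Extra2
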