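import Mathlib
import Cfsg.Agent.Lib.Helper6.Extra2
import Cfsg.Agent.Lib.Helper4.PCore

set_option autoImplicit false

namespace Cfsg.Agent.Lib.Helper6.Ex32

open Cfsg.Agent.S3799 Cfsg.Agent.S0098 Cfsg.Agent.Lib.Helper6.Extra2

section
variable {G : Type*} [Group G]

/-- the two-element subgroup `{1, z}` -/
def Zs (z : G) (hzz : z * z = 1) : Subgroup G where
  carrier := {u | u = 1 ∨ u = z}
  mul_mem' := by
    rintro a b (ha | ha) (hb | hb)
    · left; rw [ha, hb, mul_one]
    · right; rw [ha, hb, one_mul]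
    · right; rw [ha, hb, mul_one]
    · left; rw [ha, hb, hzz]
  one_mem' := Or.inl rfl
  inv_mem' := by
    rintro a (ha | ha)
    · left; rw [ha, inv_one]
    · right; rw [ha]; exact inv_eq_of_mul_eq_one_right hzz

theorem mem_Zs {z : G} {hzz : z * z = 1} {u : G} : u ∈ Zs z hzz ↔ u = 1 ∨ u = z := Iff.rfl

theorem card_Zs {z : G} (hzz : z * z = 1) (hz1 : z ≠ 1) : Nat.card (Zs z hzz) = 2 := by
  rw [Nat.card_eq_two_iff' (1 : Zs z hzz)]
  refine ⟨⟨z, Or.inr rfl⟩, fun h => hz1 (congrArg Subtype.val h), ?_⟩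
  rintro ⟨y, hy⟩ hne
  rcases hy with h | h
  · exact absurd (Subtype.ext h) hne
  · exact Subtype.ext h

structure Amb32 (H : Subgroup G) (z : G) : Prop where
  hn : H.Normal
  hzH : z ∈ H
  hz1 : z ≠ 1
  hzz : z * z = 1
  hzc : ∀ h ∈ H, h * z = z * h
  hcen : ∀ h ∈ H, (∀ g ∈ H, g * h = h * g) → h = 1 ∨ h = z
  hcomm : ∀ g ∈ H, ∀ h ∈ H, g * h = h * g ∨ g * h = h * g * z
  hsq : ∀ h ∈ H, h * h = 1 ∨ h * h = z

theorem amb32_of [Finite G] (H : Subgroup G) (hn : H.Normal) (hex : Cfsg.IsExtraspecial 2 H) :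
    ∃ z, Amb32 H z := by
  haveI : Fact (Nat.Prime 2) := ⟨Nat.prime_two⟩
  obtain ⟨z', A2, hsq⟩ := amb2_of_extraspecial hex
  have hz1 : z' ≠ 1 := by
    intro h
    have := A2.hzo
    rw [h, orderOf_one] at this
    omega
  have hzz : z' * z' = 1 := by have := A2.hzp; rwa [pow_two] at this
  refine ⟨(z' : G), hn, z'.2, fun h => hz1 (Subtype.ext h), congrArg Subtype.val hzz, ?_, ?_, ?_, ?_⟩
  · intro h hh
    exact congrArg Subtype.val (A2.hz ⟨h, hh⟩)
  · intro h hh hc
    rcases cen2 A2 (w := ⟨h, hh⟩) (fun g => Subtype.ext (hc g.1 g.2)) with h1 | h1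
    · left; exact congrArg Subtype.val h1
    · right; exact congrArg Subtype.val h1
  · intro g hg h hh
    rcases comm2 A2 ⟨g, hg⟩ ⟨h, hh⟩ with h1 | h1
    · left; exact congrArg Subtype.val h1
    · right; exact congrArg Subtype.val h1
  · intro h hh
    rcases hsq ⟨h, hh⟩ with h1 | h1
    · left
      have h2 : (⟨h, hh⟩ : H) * ⟨h, hh⟩ = 1 := by rw [← pow_two]; exact h1
      exact congrArg Subtype.val h2
    · right
      have h2 : (⟨h, hh⟩ : H) * ⟨h, hh⟩ = z' := by rw [← pow_two]; exact h1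
      exact congrArg Subtype.val h2

theorem Amb32.conj_z {H : Subgroup G} {z : G} (A : Amb32 H z) (g : G) : g * z * g⁻¹ = z := by
  have h1 : g * z * g⁻¹ ∈ H := A.hn.conj_mem z A.hzH g
  have hc : ∀ h ∈ H, h * (g * z * g⁻¹) = (g * z * g⁻¹) * h := by
    intro h hh
    have hu : g⁻¹ * h * g ∈ H := by
      have := A.hn.conj_mem h hh g⁻¹
      simpa using this
    have hu' := A.hzc _ hu
    calc h * (g * z * g⁻¹) = g * ((g⁻¹ * h * g) * z) * g⁻¹ := by group
      _ = g * (z * (g⁻¹ * h * g)) * g⁻¹ := by rw [hu']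
      _ = (g * z * g⁻¹) * h := by group
  rcases A.hcen _ h1 hc with h2 | h2
  · exfalso
    apply A.hz1
    have e : z = g⁻¹ * (g * z * g⁻¹) * g := by group
    rw [e, h2]; group
  · exact h2

theorem Amb32.zs_central {H : Subgroup G} {z : G} (A : Amb32 H z) {c : G}
    (hc : c ∈ Zs z A.hzz) {h : G} (hh : h ∈ H) : h * c = c * h := by
  rcases hc with h1 | h1
  · rw [h1, mul_one, one_mul]
  · rw [h1]; exact A.hzc h hh

theorem Amb32.zs_conj {H : Subgroup G} {z : G} (A : Amb32 H z) {c : G}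
    (hc : c ∈ Zs z A.hzz) (g : G) : g * c * g⁻¹ = c := by
  rcases hc with h1 | h1
  · rw [h1]; group
  · rw [h1]; exact A.conj_z g

theorem Amb32.zs_le {H : Subgroup G} {z : G} (A : Amb32 H z) : Zs z A.hzz ≤ H := by
  intro c hc
  rcases hc with h1 | h1
  · rw [h1]; exact H.one_mem
  · rw [h1]; exact A.hzH

/-- elements of `H` fixed modulo `{1, z}` by conjugation with `g` -/
def Kof {H : Subgroup G} {z : G} (A : Amb32 H z) (g : G) : Subgroup G where
  carrier := {y | y ∈ H ∧ y⁻¹ * (g * y * g⁻¹) ∈ Zs z A.hzz}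
  mul_mem' := by
    rintro a b ⟨ha, ca⟩ ⟨hb, cb⟩
    refine ⟨H.mul_mem ha hb, ?_⟩
    have e : (a * b)⁻¹ * (g * (a * b) * g⁻¹) =
        b⁻¹ * (a⁻¹ * (g * a * g⁻¹)) * b * (b⁻¹ * (g * b * g⁻¹)) := by group
    have hc := A.zs_central ca hb
    have e2 : b⁻¹ * (a⁻¹ * (g * a * g⁻¹)) * b = a⁻¹ * (g * a * g⁻¹) := by
      calc b⁻¹ * (a⁻¹ * (g * a * g⁻¹)) * b = b⁻¹ * ((a⁻¹ * (g * a * g⁻¹)) * b) := mul_assoc _ _ _
        _ = b⁻¹ * (b * (a⁻¹ * (g * a * g⁻¹))) := by rw [hc]
        _ = a⁻¹ * (g * a * g⁻¹) := inv_mul_cancel_left _ _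
    rw [e, e2]
    exact (Zs z A.hzz).mul_mem ca cb
  one_mem' := ⟨H.one_mem, by
    have e : (1 : G)⁻¹ * (g * 1 * g⁻¹) = 1 := by group
    rw [e]; exact (Zs z A.hzz).one_mem⟩
  inv_mem' := by
    rintro a ⟨ha, ca⟩
    refine ⟨H.inv_mem ha, ?_⟩
    have e : (a⁻¹)⁻¹ * (g * a⁻¹ * g⁻¹) = a * (a⁻¹ * (g * a * g⁻¹))⁻¹ * a⁻¹ := by group
    have hc := A.zs_central ((Zs z A.hzz).inv_mem ca) ha
    rw [e, hc, mul_assoc, mul_inv_cancel, mul_one]
    exact (Zs z A.hzz).inv_mem ca

theorem Kof_mul {H : Subgroup G} {z : G} (A : Amb32 H z) {a b y : G} (ha : y ∈ Kof A a)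
    (hb : y ∈ Kof A b) : y ∈ Kof A (a * b) := by
  refine ⟨ha.1, ?_⟩
  have e : y⁻¹ * (a * b * y * (a * b)⁻¹) =
      (y⁻¹ * (a * y * a⁻¹)) * (a * (y⁻¹ * (b * y * b⁻¹)) * a⁻¹) := by group
  rw [e, A.zs_conj hb.2 a]
  exact (Zs z A.hzz).mul_mem ha.2 hb.2

theorem Kof_pow {H : Subgroup G} {z : G} (A : Amb32 H z) {a y : G} (ha : y ∈ Kof A a) (n : ℕ) :
    y ∈ Kof A (a ^ n) := by
  induction n with
  | zero =>
    refine ⟨ha.1, ?_⟩
    have e : y⁻¹ * (a ^ 0 * y * (a ^ 0)⁻¹) = 1 := by simp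
    rw [e]; exact (Zs z A.hzz).one_mem
  | succ n ih => rw [pow_succ]; exact Kof_mul A ih ha

theorem Kof_conj {H : Subgroup G} {z : G} (A : Amb32 H z) {a y : G} (ha : y ∈ Kof A a) (f : G) :
    f * y * f⁻¹ ∈ Kof A (f * a * f⁻¹) := by
  refine ⟨A.hn.conj_mem y ha.1 f, ?_⟩
  have e : (f * y * f⁻¹)⁻¹ * (f * a * f⁻¹ * (f * y * f⁻¹) * (f * a * f⁻¹)⁻¹) =
      f * (y⁻¹ * (a * y * a⁻¹)) * f⁻¹ := by group
  rw [e, A.zs_conj ha.2 f]
  exact ha.2

theorem Kof_of_mem {H : Subgroup G} {z : G} (A : Amb32 H z) {h y : G} (hh : h ∈ H) (hy : y ∈ H) :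
    y ∈ Kof A h := by
  refine ⟨hy, ?_⟩
  rw [mem_Zs]
  rcases A.hcomm h hh y hy with h1 | h1
  · left
    rw [h1]; group
  · right
    rw [h1]
    have hz := A.conj_z h
    calc y⁻¹ * (y * h * z * h⁻¹) = h * z * h⁻¹ := by group
      _ = z := hz

/-- the kernel of the action on `H / {1, z}` -/
def Xker {H : Subgroup G} {z : G} (A : Amb32 H z) : Subgroup G where
  carrier := {g | ∀ y ∈ H, y ∈ Kof A g}
  mul_mem' := fun {a b} ha hb y hy => Kof_mul A (ha y hy) (hb y hy)
  one_mem' := fun y hy => by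
    refine ⟨hy, ?_⟩
    have e : y⁻¹ * (1 * y * (1 : G)⁻¹) = 1 := by group
    rw [e]; exact Subgroup.one_mem _
  inv_mem' := fun {g} hg y hy => by
    refine ⟨hy, ?_⟩
    have hu : g⁻¹ * y * g ∈ H := by
      have := A.hn.conj_mem y hy g⁻¹
      simpa using this
    have h1 := (hg _ hu).2
    have e : y⁻¹ * (g⁻¹ * y * g⁻¹⁻¹) =
        ((g⁻¹ * y * g)⁻¹ * (g * (g⁻¹ * y * g) * g⁻¹))⁻¹ := by group
    rw [e]
    exact Subgroup.inv_mem _ h1

theorem Xker_normal {H : Subgroup G} {z : G} (A : Amb32 H z) : (Xker A).Normal := by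
  constructor
  intro g hg a
  show ∀ y ∈ H, y ∈ Kof A (a * g * a⁻¹)
  intro y hy
  have hu : a⁻¹ * y * a ∈ H := by
    have := A.hn.conj_mem y hy a⁻¹
    simpa using this
  have h1 := Kof_conj A (hg _ hu) a
  have e : a * (a⁻¹ * y * a) * a⁻¹ = y := by group
  rw [e] at h1
  exact h1

theorem card_modEq_fixed [Finite G] (X : Subgroup G) (f : G) (p : ℕ) [Fact p.Prime]
    (hf : f ^ p = 1) (hX : ∀ y ∈ X, f * y * f⁻¹ ∈ X) :
    Nat.card (X ⊓ Subgroup.centralizer {f} : Subgroup G) ≡ Nat.card X [MOD p] := by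
  classical
  haveI := Fintype.ofFinite X
  have hinj : Function.Injective (fun y : X => (⟨f * y * f⁻¹, hX y y.2⟩ : X)) := by
    intro a b h
    have h' : f * (a : G) * f⁻¹ = f * (b : G) * f⁻¹ := congrArg Subtype.val h
    apply Subtype.ext
    have := congrArg (fun t => f⁻¹ * t * f) h'
    simpa [mul_assoc] using this
  obtain ⟨π, hπ⟩ : ∃ π : Equiv.Perm X, ∀ y : X, (π y : G) = f * y * f⁻¹ :=
    ⟨Equiv.ofBijective _ ⟨hinj, Finite.surjective_of_injective hinj⟩, fun y => rfl⟩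
  have hpow : ∀ k : ℕ, ∀ y : X, ((π ^ k) y : G) = f ^ k * y * (f ^ k)⁻¹ := by
    intro k
    induction k with
    | zero => intro y; simp
    | succ k ih =>
      intro y
      rw [pow_succ', Equiv.Perm.mul_apply, hπ, ih, pow_succ']
      group
  have hπp : π ^ p ^ 1 = 1 := by
    rw [pow_one]
    ext y
    rw [hpow p y, hf]
    simp
  have hmod := Equiv.Perm.card_compl_support_modEq hπp
  rw [← Nat.card_eq_fintype_card] at hmod
  have hcount : Nat.card (X ⊓ Subgroup.centralizer {f} : Subgroup G) = π.supportᶜ.card := by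
    have e : (X ⊓ Subgroup.centralizer {f} : Subgroup G) ≃ {y : X // y ∈ π.supportᶜ} :=
      { toFun := fun a => ⟨⟨a.1, a.2.1⟩, by
          rw [Finset.mem_compl, Equiv.Perm.notMem_support]
          apply Subtype.ext
          rw [hπ]
          have h1 := Subgroup.mem_centralizer_iff.mp a.2.2 f (Set.mem_singleton f)
          show f * (a : G) * f⁻¹ = a
          rw [h1]; group⟩
        invFun := fun b => ⟨b.1.1, b.1.2, by
          show (b.1 : G) ∈ Subgroup.centralizer {f}
          rw [Subgroup.mem_centralizer_iff]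
          intro h hh
          rw [Set.mem_singleton_iff] at hh
          rw [hh]
          have h1 := b.2
          rw [Finset.mem_compl, Equiv.Perm.notMem_support] at h1
          have h2 : f * (b.1 : G) * f⁻¹ = b.1 := by rw [← hπ]; exact congrArg Subtype.val h1
          calc f * (b.1 : G) = (f * (b.1 : G) * f⁻¹) * f := by group
            _ = (b.1 : G) * f := by rw [h2]⟩
        left_inv := fun a => rfl
        right_inv := fun b => rfl }
    rw [Nat.card_congr e, Nat.card_eq_finsetCard]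
  rw [hcount]
  exact hmod

theorem card_le_two_mul [Finite G] (C K : Subgroup G) (hCK : C ≤ K)
    (h : ∀ a ∈ K, ∀ b ∈ K, a ∉ C → b ∉ C → a * b⁻¹ ∈ C) : Nat.card K ≤ 2 * Nat.card C := by
  classical
  by_cases hex : ∃ y₀ ∈ K, y₀ ∉ C
  · obtain ⟨y₀, hy₀K, hy₀C⟩ := hex
    have hinj : Function.Injective (fun y : K =>
        if hy : (y : G) ∈ C then ((⟨y, hy⟩ : C), true)
        else ((⟨(y : G) * y₀⁻¹, h y y.2 y₀ hy₀K hy hy₀C⟩ : C), false)) := by
      intro a b hab
      dsimp only at hab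
      by_cases ha : (a : G) ∈ C <;> by_cases hb : (b : G) ∈ C
      · rw [dif_pos ha, dif_pos hb] at hab
        have := congrArg (fun t => (t.1 : G)) hab
        exact Subtype.ext this
      · rw [dif_pos ha, dif_neg hb] at hab
        have := congrArg Prod.snd hab
        simp at this
      · rw [dif_neg ha, dif_pos hb] at hab
        have := congrArg Prod.snd hab
        simp at this
      · rw [dif_neg ha, dif_neg hb] at hab
        have : (a : G) * y₀⁻¹ = (b : G) * y₀⁻¹ := congrArg (fun t => (t.1 : G)) hab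
        exact Subtype.ext (mul_right_cancel this)
    have := Nat.card_le_card_of_injective _ hinj
    rw [Nat.card_prod, Nat.card_eq_fintype_card (α := Bool), Fintype.card_bool] at this
    omega
  · push_neg at hex
    have hKC : K ≤ C := fun y hy => hex y hy
    have := Subgroup.card_le_of_le hKC
    omega

theorem comm_of_isMulComm' (A : Subgroup G) (hA : IsMulCommutative A) :
    ∀ a ∈ A, ∀ b ∈ A, a * b = b * a := by
  intro a ha b hb
  exact congrArg Subtype.val (hA.is_comm.comm ⟨a, ha⟩ ⟨b, hb⟩)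

theorem elemAb_adjoin (V : Subgroup G) (hV : Cfsg.IsElementaryAbelian 2 V) (w : G)
    (hw2 : w ^ 2 = 1) (hwV : ∀ v ∈ V, w * v = v * w) :
    Cfsg.IsElementaryAbelian 2 (Subgroup.closure ((V : Set G) ∪ {w})) := by
  obtain ⟨hVc, hV2⟩ := hV
  have hVcomm := comm_of_isMulComm' V hVc
  have hk : ∀ a ∈ (V : Set G) ∪ {w}, ∀ b ∈ (V : Set G) ∪ {w}, a * b = b * a := by
    rintro a (ha | ha) b (hb | hb)
    · exact hVcomm a ha b hb
    · rw [Set.mem_singleton_iff] at hb; rw [hb]; exact (hwV a ha).symm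
    · rw [Set.mem_singleton_iff] at ha; rw [ha]; exact hwV b hb
    · rw [Set.mem_singleton_iff] at ha hb; rw [ha, hb]
  have h1 : Subgroup.closure ((V : Set G) ∪ {w}) ≤
      Subgroup.centralizer ((V : Set G) ∪ {w}) := by
    rw [Subgroup.closure_le]
    intro a ha
    rw [SetLike.mem_coe, Subgroup.mem_centralizer_iff]
    intro b hb
    exact hk b hb a ha
  have hcomm : ∀ a ∈ Subgroup.closure ((V : Set G) ∪ {w}),
      ∀ b ∈ Subgroup.closure ((V : Set G) ∪ {w}), a * b = b * a := by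
    intro a ha b hb
    have h2 : Subgroup.closure ((V : Set G) ∪ {w}) ≤ Subgroup.centralizer ({a} : Set G) := by
      rw [Subgroup.closure_le]
      intro c hc
      rw [SetLike.mem_coe, Subgroup.mem_centralizer_iff]
      intro d hd
      rw [Set.mem_singleton_iff] at hd
      rw [hd]
      exact ((Subgroup.mem_centralizer_iff.mp (h1 ha)) c hc).symm
    exact Subgroup.mem_centralizer_iff.mp (h2 hb) a (Set.mem_singleton a)
  have hsq : ∀ a ∈ Subgroup.closure ((V : Set G) ∪ {w}), a ^ 2 = 1 := by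
    let B : Subgroup G :=
      { carrier := {a | a ∈ Subgroup.closure ((V : Set G) ∪ {w}) ∧ a ^ 2 = 1}
        mul_mem' := by
          rintro a b ⟨ha, ha2⟩ ⟨hb, hb2⟩
          refine ⟨Subgroup.mul_mem _ ha hb, ?_⟩
          have hc : Commute a b := hcomm a ha b hb
          rw [hc.mul_pow, ha2, hb2, one_mul]
        one_mem' := ⟨Subgroup.one_mem _, one_pow 2⟩
        inv_mem' := by
          rintro a ⟨ha, ha2⟩
          exact ⟨Subgroup.inv_mem _ ha, by rw [inv_pow, ha2, inv_one]⟩ }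
    have hB : Subgroup.closure ((V : Set G) ∪ {w}) ≤ B := by
      rw [Subgroup.closure_le]
      rintro a (ha | ha)
      · exact ⟨Subgroup.subset_closure (Or.inl ha), hV2 a ha⟩
      · rw [Set.mem_singleton_iff] at ha
        rw [ha]
        exact ⟨Subgroup.subset_closure (Or.inr rfl), hw2⟩
    intro a ha
    exact (hB ha).2
  exact And.intro ⟨⟨fun a b => Subtype.ext (hcomm a.1 a.2 b.1 b.2)⟩⟩ hsq

theorem mem_of_adjoin [Finite G] (H V : Subgroup G) (hVH : V ≤ H)
    (hVe : Cfsg.IsElementaryAbelian 2 V) (hV4 : Nat.card V = 4)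
    (hminus : ∀ A : Subgroup G, A ≤ H → Cfsg.IsElementaryAbelian 2 A → Nat.card ↥A ≤ 4)
    (w : G) (hwH : w ∈ H) (hw2 : w * w = 1) (hwV : ∀ v ∈ V, w * v = v * w) : w ∈ V := by
  have hA := elemAb_adjoin V hVe w (by rw [pow_two]; exact hw2) hwV
  have hAH : Subgroup.closure ((V : Set G) ∪ {w}) ≤ H := by
    rw [Subgroup.closure_le]
    rintro a (ha | ha)
    · exact hVH ha
    · rw [Set.mem_singleton_iff] at ha; rw [ha]; exact hwH
  have hc := hminus _ hAH hA
  have hVA : V ≤ Subgroup.closure ((V : Set G) ∪ {w}) :=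
    fun a ha => Subgroup.subset_closure (Or.inl ha)
  have hEq : V = Subgroup.closure ((V : Set G) ∪ {w}) :=
    Subgroup.eq_of_le_of_card_ge hVA (by rw [hV4]; exact hc)
  rw [hEq]
  exact Subgroup.subset_closure (Or.inr rfl)

theorem no_cent5 [Finite G] (hG : Nat.card G = 320) (H : Subgroup G) (hH32 : Nat.card H = 32)
    (hHF : H = Cfsg.fittingSubgroup G) (f : G) (hf5 : f ^ 5 = 1) (hf1 : f ≠ 1)
    (hcent : ∀ h ∈ H, f * h = h * f) : False := by
  haveI : Fact (Nat.Prime 5) := ⟨by norm_num⟩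
  have hord : orderOf f = 5 := orderOf_eq_prime hf5 hf1
  have hcardP : Nat.card (Subgroup.zpowers f) = 5 := by rw [Nat.card_zpowers, hord]
  have hPp : IsPGroup 5 (Subgroup.zpowers f) :=
    IsPGroup.of_card (n := 1) (by rw [hcardP, pow_one])
  obtain ⟨Q, hPQ⟩ := hPp.exists_le_sylow
  obtain ⟨k, hk⟩ := IsPGroup.iff_card.mp Q.isPGroup'
  have hQdvd : Nat.card (Q : Subgroup G) ∣ 320 := by
    rw [← hG]; exact Subgroup.card_subgroup_dvd_card _
  have hk1 : k = 1 := by
    have h5 : 5 ≤ Nat.card (Q : Subgroup G) := by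
      have := Subgroup.card_le_of_le hPQ
      rw [hcardP] at this
      exact this
    rw [hk] at h5 hQdvd
    have hk_le : k ≤ 1 := by
      by_contra hcon
      have h25 : 5 ^ 2 ∣ 5 ^ k := pow_dvd_pow 5 (by omega)
      have := dvd_trans h25 hQdvd
      omega
    have hk_ge : 1 ≤ k := by
      by_contra hcon
      have hk0 : k = 0 := by omega
      rw [hk0] at h5
      norm_num at h5
    omega
  have hQ5 : Nat.card (Q : Subgroup G) = 5 := by rw [hk, hk1, pow_one]
  have hPQeq : Subgroup.zpowers f = (Q : Subgroup G) :=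
    Subgroup.eq_of_le_of_card_ge hPQ (by rw [hQ5, hcardP])
  have hmod := card_sylow_modEq_one 5 G
  have hidx : Nat.card (Sylow 5 G) =
      (Subgroup.normalizer ((Q : Subgroup G) : Set G)).index := Sylow.card_eq_index_normalizer Q
  have hHN : H ≤ Subgroup.normalizer ((Q : Subgroup G) : Set G) := by
    intro h hh
    rw [Subgroup.mem_normalizer_iff]
    have hcomm : ∀ x ∈ (Q : Subgroup G), h * x * h⁻¹ = x := by
      intro x hx
      rw [← hPQeq] at hx
      obtain ⟨i, rfl⟩ := Subgroup.mem_zpowers_iff.mp hx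
      have hc : Commute h f := (hcent h hh).symm
      have := (hc.zpow_right i).eq
      rw [this]; group
    intro x
    constructor
    · intro hx; rw [hcomm x hx]; exact hx
    · intro hx
      have hu := hcomm _ hx
      have e3 : h * x * h⁻¹ = h⁻¹ * (h * (h * x * h⁻¹) * h⁻¹) * h := by group
      rw [hu] at e3
      have e4 : h⁻¹ * (h * x * h⁻¹) * h = x := by group
      rw [e4] at e3
      rw [e3] at hx
      exact hx
  have hPN : Subgroup.zpowers f ≤ Subgroup.normalizer ((Q : Subgroup G) : Set G) := by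
    rw [hPQeq]; exact Subgroup.le_normalizer
  have h32d : 32 ∣ Nat.card (Subgroup.normalizer ((Q : Subgroup G) : Set G)) := by
    rw [← hH32]; exact Subgroup.card_dvd_of_le hHN
  have h5d : 5 ∣ Nat.card (Subgroup.normalizer ((Q : Subgroup G) : Set G)) := by
    have := Subgroup.card_dvd_of_le hPN
    rw [hcardP] at this
    exact this
  have h160 : 32 * 5 ∣ Nat.card (Subgroup.normalizer ((Q : Subgroup G) : Set G)) :=
    Nat.Coprime.mul_dvd_of_dvd_of_dvd (by norm_num) h32d h5d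
  have hci := Subgroup.card_mul_index (Subgroup.normalizer ((Q : Subgroup G) : Set G))
  rw [hG] at hci
  obtain ⟨c, hc⟩ := h160
  rw [hc] at hci
  have hci2 : c * (Subgroup.normalizer ((Q : Subgroup G) : Set G)).index = 2 := by
    have : 160 * (c * (Subgroup.normalizer ((Q : Subgroup G) : Set G)).index) = 160 * 2 := by
      rw [← mul_assoc]; norm_num at hci ⊢; exact hci
    exact Nat.eq_of_mul_eq_mul_left (by norm_num) this
  have hidx2 : (Subgroup.normalizer ((Q : Subgroup G) : Set G)).index ∣ 2 := Dvd.intro_left c hci2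
  have hidx1 : (Subgroup.normalizer ((Q : Subgroup G) : Set G)).index = 1 := by
    rcases (Nat.dvd_prime Nat.prime_two).mp hidx2 with h1 | h1
    · exact h1
    · exfalso
      rw [hidx, h1] at hmod
      exact absurd hmod (by decide)
  have hQn : (Q : Subgroup G).Normal :=
    Subgroup.normalizer_eq_top_iff.mp (Subgroup.index_eq_one.mp hidx1)
  have hnil : Group.IsNilpotent (Q : Subgroup G) := IsPGroup.isNilpotent Q.isPGroup'
  have hQF : (Q : Subgroup G) ≤ Cfsg.fittingSubgroup G := le_sSup ⟨hQn, hnil⟩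
  have hfH : f ∈ H := by rw [hHF]; exact hQF (hPQ (Subgroup.mem_zpowers f))
  have h32 : f ^ 32 = 1 := by
    have := pow_card_eq_one' (G := H) (x := ⟨f, hfH⟩)
    rw [hH32] at this
    simpa using congrArg Subtype.val this
  apply hf1
  calc f = (f ^ 5) ^ 13 * ((f ^ 32) ^ 2)⁻¹ := by group
    _ = 1 := by rw [hf5, h32]; simp

theorem stepB [Finite G] (hG : Nat.card G = 320) {H : Subgroup G} {z : G} (A : Amb32 H z)
    (hH32 : Nat.card H = 32) (hHF : H = Cfsg.fittingSubgroup G) (f : G) (hf5 : f ^ 5 = 1)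
    (hf1 : f ≠ 1) {y : G} (hy : y ∈ Kof A f) : y ∈ Zs z A.hzz := by
  haveI : Fact (Nat.Prime 5) := ⟨by norm_num⟩
  have hc := hy.2
  have hcc : (y⁻¹ * (f * y * f⁻¹)) * (y⁻¹ * (f * y * f⁻¹)) = 1 := by
    rcases hc with h | h
    · rw [h, mul_one]
    · rw [h, A.hzz]
  have hconj : f * (y⁻¹ * (f * y * f⁻¹)) * f⁻¹ = y⁻¹ * (f * y * f⁻¹) := A.zs_conj hc f
  have h2 : (f * f) * y * (f * f)⁻¹ = y := by
    have e : (f * f) * y * (f * f)⁻¹ =
        y * ((y⁻¹ * (f * y * f⁻¹)) * (f * (y⁻¹ * (f * y * f⁻¹)) * f⁻¹)) := by group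
    rw [e, hconj, hcc, mul_one]
  have hfy : f * y = y * f := by
    have h6 : f * f * (f * f) * (f * f) = f := by
      have e : f * f * (f * f) * (f * f) = f ^ 5 * f := by
        simp only [pow_succ, pow_zero, one_mul, mul_assoc]
      rw [e, hf5, one_mul]
    have h3 : (f * f * (f * f) * (f * f)) * y * (f * f * (f * f) * (f * f))⁻¹ = y := by
      have e : (f * f * (f * f) * (f * f)) * y * (f * f * (f * f) * (f * f))⁻¹ =
          (f * f) * ((f * f) * ((f * f) * y * (f * f)⁻¹) * (f * f)⁻¹) * (f * f)⁻¹ := by group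
      rw [e, h2, h2, h2]
    have h7 : f * y * f⁻¹ = y := by
      rw [h6] at h3
      exact h3
    calc f * y = (f * y * f⁻¹) * f := by group
      _ = y * f := by rw [h7]
  have hmod := card_modEq_fixed H f 5 hf5 (fun y hy => A.hn.conj_mem y hy f)
  rw [hH32] at hmod
  have hdvd : Nat.card (H ⊓ Subgroup.centralizer {f} : Subgroup G) ∣ 2 ^ 5 := by
    have := Subgroup.card_dvd_of_le (inf_le_left : H ⊓ Subgroup.centralizer {f} ≤ H)
    rw [hH32] at this
    exact this
  obtain ⟨i, hi_le, hi⟩ := (Nat.dvd_prime_pow Nat.prime_two).mp hdvd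
  have hcard2 : Nat.card (H ⊓ Subgroup.centralizer {f} : Subgroup G) = 2 := by
    by_cases hi5 : i = 5
    · exfalso
      have hEq : H ⊓ Subgroup.centralizer {f} = H :=
        Subgroup.eq_of_le_of_card_ge inf_le_left (by rw [hi, hH32, hi5]; norm_num)
      apply no_cent5 hG H hH32 hHF f hf5 hf1
      intro h hh
      have hh' : h ∈ H ⊓ Subgroup.centralizer {f} := by rw [hEq]; exact hh
      exact Subgroup.mem_centralizer_iff.mp hh'.2 f (Set.mem_singleton f)
    · rw [hi] at hmod ⊢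
      have hi4 : i ≤ 4 := by omega
      interval_cases i
      · exact absurd hmod (by decide)
      · rfl
      · exact absurd hmod (by decide)
      · exact absurd hmod (by decide)
      · exact absurd hmod (by decide)
  have hZle : Zs z A.hzz ≤ H ⊓ Subgroup.centralizer {f} := by
    intro c hc'
    refine ⟨A.zs_le hc', ?_⟩
    show c ∈ Subgroup.centralizer {f}
    rw [Subgroup.mem_centralizer_iff]
    intro g hg
    rw [Set.mem_singleton_iff] at hg
    rw [hg]
    have := A.zs_conj hc' f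
    calc f * c = (f * c * f⁻¹) * f := by group
      _ = c * f := by rw [this]
  have hZeq : Zs z A.hzz = H ⊓ Subgroup.centralizer {f} :=
    Subgroup.eq_of_le_of_card_ge hZle (by rw [hcard2, card_Zs A.hzz A.hz1])
  rw [hZeq]
  refine ⟨hy.1, ?_⟩
  show y ∈ Subgroup.centralizer {f}
  rw [Subgroup.mem_centralizer_iff]
  intro g hg
  rw [Set.mem_singleton_iff] at hg
  rw [hg]
  exact hfy

end

end Cfsg.Agent.Lib.Helper6.Ex32
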