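import Mathlib
import Cfsg.Agent.Lib.Helper1.Basic

set_option autoImplicit false

namespace Cfsg.Agent.Lib.Helper6

open scoped commutatorElement

/-- The centre of a nontrivial `p`-subgroup is nontrivial. -/
theorem inf_centralizer_ne_bot {G : Type*} [Group G] [Finite G] {p : ℕ} [Fact p.Prime]
    (D : Subgroup G) (hD : IsPGroup p D) (hne : D ≠ ⊥) :
    D ⊓ Subgroup.centralizer (D : Set G) ≠ ⊥ := by
  haveI : Nontrivial D := (Subgroup.nontrivial_iff_ne_bot D).mpr hne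
  haveI := hD.center_nontrivial
  obtain ⟨z, hz⟩ := exists_ne (1 : Subgroup.center D)
  intro h
  have h1 : ((z : D) : G) ∈ D ⊓ Subgroup.centralizer (D : Set G) := by
    apply Subgroup.mem_inf.mpr
    refine ⟨(z : D).2, ?_⟩
    rw [Subgroup.mem_centralizer_iff]
    intro y hy
    have := (Subgroup.mem_center_iff.mp z.2) ⟨y, hy⟩
    exact congrArg Subtype.val this
  rw [h, Subgroup.mem_bot] at h1
  apply hz
  apply Subtype.ext
  apply Subtype.ext
  exact h1

/-- Control of fusion: let `P` be a Sylow `p`-subgroup of class at most two, normal in `M`, with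
`M = P C_M(P)`, such that `M` contains the normalizer of every nontrivial normal subgroup of `P`.
Then two elements of `P` conjugate in the whole group are conjugate in `P`. -/
theorem fusion_control_of_class_two {G : Type*} [Group G] [Finite G] {p : ℕ} [Fact p.Prime]
    (P : Sylow p G) (M : Subgroup G)
    (hMN : M ≤ Subgroup.normalizer ((P : Subgroup G) : Set G))
    (h2 : ∀ D : Subgroup G, D ≤ (P : Subgroup G) → D ≠ ⊥ →
      (P : Subgroup G) ≤ Subgroup.normalizer (D : Set G) → Subgroup.normalizer (D : Set G) ≤ M)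
    (h3 : ∀ m ∈ M, ∃ u ∈ (P : Subgroup G), ∃ c ∈ Subgroup.centralizer ((P : Subgroup G) : Set G), m = u * c)
    (h4 : ∀ u ∈ (P : Subgroup G), ∀ v ∈ (P : Subgroup G), ⁅u, v⁆ ∈ Subgroup.centralizer ((P : Subgroup G) : Set G)) :
    ∀ a ∈ (P : Subgroup G), ∀ g : G, g * a * g⁻¹ ∈ (P : Subgroup G) →
      ∃ x ∈ (P : Subgroup G), g * a * g⁻¹ = x * a * x⁻¹ := by
  classical
  by_cases hPbot : (P : Subgroup G) = ⊥
  · intro a ha g hg
    rw [hPbot, Subgroup.mem_bot] at ha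
    subst ha
    exact ⟨1, Subgroup.one_mem _, by group⟩
  obtain ⟨Z, hZdef⟩ : ∃ Z : Subgroup G, Z = (P : Subgroup G) ⊓ Subgroup.centralizer ((P : Subgroup G) : Set G) := ⟨_, rfl⟩
  have hZP : Z ≤ (P : Subgroup G) := by rw [hZdef]; exact inf_le_left
  have hZc : ∀ z ∈ Z, ∀ u ∈ (P : Subgroup G), u * z = z * u := by
    intro z hz u hu
    rw [hZdef] at hz
    exact Subgroup.mem_centralizer_iff.mp (Subgroup.mem_inf.mp hz).2 u hu
  have hZne : Z ≠ ⊥ := by
    rw [hZdef]; exact inf_centralizer_ne_bot _ P.isPGroup' hPbot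
  have hZp : IsPGroup p Z := P.isPGroup'.to_le hZP
  have hpM : ∀ Q : Subgroup G, IsPGroup p Q → Q ≤ M → Q ≤ (P : Subgroup G) := by
    intro Q hQ hQM
    have h := hQ.inf_normalizer_sylow P
    have h1 : Q ≤ Q ⊓ (P : Subgroup G) := by
      rw [← h]; exact le_inf le_rfl (hQM.trans hMN)
    exact h1.trans inf_le_right
  have hNP : Subgroup.normalizer ((P : Subgroup G) : Set G) ≤ M := h2 _ le_rfl hPbot Subgroup.le_normalizer
  have hPZ : (P : Subgroup G) ≤ Subgroup.normalizer (Z : Set G) := by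
    intro u hu
    apply Cfsg.Agent.Lib.Helper1.mem_normalizer_of_finite
    intro z hz
    rw [hZc z hz u hu, mul_inv_cancel_right]
    exact hz
  have hCZ : Subgroup.centralizer (Z : Set G) ≤ M :=
    (Subgroup.centralizer_le_normalizer _).trans (h2 Z hZP hZne hPZ)
  have hcomZ : ∀ u ∈ (P : Subgroup G), ∀ v ∈ (P : Subgroup G), ⁅u, v⁆ ∈ Z := by
    intro u hu v hv
    rw [hZdef]
    apply Subgroup.mem_inf.mpr
    refine ⟨?_, h4 u hu v hv⟩
    rw [commutatorElement_def]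
    exact Subgroup.mul_mem _ (Subgroup.mul_mem _ (Subgroup.mul_mem _ hu hv) (Subgroup.inv_mem _ hu)) (Subgroup.inv_mem _ hv)
  have claim1 : ∀ g : G, (∃ x ∈ Z, x ≠ 1 ∧ g * x * g⁻¹ ∈ (P : Subgroup G)) → g ∈ M := by
    rintro g ⟨x, hxZ, hx1, hy⟩
    have hCx : Subgroup.centralizer ({x} : Set G) ≤ M := by
      have hU : Subgroup.zpowers x ≤ (P : Subgroup G) := Subgroup.zpowers_le.mpr (hZP hxZ)
      have hUne : Subgroup.zpowers x ≠ ⊥ := by
        rw [Ne, Subgroup.zpowers_eq_bot]; exact hx1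
      have hPU : (P : Subgroup G) ≤ Subgroup.normalizer (Subgroup.zpowers x : Set G) := by
        intro u hu
        apply Cfsg.Agent.Lib.Helper1.mem_normalizer_of_finite
        intro n hn
        have hnZ : n ∈ Z := (Subgroup.zpowers_le.mpr hxZ) hn
        rw [hZc n hnZ u hu, mul_inv_cancel_right]
        exact hn
      refine le_trans ?_ (h2 _ hU hUne hPU)
      intro c hc
      apply Cfsg.Agent.Lib.Helper1.mem_normalizer_of_finite
      intro n hn
      obtain ⟨k, rfl⟩ := Subgroup.mem_zpowers_iff.mp hn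
      have hcx : c * x = x * c := Subgroup.mem_centralizer_singleton_iff.mp hc
      have hck : c * x ^ k = x ^ k * c := (Commute.zpow_right (show Commute c x from hcx) k).eq
      rw [hck, mul_inv_cancel_right]
      exact hn
    have h2' : ∀ z ∈ Z, g⁻¹ * z * g ∈ (P : Subgroup G) := by
      have hle : Z.map (MulAut.conj g⁻¹).toMonoidHom ≤ (P : Subgroup G) := by
        apply hpM _ (hZp.map _)
        rintro _ ⟨z, hz, rfl⟩
        apply hCx
        rw [Subgroup.mem_centralizer_singleton_iff]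
        show g⁻¹ * z * g⁻¹⁻¹ * x = x * (g⁻¹ * z * g⁻¹⁻¹)
        have hzy : (g * x * g⁻¹) * z = z * (g * x * g⁻¹) := hZc z hz _ hy
        rw [inv_inv]
        have e1 : g⁻¹ * z * g * x = g⁻¹ * (z * (g * x * g⁻¹)) * g := by group
        have e2 : x * (g⁻¹ * z * g) = g⁻¹ * ((g * x * g⁻¹) * z) * g := by group
        rw [e1, e2, hzy]
      intro z hz
      have := hle ⟨z, hz, rfl⟩
      simpa using this
    have h3' : ∀ z ∈ Z, g * z * g⁻¹ ∈ (P : Subgroup G) := by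
      have hle : Z.map (MulAut.conj g).toMonoidHom ≤ (P : Subgroup G) := by
        apply hpM _ (hZp.map _)
        rintro _ ⟨z, hz, rfl⟩
        apply hCZ
        rw [Subgroup.mem_centralizer_iff]
        intro z' hz'
        show z' * (g * z * g⁻¹) = g * z * g⁻¹ * z'
        have h := hZc z hz _ (h2' z' hz')
        have e1 : z' * (g * z * g⁻¹) = g * ((g⁻¹ * z' * g) * z) * g⁻¹ := by group
        have e2 : g * z * g⁻¹ * z' = g * (z * (g⁻¹ * z' * g)) * g⁻¹ := by group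
        rw [e1, e2, h]
      intro z hz
      exact hle ⟨z, hz, rfl⟩
    obtain ⟨D, hD⟩ : ∃ D : Subgroup G, D = (P : Subgroup G) ⊓ (P : Subgroup G).map (MulAut.conj g).toMonoidHom := ⟨_, rfl⟩
    have hZD : Z ≤ D := by
      rw [hD]
      apply le_inf hZP
      intro z hz
      refine ⟨g⁻¹ * z * g, h2' z hz, ?_⟩
      show g * (g⁻¹ * z * g) * g⁻¹ = z
      group
    have hZ2D : ∀ z ∈ Z, g * z * g⁻¹ ∈ D := by
      intro z hz
      rw [hD]
      exact Subgroup.mem_inf.mpr ⟨h3' z hz, ⟨z, hZP hz, rfl⟩⟩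
    have hDP : D ≤ (P : Subgroup G) := by rw [hD]; exact inf_le_left
    have hDne : D ≠ ⊥ := fun h => hZne (le_bot_iff.mp (h ▸ hZD))
    have hPD : (P : Subgroup G) ≤ Subgroup.normalizer (D : Set G) := by
      intro u hu
      apply Cfsg.Agent.Lib.Helper1.mem_normalizer_of_finite
      intro d hd
      have e : u * d * u⁻¹ = ⁅u, d⁆ * d := by rw [commutatorElement_def]; group
      rw [e]
      exact D.mul_mem (hZD (hcomZ u hu d (hDP hd))) hd
    have hND := h2 D hDP hDne hPD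
    have hPgD : (P : Subgroup G).map (MulAut.conj g).toMonoidHom ≤ Subgroup.normalizer (D : Set G) := by
      rintro _ ⟨u, hu, rfl⟩
      apply Cfsg.Agent.Lib.Helper1.mem_normalizer_of_finite
      intro d hd
      have hd2 : d ∈ (P : Subgroup G).map (MulAut.conj g).toMonoidHom := by
        rw [hD] at hd; exact (Subgroup.mem_inf.mp hd).2
      obtain ⟨d', hd', rfl⟩ := hd2
      show g * u * g⁻¹ * (g * d' * g⁻¹) * (g * u * g⁻¹)⁻¹ ∈ D
      have e : g * u * g⁻¹ * (g * d' * g⁻¹) * (g * u * g⁻¹)⁻¹ = (g * ⁅u, d'⁆ * g⁻¹) * (g * d' * g⁻¹) := by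
        rw [commutatorElement_def]; group
      rw [e]
      exact D.mul_mem (hZ2D _ (hcomZ u hu d' hd')) hd
    have hPgP : (P : Subgroup G).map (MulAut.conj g).toMonoidHom ≤ (P : Subgroup G) :=
      hpM _ (P.isPGroup'.map _) (hPgD.trans hND)
    apply hNP
    apply Cfsg.Agent.Lib.Helper1.mem_normalizer_of_finite
    intro u hu
    exact hPgP ⟨u, hu, rfl⟩
  intro a ha g hy
  obtain ⟨x₀, hx₀Z, hx₀1⟩ : ∃ x ∈ Z, x ≠ 1 := by
    by_contra hcon
    push Not at hcon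
    exact hZne ((Subgroup.eq_bot_iff_forall Z).mpr hcon)
  have hZC : Z ≤ Subgroup.centralizer ({g * a * g⁻¹} : Set G) := by
    intro z hz
    rw [Subgroup.mem_centralizer_singleton_iff]
    exact (hZc z hz _ hy).symm
  have hZ2C : Z.map (MulAut.conj g).toMonoidHom ≤ Subgroup.centralizer ({g * a * g⁻¹} : Set G) := by
    rintro _ ⟨z, hz, rfl⟩
    rw [Subgroup.mem_centralizer_singleton_iff]
    show g * z * g⁻¹ * (g * a * g⁻¹) = g * a * g⁻¹ * (g * z * g⁻¹)
    have h := hZc z hz a ha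
    have e1 : g * z * g⁻¹ * (g * a * g⁻¹) = g * (z * a) * g⁻¹ := by group
    have e2 : g * a * g⁻¹ * (g * z * g⁻¹) = g * (a * z) * g⁻¹ := by group
    rw [e1, e2, h]
  obtain ⟨R₁, hR₁⟩ := (hZp.comap_subtype (K := Subgroup.centralizer ({g * a * g⁻¹} : Set G))).exists_le_sylow
  obtain ⟨R₂, hR₂⟩ := ((hZp.map (MulAut.conj g).toMonoidHom).comap_subtype (K := Subgroup.centralizer ({g * a * g⁻¹} : Set G))).exists_le_sylow
  obtain ⟨c, hc⟩ := MulAction.exists_smul_eq (Subgroup.centralizer ({g * a * g⁻¹} : Set G)) R₂ R₁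
  obtain ⟨S, hS⟩ := (R₁.isPGroup'.map (Subgroup.centralizer ({g * a * g⁻¹} : Set G)).subtype).exists_le_sylow
  obtain ⟨h, hh⟩ := MulAction.exists_smul_eq G P S
  have hZS : Z ≤ (S : Subgroup G) := fun z hz =>
    hS ⟨⟨z, hZC hz⟩, hR₁ (Subgroup.mem_subgroupOf.mpr hz), rfl⟩
  have hhM : h⁻¹ ∈ M := by
    apply claim1 h⁻¹ ⟨x₀, hx₀Z, hx₀1, ?_⟩
    have h1 := hZS hx₀Z
    rw [← hh, Sylow.coe_subgroup_smul, Cfsg.Agent.Lib.Helper1.mem_conj_smul] at h1
    rw [inv_inv]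
    exact h1
  have hSP : S = P := by
    rw [← hh, Sylow.smul_eq_iff_mem_normalizer]
    have := hMN (M.inv_mem hhM)
    rwa [inv_inv] at this
  have hcg : (c : G) * g * x₀ * ((c : G) * g)⁻¹ ∈ (P : Subgroup G) := by
    have h1 : (⟨g * x₀ * g⁻¹, hZ2C ⟨x₀, hx₀Z, rfl⟩⟩ : Subgroup.centralizer ({g * a * g⁻¹} : Set G)) ∈ (R₂ : Subgroup _) :=
      hR₂ (Subgroup.mem_subgroupOf.mpr ⟨x₀, hx₀Z, rfl⟩)
    have h2 : c * ⟨g * x₀ * g⁻¹, hZ2C ⟨x₀, hx₀Z, rfl⟩⟩ * c⁻¹ ∈ (R₁ : Subgroup _) := by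
      rw [← hc, Sylow.coe_subgroup_smul, Cfsg.Agent.Lib.Helper1.mem_conj_smul]
      have e : c⁻¹ * (c * ⟨g * x₀ * g⁻¹, hZ2C ⟨x₀, hx₀Z, rfl⟩⟩ * c⁻¹) * c = ⟨g * x₀ * g⁻¹, hZ2C ⟨x₀, hx₀Z, rfl⟩⟩ := by group
      rw [e]; exact h1
    have h3 := hS ⟨_, h2, rfl⟩
    rw [hSP] at h3
    have e : (c : G) * g * x₀ * ((c : G) * g)⁻¹ = (c : G) * (g * x₀ * g⁻¹) * (c : G)⁻¹ := by group
    rw [e]
    exact h3
  have hcgM := claim1 ((c : G) * g) ⟨x₀, hx₀Z, hx₀1, hcg⟩
  obtain ⟨u, hu, c', hc', hm⟩ := h3 _ hcgM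
  refine ⟨u, hu, ?_⟩
  have hcy : (c : G) * (g * a * g⁻¹) * (c : G)⁻¹ = g * a * g⁻¹ := by
    have := Subgroup.mem_centralizer_singleton_iff.mp c.2
    rw [this, mul_inv_cancel_right]
  have hc'a : c' * a * c'⁻¹ = a := by
    have := Subgroup.mem_centralizer_iff.mp hc' a ha
    rw [← this, mul_inv_cancel_right]
  calc g * a * g⁻¹ = (c : G) * (g * a * g⁻¹) * (c : G)⁻¹ := hcy.symm
    _ = ((c : G) * g) * a * ((c : G) * g)⁻¹ := by group
    _ = (u * c') * a * (u * c')⁻¹ := by rw [hm]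
    _ = u * (c' * a * c'⁻¹) * u⁻¹ := by group
    _ = u * a * u⁻¹ := by rw [hc'a]

end Cfsg.Agent.Lib.Helper6
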