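import Mathlib
import Cfsg.Agent.Lib.Helper6.Basic
import Cfsg.Agent.Lib.Helper7.ElemAbCount

set_option autoImplicit false

universe u

namespace Cfsg.Agent.Lib.Helper6

/-- In a finite `p`-group all of whose proper subgroups are abelian, a non-trivial commutator
`c = [x, y]` is central of order `p` and generates the derived subgroup. -/
theorem minNonAb_commutator {T : Type*} [Group T] [Finite T] {p : ℕ} [Fact p.Prime]
    (hT : IsPGroup p T) (hprop : ∀ Q : Subgroup T, Q ≠ ⊤ → IsMulCommutative Q)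
    (x y : T) (hxy : x * y ≠ y * x) :
    Subgroup.closure ({x, y} : Set T) = ⊤ ∧
    (∀ g : T, g * (x * y * x⁻¹ * y⁻¹) = (x * y * x⁻¹ * y⁻¹) * g) ∧
    (x * y * x⁻¹ * y⁻¹) ^ p = 1 ∧
    commutator T ≤ Subgroup.zpowers (x * y * x⁻¹ * y⁻¹) := by
  have hcl : Subgroup.closure ({x, y} : Set T) = ⊤ := by
    by_contra hne
    have := hprop _ hne
    have hx : x ∈ Subgroup.closure ({x, y} : Set T) := Subgroup.subset_closure (by simp)
    have hy : y ∈ Subgroup.closure ({x, y} : Set T) := Subgroup.subset_closure (by simp)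
    have h1 := IsMulCommutative.is_comm.comm (⟨x, hx⟩ : ↥(Subgroup.closure ({x, y} : Set T))) ⟨y, hy⟩
    exact hxy (congrArg Subtype.val h1)
  -- maximal subgroups
  have hzx : Subgroup.zpowers x ≠ ⊤ := by
    intro h
    have hy : y ∈ Subgroup.zpowers x := by rw [h]; trivial
    obtain ⟨j, rfl⟩ := Subgroup.mem_zpowers_iff.1 hy
    apply hxy
    exact ((Commute.refl x).zpow_right j).eq
  have hzy : Subgroup.zpowers y ≠ ⊤ := by
    intro h
    have hx : x ∈ Subgroup.zpowers y := by rw [h]; trivial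
    obtain ⟨j, rfl⟩ := Subgroup.mem_zpowers_iff.1 hx
    apply hxy
    exact ((Commute.refl y).zpow_left j).eq
  obtain ⟨M, hM, hxM⟩ := exists_coatom_ge _ hzx
  obtain ⟨M', hM', hyM'⟩ := exists_coatom_ge _ hzy
  have hx : x ∈ M := hxM (Subgroup.mem_zpowers x)
  have hy : y ∈ M' := hyM' (Subgroup.mem_zpowers y)
  obtain ⟨hMn, -⟩ := Cfsg.Agent.Lib.Helper7.index_coatom_of_pGroup hT M hM
  obtain ⟨hM'n, hM'idx⟩ := Cfsg.Agent.Lib.Helper7.index_coatom_of_pGroup hT M' hM'
  have hMc := hprop M hM.1
  have hM'c := hprop M' hM'.1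
  obtain ⟨c, hc⟩ : ∃ c : T, c = x * y * x⁻¹ * y⁻¹ := ⟨_, rfl⟩
  rw [← hc]
  have hcM : c ∈ M := by
    have h1 : y * x⁻¹ * y⁻¹ ∈ M := hMn.conj_mem _ (M.inv_mem hx) y
    have e : c = x * (y * x⁻¹ * y⁻¹) := by rw [hc]; group
    rw [e]; exact M.mul_mem hx h1
  have hcM' : c ∈ M' := by
    have h1 : x * y * x⁻¹ ∈ M' := hM'n.conj_mem _ hy x
    rw [hc]; exact M'.mul_mem h1 (M'.inv_mem hy)
  have hcx : c * x = x * c := by
    have := IsMulCommutative.is_comm.comm (⟨c, hcM⟩ : ↥M) ⟨x, hx⟩
    exact congrArg Subtype.val this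
  have hcy : c * y = y * c := by
    have := IsMulCommutative.is_comm.comm (⟨c, hcM'⟩ : ↥M') ⟨y, hy⟩
    exact congrArg Subtype.val this
  have hcen : ∀ g : T, g * c = c * g := by
    have hle : Subgroup.closure ({x, y} : Set T) ≤ Subgroup.centralizer ({c} : Set T) := by
      rw [Subgroup.closure_le]
      intro g hg
      rcases hg with rfl | rfl
      · exact Subgroup.mem_centralizer_singleton_iff.2 hcx.symm
      · exact Subgroup.mem_centralizer_singleton_iff.2 hcy.symm
    rw [hcl] at hle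
    intro g
    exact Subgroup.mem_centralizer_singleton_iff.1 (hle (Subgroup.mem_top g))
  -- x^p ∈ M'
  have hxp : x ^ p ∈ M' := by
    have := Subgroup.pow_index_mem M' x
    rwa [hM'idx] at this
  have hxpy : x ^ p * y = y * x ^ p := by
    have := IsMulCommutative.is_comm.comm (⟨x ^ p, hxp⟩ : ↥M') ⟨y, hy⟩
    exact congrArg Subtype.val this
  have hconj : ∀ k : ℕ, x ^ k * y * (x ^ k)⁻¹ = c ^ k * y := by
    intro k
    induction k with
    | zero => simp
    | succ k ih =>
      have e1 : x ^ (k + 1) * y * (x ^ (k + 1))⁻¹ = x * (x ^ k * y * (x ^ k)⁻¹) * x⁻¹ := by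
        rw [pow_succ']; group
      have e2 : x * y * x⁻¹ = c * y := by rw [hc]; group
      have hck : x * c ^ k = c ^ k * x :=
        (Commute.pow_right (show Commute x c from (hcen x)) k).eq
      rw [e1, ih, ← mul_assoc, hck, mul_assoc, mul_assoc, ← mul_assoc x y, e2, pow_succ]
      group
  have hcp : c ^ p = 1 := by
    have h1 := hconj p
    have h2 : x ^ p * y * (x ^ p)⁻¹ = y := by rw [hxpy]; group
    rw [h2] at h1
    have h3 : c ^ p * y = 1 * y := by rw [one_mul]; exact h1.symm
    exact mul_right_cancel h3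
  refine ⟨hcl, hcen, hcp, ?_⟩
  -- the quotient by ⟨c⟩ is abelian
  have hZn : (Subgroup.zpowers c).Normal := by
    constructor
    intro n hn g
    obtain ⟨j, rfl⟩ := Subgroup.mem_zpowers_iff.1 hn
    have h1 : g * c ^ j = c ^ j * g := ((show Commute g c from hcen g).zpow_right j).eq
    rw [h1, mul_inv_cancel_right]
    exact Subgroup.zpow_mem_zpowers c j
  rw [commutator_def, Subgroup.commutator_le]
  intro a _ b _
  -- work in the quotient
  have hq : ∀ a b : T ⧸ Subgroup.zpowers c, a * b = b * a := by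
    have hxyq : (QuotientGroup.mk' (Subgroup.zpowers c) x) * (QuotientGroup.mk' (Subgroup.zpowers c) y) =
        (QuotientGroup.mk' (Subgroup.zpowers c) y) * (QuotientGroup.mk' (Subgroup.zpowers c) x) := by
      rw [← map_mul, ← map_mul]
      rw [QuotientGroup.mk'_apply, QuotientGroup.mk'_apply, QuotientGroup.eq]
      have e : (x * y)⁻¹ * (y * x) = (y * x)⁻¹ * (x * y * x⁻¹ * y⁻¹)⁻¹ * (y * x) := by group
      rw [e, ← hc]
      have h0 : (y * x) * c⁻¹ = c⁻¹ * (y * x) :=
        (Commute.inv_right (show Commute (y * x) c from hcen _)).eq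
      have h1 : (y * x)⁻¹ * c⁻¹ * (y * x) = c⁻¹ := by
        rw [mul_assoc, ← h0, inv_mul_cancel_left]
      rw [h1]
      exact Subgroup.inv_mem _ (Subgroup.mem_zpowers c)
    have hclq : Subgroup.closure ({QuotientGroup.mk' (Subgroup.zpowers c) x,
        QuotientGroup.mk' (Subgroup.zpowers c) y} : Set (T ⧸ Subgroup.zpowers c)) = ⊤ := by
      have := congrArg (Subgroup.map (QuotientGroup.mk' (Subgroup.zpowers c))) hcl
      rw [MonoidHom.map_closure, Set.image_pair,
        Subgroup.map_top_of_surjective _ (QuotientGroup.mk'_surjective _)] at this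
      exact this
    have hcomm := Subgroup.isMulCommutative_closure
      (k := ({QuotientGroup.mk' (Subgroup.zpowers c) x,
        QuotientGroup.mk' (Subgroup.zpowers c) y} : Set (T ⧸ Subgroup.zpowers c))) (by
        intro u hu v hv
        rcases hu with rfl | rfl <;> rcases hv with rfl | rfl
        · rfl
        · exact hxyq
        · exact hxyq.symm
        · rfl)
    intro u v
    have hu : u ∈ Subgroup.closure ({QuotientGroup.mk' (Subgroup.zpowers c) x,
        QuotientGroup.mk' (Subgroup.zpowers c) y} : Set (T ⧸ Subgroup.zpowers c)) := by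
      rw [hclq]; trivial
    have hv : v ∈ Subgroup.closure ({QuotientGroup.mk' (Subgroup.zpowers c) x,
        QuotientGroup.mk' (Subgroup.zpowers c) y} : Set (T ⧸ Subgroup.zpowers c)) := by
      rw [hclq]; trivial
    have := hcomm.is_comm.comm (⟨u, hu⟩ : ↥(Subgroup.closure _)) ⟨v, hv⟩
    exact congrArg Subtype.val this
  rw [← QuotientGroup.eq_one_iff, commutatorElement_def]
  have := hq (a : T ⧸ Subgroup.zpowers c) (b : T ⧸ Subgroup.zpowers c)
  rw [QuotientGroup.mk_mul, QuotientGroup.mk_mul, QuotientGroup.mk_mul, QuotientGroup.mk_inv,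
    QuotientGroup.mk_inv, this]
  group

end Cfsg.Agent.Lib.Helper6
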