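import Mathlib
import Cfsg.Prelude.Def_Transfer
import Cfsg.Prelude.Def_PLocal
import Cfsg.Agent.Lib.Helper1.Basic
import Cfsg.Agent.Lib.Helper3.ZJ
import Cfsg.Agent.Lib.Helper6.PiElts
import Cfsg.Agent.Lib.Helper6.Conj

set_option autoImplicit false

namespace Cfsg.Agent.Lib.Helper6

/-- If every `p`-element commutes with every element of prime power order for the other primes,
any Sylow `p`-subgroup is normal with a normal complement. -/
theorem exists_normal_complement_of_comm {G : Type*} [Group G] [Finite G] (p : ℕ) [Fact p.Prime]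
    (hcomm : ∀ x y : G, (∃ a : ℕ, orderOf x = p ^ a) → (∃ q b : ℕ, q.Prime ∧ q ≠ p ∧ orderOf y = q ^ b) → x * y = y * x)
    (P : Sylow p G) :
    (P : Subgroup G).Normal ∧ ∃ K : Subgroup G, K.Normal ∧ (P : Subgroup G).IsComplement' K := by
  classical
  set C := Subgroup.centralizer ((P : Subgroup G) : Set G) with hC
  have hqC : ∀ (y : G) (q v : ℕ), q.Prime → q ∈ {q : ℕ | q ≠ p} → orderOf y = q ^ v → y ∈ C := by
    intro y q v hq hqp hy
    rw [hC, Subgroup.mem_centralizer_iff]
    intro x hx
    have hx' : ∃ a : ℕ, orderOf x = p ^ a := by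
      obtain ⟨k, hk⟩ := (IsPGroup.iff_orderOf.mp P.isPGroup') ⟨x, hx⟩
      exact ⟨k, by rw [← hk]; exact (Subgroup.orderOf_mk x hx).symm⟩
    exact hcomm x y hx' ⟨q, v, hq, hqp, hy⟩
  have hpC : ∀ k : G, (orderOf k).Coprime p → k ∈ C := by
    intro k hk
    apply Cfsg.Agent.Lib.Helper6.mem_of_piElt {q : ℕ | q ≠ p} C hqC (orderOf k) k rfl
    intro q hq hqd
    show q ≠ p
    rintro rfl
    have := Nat.Coprime.eq_one_of_dvd hk.symm hqd
    exact hq.one_lt.ne' this
  have hPC : (P : Subgroup G) ⊔ C = ⊤ := by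
    rw [← Subgroup.index_eq_one]
    rw [Nat.eq_one_iff_not_exists_prime_dvd]
    intro q hq hqd
    haveI : Fact q.Prime := ⟨hq⟩
    by_cases hqp : q = p
    · subst hqp
      exact P.not_dvd_index (dvd_trans hqd (Subgroup.index_dvd_of_le le_sup_left))
    · obtain ⟨Q⟩ : Nonempty (Sylow q G) := inferInstance
      have hQC : (Q : Subgroup G) ≤ C := by
        intro y hy
        obtain ⟨k, hk⟩ := (IsPGroup.iff_orderOf.mp Q.isPGroup') ⟨y, hy⟩
        exact hqC y q k hq hqp (by rw [← hk]; exact (Subgroup.orderOf_mk y hy).symm)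
      exact Q.not_dvd_index (dvd_trans hqd (Subgroup.index_dvd_of_le (hQC.trans le_sup_right)))
  have hPn : (P : Subgroup G).Normal := by
    rw [← Subgroup.normalizer_eq_top_iff, eq_top_iff, ← hPC]
    apply sup_le Subgroup.le_normalizer
    exact Cfsg.Agent.Lib.Helper6.centralizer_le_normalizer' _
  haveI := hPn
  have hcop : Nat.Coprime (Nat.card (P : Subgroup G)) (P : Subgroup G).index := by
    obtain ⟨n, hn⟩ := (IsPGroup.iff_card.mp P.isPGroup')
    rw [hn]
    apply Nat.Coprime.pow_left
    exact (Nat.Prime.coprime_iff_not_dvd (Fact.out)).mpr P.not_dvd_index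
  obtain ⟨K, hK⟩ := Subgroup.exists_right_complement'_of_coprime hcop
  have hKC : K ≤ C := by
    intro k hk
    apply hpC
    have h1 : orderOf k ∣ Nat.card K := by
      have := orderOf_dvd_natCard (⟨k, hk⟩ : K)
      rwa [Subgroup.orderOf_mk] at this
    have h2 : Nat.card K = (P : Subgroup G).index := hK.symm.index_eq_card.symm
    rw [h2] at h1
    have h3 : Nat.Coprime (P : Subgroup G).index p := by
      rw [Nat.coprime_comm]
      exact (Nat.Prime.coprime_iff_not_dvd (Fact.out)).mpr P.not_dvd_index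
    exact Nat.Coprime.coprime_dvd_left h1 h3
  have hKn : K.Normal := by
    rw [← Subgroup.normalizer_eq_top_iff, eq_top_iff, ← hK.sup_eq_top]
    apply sup_le _ Subgroup.le_normalizer
    intro x hx
    apply Cfsg.Agent.Lib.Helper1.mem_normalizer_of_finite
    intro k hk
    have := hKC hk
    rw [hC, Subgroup.mem_centralizer_iff] at this
    rw [this x hx, mul_assoc, mul_inv_cancel, mul_one]
    exact hk
  exact ⟨hPn, K, hKn, hK⟩

/-- A normal Sylow subgroup contains every element of `p`-power order. -/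
theorem mem_normal_sylow {G : Type*} [Group G] [Finite G] {p : ℕ} [Fact p.Prime] (P : Sylow p G)
    (hP : (P : Subgroup G).Normal) (x : G) (a : ℕ) (hx : orderOf x = p ^ a) : x ∈ (P : Subgroup G) := by
  have h1 : IsPGroup p (Subgroup.zpowers x) := by
    apply IsPGroup.of_card (n := a)
    rw [Nat.card_zpowers, hx]
  obtain ⟨Q, hQ⟩ := h1.exists_le_sylow
  obtain ⟨g, hg⟩ := MulAction.exists_smul_eq G P Q
  haveI := hP
  have : Q = P := by rw [← hg]; exact Sylow.smul_eq_of_normal
  rw [← this]
  exact hQ (Subgroup.mem_zpowers x)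

/-- A finite nilpotent group has a normal `p`-complement. -/
theorem npc_of_nilpotent {G : Type*} [Group G] [Finite G] [Group.IsNilpotent G] (p : ℕ) [Fact p.Prime] :
    Cfsg.HasNormalPComplement p G := by
  classical
  have hnc := Group.normalizerCondition_of_isNilpotent (G := G)
  obtain ⟨P⟩ : Nonempty (Sylow p G) := inferInstance
  have hcomm : ∀ x y : G, (∃ a : ℕ, orderOf x = p ^ a) → (∃ q b : ℕ, q.Prime ∧ q ≠ p ∧ orderOf y = q ^ b) → x * y = y * x := by
    rintro x y ⟨a, ha⟩ ⟨q, b, hq, hqp, hb⟩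
    haveI : Fact q.Prime := ⟨hq⟩
    obtain ⟨Q⟩ : Nonempty (Sylow q G) := inferInstance
    have hPn : (P : Subgroup G).Normal := Sylow.normal_of_normalizerCondition hnc P
    have hQn : (Q : Subgroup G).Normal := Sylow.normal_of_normalizerCondition hnc Q
    have hx := mem_normal_sylow P hPn x a ha
    have hy := mem_normal_sylow Q hQn y b hb
    have hdis : Disjoint (P : Subgroup G) (Q : Subgroup G) :=
      IsPGroup.disjoint_of_ne p q (Ne.symm hqp) _ _ P.isPGroup' Q.isPGroup'
    exact (Subgroup.commute_of_normal_of_disjoint _ _ hPn hQn hdis x y hx hy).eq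
  obtain ⟨_, K, hKn, hK⟩ := exists_normal_complement_of_comm p hcomm P
  exact ⟨P, K, hKn, hK.symm⟩

/-- The image of a maximal subgroup containing `N` is maximal in the quotient by `N`. -/
theorem isCoatom_map_mk {G : Type*} [Group G] (N : Subgroup G) [N.Normal] (M : Subgroup G)
    (hNM : N ≤ M) (hM : IsCoatom M) : IsCoatom (M.map (QuotientGroup.mk' N)) := by
  have hcm : (M.map (QuotientGroup.mk' N)).comap (QuotientGroup.mk' N) = M := by
    rw [Subgroup.comap_map_eq, QuotientGroup.ker_mk', sup_eq_left.mpr hNM]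
  constructor
  · intro h
    rw [h, Subgroup.comap_top] at hcm
    exact hM.1 hcm.symm
  · intro H hH
    have h1 : M ≤ H.comap (QuotientGroup.mk' N) := by
      rw [← hcm]; exact Subgroup.comap_mono hH.le
    rcases hM.le_iff.mp h1 with h2 | h2
    · rw [← Subgroup.map_comap_eq_self_of_surjective (QuotientGroup.mk'_surjective N) H, h2,
        ← MonoidHom.range_eq_map, MonoidHom.range_eq_top.mpr (QuotientGroup.mk'_surjective N)]
    · exfalso
      have : H = M.map (QuotientGroup.mk' N) := by
        rw [← Subgroup.map_comap_eq_self_of_surjective (QuotientGroup.mk'_surjective N) H, h2]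
      exact hH.ne this.symm

/-- `Z(J(D))` lies in `D`. -/
theorem centerThompsonAOf_le {G : Type*} [Group G] (D : Subgroup G) :
    Cfsg.centerThompsonAOf D ≤ D := by
  rw [← Cfsg.Agent.Lib.Helper3.zjE_zero_eq]
  exact (Cfsg.Agent.Lib.Helper3.zjE_le_jE 0 D).trans (Cfsg.Agent.Lib.Helper3.jE_le 0 D)

/-- The normalizer of `D` normalizes `Z(J(D))`. -/
theorem normalizer_le_normalizer_centerThompsonAOf {G : Type*} [Group G] [Finite G] (D : Subgroup G) :
    Subgroup.normalizer (D : Set G) ≤ Subgroup.normalizer (Cfsg.centerThompsonAOf D : Set G) := by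
  intro g hg
  apply Cfsg.Agent.Lib.Helper1.mem_normalizer_of_finite
  intro x hx
  rw [← Cfsg.Agent.Lib.Helper3.zjE_zero_eq] at hx ⊢
  apply Cfsg.Agent.Lib.Helper3.zjE_conj_mem 0 D g _ hx
  apply Cfsg.Agent.Lib.Helper3.map_conj_eq_of_forall
  intro y hy
  exact (Subgroup.mem_normalizer_iff.mp hg y).mp hy

/-- The centre of `D` lies in `Z(J(D))`. -/
theorem center_le_centerThompsonAOf {G : Type*} [Group G] [Finite G] (D : Subgroup G) :
    D ⊓ Subgroup.centralizer (D : Set G) ≤ Cfsg.centerThompsonAOf D := by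
  rw [← Cfsg.Agent.Lib.Helper3.zjE_zero_eq]
  apply Cfsg.Agent.Lib.Helper3.le_zjE (Cfsg.Agent.Lib.Helper3.famE_nonempty 0 D)
  intro A hA
  apply Cfsg.Agent.Lib.Helper3.le_of_mem_famE hA inf_le_left
  · constructor
    · intro x hx y hy
      have h1 := (Subgroup.mem_inf.mp hx).2
      rw [Subgroup.mem_centralizer_iff] at h1
      exact (h1 y (Subgroup.mem_inf.mp hy).1).symm
    · intro a _
      exact pow_zero a
  · intro y hy a ha
    have h1 := (Subgroup.mem_inf.mp hy).2
    rw [Subgroup.mem_centralizer_iff] at h1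
    exact (h1 a (hA.1 ha)).symm

/-- `Z(J(D))` is nontrivial for a nontrivial `p`-group `D`. -/
theorem centerThompsonAOf_ne_bot {G : Type*} [Group G] [Finite G] {p : ℕ} [Fact p.Prime]
    (D : Subgroup G) (hD : IsPGroup p D) (hne : D ≠ ⊥) : Cfsg.centerThompsonAOf D ≠ ⊥ := by
  haveI : Nontrivial D := (Subgroup.nontrivial_iff_ne_bot D).mpr hne
  haveI := hD.center_nontrivial
  obtain ⟨z, hz⟩ := exists_ne (1 : Subgroup.center D)
  intro h
  have h1 : ((z : D) : G) ∈ D ⊓ Subgroup.centralizer (D : Set G) := by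
    apply Subgroup.mem_inf.mpr
    refine ⟨(z : D).2, ?_⟩
    rw [Subgroup.mem_centralizer_iff]
    intro y hy
    have := (Subgroup.mem_center_iff.mp z.2) ⟨y, hy⟩
    exact congrArg Subtype.val this
  have h2 := center_le_centerThompsonAOf D h1
  rw [h, Subgroup.mem_bot] at h2
  apply hz
  apply Subtype.ext
  apply Subtype.ext
  exact h2

end Cfsg.Agent.Lib.Helper6
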