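import Mathlib

set_option autoImplicit false

namespace Cfsg.Agent.Lib.Helper6

open MulAction

/-- The orbit of a point under a subgroup `H` has `|H : H ∩ G_v|` elements. -/
theorem card_orbit_subgroup_eq_relIndex {G α : Type*} [Group G] [MulAction G α] (H : Subgroup G)
    (v : α) : Nat.card (orbit H v) = (stabilizer G v).relIndex H := by
  have h2 : stabilizer H v = (stabilizer G v).subgroupOf H := by
    ext x
    rw [Subgroup.mem_subgroupOf, mem_stabilizer_iff, mem_stabilizer_iff]
    rfl
  rw [Nat.card_coe_set_eq, ← index_stabilizer, h2]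
  rfl

/-- If a group fixes `x₀` and all other orbits have size divisible by `m`, then `m ∣ |X| - 1`. -/
theorem dvd_card_sub_one_of_orbits {H X : Type*} [Group H] [MulAction H X] [Finite X] (m : ℕ)
    (x₀ : X) (hfix : ∀ h : H, h • x₀ = x₀)
    (hdvd : ∀ x : X, x ≠ x₀ → m ∣ Nat.card (orbit H x)) : m ∣ Nat.card X - 1 := by
  classical
  have : Fintype (orbitRel.Quotient H X) := Fintype.ofFinite _
  have e := selfEquivSigmaOrbits' H X
  have hcard : Nat.card X = ∑ o : orbitRel.Quotient H X, Nat.card o.orbit := by
    rw [Nat.card_congr e, Nat.card_sigma]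
  have h0 : Nat.card (orbitRel.Quotient.orbit (Quotient.mk'' x₀ : orbitRel.Quotient H X)) = 1 := by
    rw [orbitRel.Quotient.orbit_mk]
    have h1 : orbit H x₀ = {x₀} := by
      ext y
      constructor
      · rintro ⟨h, rfl⟩
        exact hfix h
      · rintro rfl
        exact mem_orbit_self _
    rw [h1]
    simp
  rw [hcard, ← Finset.add_sum_erase Finset.univ _
    (Finset.mem_univ (Quotient.mk'' x₀ : orbitRel.Quotient H X)), h0, Nat.add_sub_cancel_left]
  apply Finset.dvd_sum
  intro o ho
  rw [Finset.mem_erase] at ho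
  induction o using Quotient.inductionOn' with
  | h x =>
    rw [orbitRel.Quotient.orbit_mk]
    apply hdvd
    rintro rfl
    exact ho.1 rfl

end Cfsg.Agent.Lib.Helper6
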