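import Mathlib
import Cfsg.Agent.Lib.Helper6.AbConj
import Cfsg.Agent.Lib.Helper6.OddOnTwo
import Cfsg.Agent.Lib.Lead.Hall

set_option autoImplicit false

namespace Cfsg.Agent.Lib.Helper6

/-- In a finite group where `p`-subgroups of equal order are conjugate, a Sylow `p`-subgroup
has exponent `p`, or is cyclic, or is generalized quaternion. -/
theorem sylow_of_pconj {G : Type*} [Group G] [Finite G] (p : ℕ) [Fact p.Prime]
    (hB : ∀ A B : Subgroup G, IsPGroup p ↥A → IsPGroup p ↥B →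
      Nat.card ↥A = Nat.card ↥B → ∃ g : G, B = A.map (MulAut.conj g).toMonoidHom)
    (P : Sylow p G) :
    (∀ x ∈ (P : Subgroup G), x ^ p = 1) ∨ IsCyclic ↥(P : Subgroup G) ∨
      (p = 2 ∧ ∃ n : ℕ, Nonempty (↥(P : Subgroup G) ≃* QuaternionGroup (2 ^ n))) := by
  classical
  have hp : p.Prime := Fact.out
  by_cases hexp : ∀ x ∈ (P : Subgroup G), x ^ p = 1
  · left; exact hexp
  right
  push Not at hexp
  obtain ⟨x, hxP, hxp⟩ := hexp
  -- an element of order p^2
  have hpow : ∀ u : ↥(P : Subgroup G), ∃ j : ℕ, orderOf u = p ^ j := by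
    intro u
    obtain ⟨k, hk⟩ := P.2 u
    have h1 : orderOf u ∣ p ^ k := orderOf_dvd_of_pow_eq_one hk
    obtain ⟨j, -, hj⟩ := (Nat.dvd_prime_pow hp).mp h1
    exact ⟨j, hj⟩
  obtain ⟨j, hj⟩ := hpow ⟨x, hxP⟩
  have hj' : orderOf x = p ^ j := by
    rw [← hj]
    exact Subgroup.orderOf_coe (⟨x, hxP⟩ : ↥(P : Subgroup G))
  have hj2 : 2 ≤ j := by
    by_contra hlt
    apply hxp
    have h1 : orderOf x ∣ p := by
      rw [hj']
      have : j ≤ 1 := by omega
      calc p ^ j ∣ p ^ 1 := pow_dvd_pow p this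
        _ = p := pow_one p
    exact orderOf_dvd_iff_pow_eq_one.mp h1
  set y := x ^ p ^ (j - 2) with hy
  have hyord : orderOf y = p ^ 2 := by
    rw [hy, orderOf_pow_of_dvd (pow_pos hp.pos _).ne' (by rw [hj']; exact pow_dvd_pow p (by omega)),
      hj', Nat.pow_div (by omega) hp.pos]
    congr 1
    omega
  have hyP : y ∈ (P : Subgroup G) := Subgroup.pow_mem _ hxP _
  have hy1 : y ≠ 1 := by
    intro h
    rw [h, orderOf_one] at hyord
    have := Nat.one_lt_pow (n := 2) (by norm_num) hp.one_lt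
    omega
  -- a central element of order p
  haveI : Nontrivial ↥(P : Subgroup G) :=
    ⟨⟨⟨y, hyP⟩, 1, fun h => hy1 (congrArg Subtype.val h)⟩⟩
  haveI := P.2.center_nontrivial
  obtain ⟨z, hz⟩ := exists_ne (1 : Subgroup.center ↥(P : Subgroup G))
  obtain ⟨i, hi⟩ := hpow (z : ↥(P : Subgroup G))
  have hi1 : 1 ≤ i := by
    by_contra hlt
    have : i = 0 := by omega
    rw [this, pow_zero, orderOf_eq_one_iff] at hi
    exact hz (Subtype.ext hi)
  set z₀ : ↥(P : Subgroup G) := (z : ↥(P : Subgroup G)) ^ p ^ (i - 1) with hz₀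
  have hz₀ord : orderOf z₀ = p := by
    rw [hz₀, orderOf_pow_of_dvd (pow_pos hp.pos _).ne' (by rw [hi]; exact pow_dvd_pow p (by omega)),
      hi, Nat.pow_div (by omega) hp.pos]
    have : i - (i - 1) = 1 := by omega
    rw [this, pow_one]
  have hz₀c : ∀ u : ↥(P : Subgroup G), u * z₀ = z₀ * u := by
    intro u
    have h1 : z₀ ∈ Subgroup.center ↥(P : Subgroup G) := Subgroup.pow_mem _ z.2 _
    exact (Subgroup.mem_center_iff.mp h1 u)
  have hone : ∀ H : Subgroup ↥(P : Subgroup G), Nat.card H = p → H = Subgroup.zpowers z₀ := by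
    intro H hH
    by_contra hne
    have hnt : H ≠ ⊥ := by
      intro h
      rw [h, Subgroup.card_bot] at hH
      exact hp.one_lt.ne hH
    obtain ⟨⟨h0, hhH⟩, hh1⟩ := (Subgroup.ne_bot_iff_exists_ne_one).mp hnt
    have hh1' : h0 ≠ 1 := fun hcon => hh1 (Subtype.ext hcon)
    have hhord : orderOf h0 = p := by
      have h1 : orderOf h0 ∣ p := by
        have h0' := Subgroup.orderOf_dvd_natCard H hhH
        rw [hH] at h0'
        exact h0'
      rcases (Nat.dvd_prime hp).mp h1 with h2 | h2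
      · exact absurd (orderOf_eq_one_iff.mp h2) hh1'
      · exact h2
    have hHz : H = Subgroup.zpowers h0 := by
      symm
      apply Subgroup.eq_of_le_of_card_ge
      · rw [Subgroup.zpowers_le]
        exact hhH
      · rw [Nat.card_zpowers, hhord, hH]
    have hnotin : h0 ∉ Subgroup.zpowers z₀ := by
      intro hin
      apply hne
      rw [hHz]
      apply Subgroup.eq_of_le_of_card_ge
      · rw [Subgroup.zpowers_le]
        exact hin
      · rw [Nat.card_zpowers, Nat.card_zpowers, hhord, hz₀ord]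
    obtain ⟨h, hhP⟩ := h0
    -- move to G
    have hhordG : orderOf h = p :=
      (Subgroup.orderOf_coe (⟨h, hhP⟩ : ↥(P : Subgroup G))).trans hhord
    have hzordG : orderOf (z₀ : G) = p := (Subgroup.orderOf_coe z₀).trans hz₀ord
    have hcG : h * (z₀ : G) = (z₀ : G) * h := congrArg Subtype.val (hz₀c ⟨h, hhP⟩)
    have hnotinG : h ∉ Subgroup.zpowers (z₀ : G) := by
      intro hin
      apply hnotin
      obtain ⟨k, hk⟩ := Subgroup.mem_zpowers_iff.mp hin
      rw [Subgroup.mem_zpowers_iff]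
      refine ⟨k, Subtype.ext ?_⟩
      rw [Subgroup.coe_zpow]
      exact hk
    obtain ⟨E, hEc, hEcard, hEexp, -, -⟩ :=
      exists_elemAb_of_commute p h (z₀ : G) hhordG hzordG hcG hnotinG
    have hCcard : Nat.card ↥(Subgroup.zpowers y) = Nat.card ↥E := by
      rw [Nat.card_zpowers, hyord, hEcard]
    obtain ⟨g, hg⟩ := hB (Subgroup.zpowers y) E
      (P.2.to_le (by rw [Subgroup.zpowers_le]; exact hyP)) (IsPGroup.of_card hEcard) hCcard
    have h1 : g * y * g⁻¹ ∈ E := by
      rw [hg]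
      exact ⟨y, Subgroup.mem_zpowers y, rfl⟩
    have h2 := hEexp _ h1
    rw [conj_pow] at h2
    have h3 : y ^ p = 1 := by
      have : y ^ p = g⁻¹ * (g * y ^ p * g⁻¹) * g := by group
      rw [this, h2]
      group
    have h4 : orderOf y ∣ p := orderOf_dvd_of_pow_eq_one h3
    rw [hyord] at h4
    have h5 : p ^ 2 ≤ p := Nat.le_of_dvd hp.pos h4
    have h6 : p < p ^ 2 := by
      have := hp.one_lt
      nlinarith
    omega
  have huniq : ∀ H K : Subgroup ↥(P : Subgroup G), Nat.card H = p → Nat.card K = p → H = K := by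
    intro H K hH hK
    rw [hone H hH, hone K hK]
  exact Cfsg.Agent.Lib.Lead.unique_sub_cyclic_or_quat p P.2 huniq


/-- A nonabelian `p`-group of exponent `p` has a nonabelian subgroup of order `p ^ 3`. -/
theorem exists_nonab_card_cube {Q : Type*} [Group Q] [Finite Q] (p : ℕ) [Fact p.Prime]
    (hQ : IsPGroup p Q) (hexp : ∀ x : Q, x ^ p = 1) (hnc : ¬ ∀ a b : Q, a * b = b * a) :
    ∃ B : Subgroup Q, Nat.card B = p ^ 3 ∧ ∃ x ∈ B, ∃ a ∈ B, x * a ≠ a * x := by
  classical
  have hp : p.Prime := Fact.out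
  have hord : ∀ u : Q, u ≠ 1 → orderOf u = p := by
    intro u hu
    have h1 : orderOf u ∣ p := orderOf_dvd_of_pow_eq_one (hexp u)
    rcases (Nat.dvd_prime hp).mp h1 with h2 | h2
    · exact absurd (orderOf_eq_one_iff.mp h2) hu
    · exact h2
  have hZ : Subgroup.center Q ≠ ⊤ := by
    intro h
    apply hnc
    intro a b
    have : b ∈ Subgroup.center Q := by rw [h]; exact Subgroup.mem_top b
    exact (Subgroup.mem_center_iff.mp this a)
  haveI : Nontrivial (Q ⧸ Subgroup.center Q) :=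
    not_subsingleton_iff_nontrivial.mp
      (fun h => hZ (QuotientGroup.subgroup_eq_top_of_subsingleton _ h))
  haveI := (hQ.to_quotient (Subgroup.center Q)).center_nontrivial
  obtain ⟨⟨abar, habar⟩, hne⟩ := exists_ne (1 : Subgroup.center (Q ⧸ Subgroup.center Q))
  obtain ⟨a, rfl⟩ := QuotientGroup.mk_surjective abar
  have haZ : a ∉ Subgroup.center Q := by
    intro h
    apply hne
    apply Subtype.ext
    exact (QuotientGroup.eq_one_iff a).mpr h
  have hcomm_mem : ∀ g : Q, g * a * g⁻¹ * a⁻¹ ∈ Subgroup.center Q := by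
    intro g
    have h1 := Subgroup.mem_center_iff.mp habar (QuotientGroup.mk g)
    rw [← QuotientGroup.eq_one_iff]
    have : ((g * a * g⁻¹ * a⁻¹ : Q) : Q ⧸ Subgroup.center Q) =
        (g : Q ⧸ Subgroup.center Q) * (a : Q ⧸ Subgroup.center Q) *
          (g : Q ⧸ Subgroup.center Q)⁻¹ * (a : Q ⧸ Subgroup.center Q)⁻¹ := rfl
    rw [this, h1]
    group
  have hx : ∃ x : Q, x * a ≠ a * x := by
    by_contra h
    push Not at h
    exact haZ (Subgroup.mem_center_iff.mpr h)
  obtain ⟨x, hxa⟩ := hx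
  set c := x * a * x⁻¹ * a⁻¹ with hc
  have hcZ : c ∈ Subgroup.center Q := hcomm_mem x
  have hc1 : c ≠ 1 := by
    intro h
    apply hxa
    have : x * a = c * (a * x) := by rw [hc]; group
    rw [this, h, one_mul]
  have hC_le : Subgroup.zpowers c ≤ Subgroup.center Q := by
    rw [Subgroup.zpowers_le]; exact hcZ
  haveI hCn : (Subgroup.zpowers c).Normal := by
    constructor
    intro n hn g
    have h1 := Subgroup.mem_center_iff.mp (hC_le hn) g
    rw [h1, mul_inv_cancel_right]
    exact hn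
  have hxC : x ∉ Subgroup.zpowers c := by
    intro h
    apply hxa
    exact ((Subgroup.mem_center_iff.mp (hC_le h) a)).symm
  have haC : a ∉ Subgroup.zpowers c := fun h => haZ (hC_le h)
  have hCcard : Nat.card (Subgroup.zpowers c) = p := by rw [Nat.card_zpowers, hord c hc1]
  set C := Subgroup.zpowers c with hC
  have hbarord : ∀ u : Q, u ∉ C → orderOf (QuotientGroup.mk u : Q ⧸ C) = p := by
    intro u hu
    have h1 : orderOf (QuotientGroup.mk u : Q ⧸ C) ∣ p := by
      apply orderOf_dvd_of_pow_eq_one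
      rw [← QuotientGroup.mk_pow, hexp]
      rfl
    rcases (Nat.dvd_prime hp).mp h1 with h2 | h2
    · exact absurd ((QuotientGroup.eq_one_iff u).mp (orderOf_eq_one_iff.mp h2)) hu
    · exact h2
  have hcbar : (QuotientGroup.mk x : Q ⧸ C) * QuotientGroup.mk a =
      QuotientGroup.mk a * QuotientGroup.mk x := by
    have h1 : x * a = c * (a * x) := by rw [hc]; group
    have h2 : (QuotientGroup.mk c : Q ⧸ C) = 1 :=
      (QuotientGroup.eq_one_iff c).mpr (Subgroup.mem_zpowers c)
    calc (QuotientGroup.mk x : Q ⧸ C) * QuotientGroup.mk a = QuotientGroup.mk (x * a) := rfl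
      _ = QuotientGroup.mk (c * (a * x)) := by rw [h1]
      _ = QuotientGroup.mk c * (QuotientGroup.mk a * QuotientGroup.mk x) := rfl
      _ = QuotientGroup.mk a * QuotientGroup.mk x := by rw [h2, one_mul]
  have hnotin : (QuotientGroup.mk x : Q ⧸ C) ∉
      Subgroup.zpowers (QuotientGroup.mk a : Q ⧸ C) := by
    intro hin
    obtain ⟨k, hk⟩ := Subgroup.mem_zpowers_iff.mp hin
    have h1 : (QuotientGroup.mk (a ^ k) : Q ⧸ C) = QuotientGroup.mk x := by
      rw [QuotientGroup.mk_zpow]; exact hk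
    have h2 : (a ^ k)⁻¹ * x ∈ C := QuotientGroup.eq.mp h1
    have h3 : ((a ^ k)⁻¹ * x) * a = a * ((a ^ k)⁻¹ * x) :=
      (Subgroup.mem_center_iff.mp (hC_le h2) a).symm
    apply hxa
    have h4 : a ^ k * a = a * a ^ k := ((Commute.refl a).zpow_left k).eq
    calc x * a = a ^ k * (((a ^ k)⁻¹ * x) * a) := by group
      _ = a ^ k * (a * ((a ^ k)⁻¹ * x)) := by rw [h3]
      _ = (a ^ k * a) * ((a ^ k)⁻¹ * x) := by group
      _ = (a * a ^ k) * ((a ^ k)⁻¹ * x) := by rw [h4]
      _ = a * x := by group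
  obtain ⟨E, hEc, hEcard, -, hxE, haE⟩ :=
    exists_elemAb_of_commute p _ _ (hbarord x hxC) (hbarord a haC) hcbar hnotin
  refine ⟨E.comap (QuotientGroup.mk' C), ?_, x, hxE, a, haE, hxa⟩
  rw [Cfsg.Agent.Lib.Lead.card_comap_mk', hEcard, hCcard]
  ring

/-- A `p`-group of exponent `p` and order at least `p ^ 4` has an abelian subgroup of order
`p ^ 3`. -/
theorem exists_ab_card_cube {Q : Type*} [Group Q] [Finite Q] (p : ℕ) [Fact p.Prime]
    (hQ : IsPGroup p Q) (hexp : ∀ x : Q, x ^ p = 1) (hcard : p ^ 4 ∣ Nat.card Q) :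
    ∃ A : Subgroup Q, Nat.card A = p ^ 3 ∧ ∀ a ∈ A, ∀ b ∈ A, a * b = b * a := by
  classical
  have hp : p.Prime := Fact.out
  have hord : ∀ u : Q, u ≠ 1 → orderOf u = p := by
    intro u hu
    have h1 : orderOf u ∣ p := orderOf_dvd_of_pow_eq_one (hexp u)
    rcases (Nat.dvd_prime hp).mp h1 with h2 | h2
    · exact absurd (orderOf_eq_one_iff.mp h2) hu
    · exact h2
  have hp4 : p < p ^ 4 := by
    have := Nat.pow_lt_pow_right hp.one_lt (by norm_num : 1 < 4)
    rwa [pow_one] at this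
  have hcard4 : p ^ 4 ≤ Nat.card Q := Nat.le_of_dvd Nat.card_pos hcard
  haveI : Nontrivial Q := by
    rw [← Finite.one_lt_card_iff_nontrivial]
    have := hp.one_lt
    omega
  haveI := hQ.center_nontrivial
  obtain ⟨⟨z, hzZ⟩, hz1⟩ := exists_ne (1 : Subgroup.center Q)
  have hz1' : z ≠ 1 := fun h => hz1 (Subtype.ext h)
  have hzc : ∀ g : Q, g * z = z * g := fun g => Subgroup.mem_center_iff.mp hzZ g
  have hC_le : Subgroup.zpowers z ≤ Subgroup.center Q := by
    rw [Subgroup.zpowers_le]; exact hzZ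
  haveI hCn : (Subgroup.zpowers z).Normal := by
    constructor
    intro n hn g
    have h1 := Subgroup.mem_center_iff.mp (hC_le hn) g
    rw [h1, mul_inv_cancel_right]
    exact hn
  have hCcard : Nat.card (Subgroup.zpowers z) = p := by rw [Nat.card_zpowers, hord z hz1']
  set C := Subgroup.zpowers z with hC
  haveI : Nontrivial (Q ⧸ C) := by
    apply not_subsingleton_iff_nontrivial.mp
    intro h
    have h1 : C = ⊤ := QuotientGroup.subgroup_eq_top_of_subsingleton C h
    have h2 : Nat.card C = Nat.card Q := by rw [h1, Subgroup.card_top]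
    rw [hCcard] at h2
    omega
  haveI := (hQ.to_quotient C).center_nontrivial
  obtain ⟨⟨bbar, hbbar⟩, hne⟩ := exists_ne (1 : Subgroup.center (Q ⧸ C))
  obtain ⟨b, rfl⟩ := QuotientGroup.mk_surjective bbar
  have hbC : b ∉ C := by
    intro h
    apply hne
    apply Subtype.ext
    exact (QuotientGroup.eq_one_iff b).mpr h
  have hcomm_mem : ∀ g : Q, g * b * g⁻¹ * b⁻¹ ∈ C := by
    intro g
    have h1 := Subgroup.mem_center_iff.mp hbbar (QuotientGroup.mk g)
    rw [← QuotientGroup.eq_one_iff]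
    have : ((g * b * g⁻¹ * b⁻¹ : Q) : Q ⧸ C) =
        (g : Q ⧸ C) * (b : Q ⧸ C) * (g : Q ⧸ C)⁻¹ * (b : Q ⧸ C)⁻¹ := rfl
    rw [this, h1]
    group
  have hb1 : b ≠ 1 := fun h => hbC (h ▸ C.one_mem)
  let φ : Q →* Q := MonoidHom.mk' (fun g => g * b * g⁻¹ * b⁻¹) (by
    intro g h
    have h1 : h * b * h⁻¹ * b⁻¹ ∈ Subgroup.center Q := hC_le (hcomm_mem h)
    have h2 := Subgroup.mem_center_iff.mp h1 g
    have h3 := Subgroup.mem_center_iff.mp h1 (g * b * g⁻¹ * b⁻¹)
    show g * h * b * (g * h)⁻¹ * b⁻¹ = g * b * g⁻¹ * b⁻¹ * (h * b * h⁻¹ * b⁻¹)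
    calc g * h * b * (g * h)⁻¹ * b⁻¹ = (g * (h * b * h⁻¹ * b⁻¹)) * b * g⁻¹ * b⁻¹ := by group
      _ = ((h * b * h⁻¹ * b⁻¹) * g) * b * g⁻¹ * b⁻¹ := by rw [h2]
      _ = (h * b * h⁻¹ * b⁻¹) * (g * b * g⁻¹ * b⁻¹) := by group
      _ = g * b * g⁻¹ * b⁻¹ * (h * b * h⁻¹ * b⁻¹) := h3.symm)
  have hrange : φ.range ≤ C := by
    rintro _ ⟨g, rfl⟩
    exact hcomm_mem g
  have hidx : φ.ker.index ∣ p := by
    rw [Subgroup.index_ker, ← hCcard]
    exact Subgroup.card_dvd_of_le hrange
  have hKdvd : p ^ 3 ∣ Nat.card φ.ker := by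
    have h1 := Subgroup.card_mul_index φ.ker
    rw [← h1] at hcard
    have h2 : p ^ 4 ∣ Nat.card φ.ker * p := hcard.trans (Nat.mul_dvd_mul_left _ hidx)
    have h3 : p ^ 4 = p ^ 3 * p := by ring
    rw [h3] at h2
    exact Nat.dvd_of_mul_dvd_mul_right hp.pos h2
  have hKcomm : ∀ g ∈ φ.ker, g * b = b * g := by
    intro g hg
    have h1 : g * b * g⁻¹ * b⁻¹ = 1 := hg
    calc g * b = (g * b * g⁻¹ * b⁻¹) * (b * g) := by group
      _ = b * g := by rw [h1, one_mul]
  obtain ⟨E, hEc, hEcard, -, hbE, hzE⟩ :=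
    exists_elemAb_of_commute p b z (hord b hb1) (hord z hz1') (hzc b) hbC
  have hEK : E ≤ φ.ker := by
    intro e he
    show e * b * e⁻¹ * b⁻¹ = 1
    rw [hEc e he b hbE]
    group
  obtain ⟨A, hEA, hAK, hAcard⟩ :=
    exists_le_card_pow φ.ker E hEK 2 3 hEcard (by norm_num) hKdvd
  refine ⟨A, hAcard, ?_⟩
  set W := A ⊓ Subgroup.centralizer (A : Set Q) with hW
  have hbW : b ∈ W := by
    refine ⟨hEA hbE, ?_⟩
    show b ∈ Subgroup.centralizer (A : Set Q)
    rw [Subgroup.mem_centralizer_iff]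
    intro v hv
    exact hKcomm v (hAK hv)
  have hzW : z ∈ W := by
    refine ⟨hEA hzE, ?_⟩
    show z ∈ Subgroup.centralizer (A : Set Q)
    rw [Subgroup.mem_centralizer_iff]
    intro v hv
    exact hzc v
  obtain ⟨k, hk⟩ := IsPGroup.iff_card.mp (hQ.to_subgroup W)
  have hk2 : 2 ≤ k := by
    by_contra hlt
    have hk1 : k ≤ 1 := by omega
    have hCW : C ≤ W := by rw [hC, Subgroup.zpowers_le]; exact hzW
    have : C = W := by
      apply Subgroup.eq_of_le_of_card_ge hCW
      rw [hk, hCcard]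
      calc p ^ k ≤ p ^ 1 := Nat.pow_le_pow_right hp.pos hk1
        _ = p := pow_one p
    exact hbC (this ▸ hbW)
  have hWA : W = A := by
    by_contra hne'
    have hlt : W < A := lt_of_le_of_ne inf_le_left hne'
    obtain ⟨t, htA, htW⟩ := SetLike.exists_of_lt hlt
    have hT : W ⊔ Subgroup.zpowers t = A := by
      have hle : W ⊔ Subgroup.zpowers t ≤ A :=
        sup_le inf_le_left (by rw [Subgroup.zpowers_le]; exact htA)
      apply Subgroup.eq_of_le_of_card_ge hle
      obtain ⟨i, hi⟩ := IsPGroup.iff_card.mp (hQ.to_subgroup (W ⊔ Subgroup.zpowers t))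
      rw [hAcard, hi]
      apply Nat.pow_le_pow_right hp.pos
      by_contra hlt'
      have hik : i ≤ k := by omega
      have : W ⊔ Subgroup.zpowers t = W := by
        symm
        apply Subgroup.eq_of_le_of_card_ge le_sup_left
        rw [hi, hk]
        exact Nat.pow_le_pow_right hp.pos hik
      apply htW
      rw [← this]
      exact Subgroup.mem_sup_right (Subgroup.mem_zpowers t)
    apply htW
    refine ⟨htA, ?_⟩
    have hle : W ⊔ Subgroup.zpowers t ≤ Subgroup.centralizer ({t} : Set Q) := by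
      apply sup_le
      · intro w hw
        rw [Subgroup.mem_centralizer_iff]
        intro u hu
        rw [Set.mem_singleton_iff] at hu
        subst hu
        exact Subgroup.mem_centralizer_iff.mp hw.2 u htA
      · rw [Subgroup.zpowers_le, Subgroup.mem_centralizer_iff]
        intro u hu
        rw [Set.mem_singleton_iff] at hu
        rw [hu]
    show t ∈ Subgroup.centralizer (A : Set Q)
    rw [Subgroup.mem_centralizer_iff]
    intro v hv
    rw [← hT] at hv
    have := Subgroup.mem_centralizer_iff.mp (hle hv) t rfl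
    exact this.symm
  intro a ha b' hb'
  rw [← hWA] at ha
  exact (Subgroup.mem_centralizer_iff.mp ha.2 b' hb').symm

end Cfsg.Agent.Lib.Helper6
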