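import Mathlib
import Cfsg.Agent.Lib.Lead.Hall
import Cfsg.Agent.Lib.Helper6.PiElts

set_option autoImplicit false

namespace Cfsg.Agent.Lib.Helper6

universe u

/-- The key step: a `π`-element of prime power order of `G ⧸ L` centralizes the `π'`-group
`K ⧸ L`. -/
theorem piElt_centralizes_aux {G : Type u} [Group G] [Finite G] (π : Set ℕ)
    (hcen : ∀ R : Subgroup G, R ≠ ⊥ → (∀ q : ℕ, q.Prime → q ∣ Nat.card R → q ∉ π) →
      ∀ g ∈ Subgroup.normalizer (R : Set G), PiElt π g → g ∈ Subgroup.centralizer (R : Set G))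
    (K L : Subgroup G) [hKn : K.Normal] [hLn : L.Normal]
    (hLpi : ∀ x ∈ L, PiElt π x)
    (hKbpi : ∀ q : ℕ, q.Prime → q ∣ Nat.card (K.map (QuotientGroup.mk' L)) → q ∉ π)
    (g : G) (p j : ℕ) (hpπ : p ∈ π) (hp : p.Prime) (hgb : orderOf (QuotientGroup.mk' L g) = p ^ j) :
    ∀ kb ∈ K.map (QuotientGroup.mk' L), QuotientGroup.mk' L g * kb = kb * QuotientGroup.mk' L g := by
  have : Fact p.Prime := ⟨hp⟩
  have hKbn : (K.map (QuotientGroup.mk' L)).Normal := hKn.map _ (QuotientGroup.mk'_surjective L)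
  have hker : ∀ l ∈ L, QuotientGroup.mk' L l = 1 := fun l hl =>
    (QuotientGroup.eq_one_iff l).2 hl
  have hgpi : PiElt π g := piElt_of_quotient L hLpi g (by
    intro q hq hqd
    rw [hgb] at hqd
    rw [(Nat.prime_dvd_prime_iff_eq hq hp).1 (hq.dvd_of_dvd_pow hqd)]; exact hpπ)
  have hcopK : (Nat.card (K.map (QuotientGroup.mk' L))).Coprime p := by
    rw [Nat.coprime_comm, Nat.Prime.coprime_iff_not_dvd hp]
    intro hd
    exact hKbpi p hp hd hpπ
  have hPg : IsPGroup p (Subgroup.zpowers (QuotientGroup.mk' L g)) := by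
    apply IsPGroup.of_card (n := j)
    rw [Nat.card_zpowers, hgb]
  have hrel : (Subgroup.centralizer ({QuotientGroup.mk' L g} : Set (G ⧸ L))).relIndex
      (K.map (QuotientGroup.mk' L)) = 1 := by
    by_contra hne
    obtain ⟨r, hr, hrd⟩ := Nat.exists_prime_and_dvd hne
    have : Fact r.Prime := ⟨hr⟩
    obtain ⟨Rb, hRbK, hRbp, hRbidx, hRbinv⟩ := exists_invariant_sylow p r
      (K.map (QuotientGroup.mk' L)) hcopK (Subgroup.zpowers (QuotientGroup.mk' L g)) hPg
    have hRbC : Rb ≤ Subgroup.centralizer ({QuotientGroup.mk' L g} : Set (G ⧸ L)) := by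
      by_cases hRb1 : Rb = ⊥
      · rw [hRb1]; exact bot_le
      obtain ⟨b, hb⟩ := IsPGroup.iff_card.1 hRbp
      have hb0 : b ≠ 0 := by
        intro h0; rw [h0, pow_zero] at hb; exact hRb1 (Subgroup.card_eq_one.1 hb)
      have hrπ : r ∉ π := by
        apply hKbpi r hr
        have h1 : r ∣ Nat.card Rb := by rw [hb]; exact dvd_pow_self r hb0
        exact h1.trans (Subgroup.card_dvd_of_le hRbK)
      have hrL : ¬ r ∣ Nat.card L := by
        intro hd
        obtain ⟨l, hl⟩ := exists_prime_orderOf_dvd_card' (G := ↥L) r hd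
        apply hrπ
        apply hLpi l.1 l.2 r hr
        rw [Subgroup.orderOf_coe, hl]
      obtain ⟨U, hU⟩ : ∃ U : Subgroup G, U = Rb.comap (QuotientGroup.mk' L) := ⟨_, rfl⟩
      have hLU : L ≤ U := by
        intro l hl
        rw [hU, Subgroup.mem_comap, hker l hl]; exact Rb.one_mem
      have hUcard : Nat.card U = r ^ b * Nat.card L := by
        rw [hU, Cfsg.Agent.Lib.Lead.card_comap_mk', hb]
      obtain ⟨S⟩ : Nonempty (Sylow r ↥U) := inferInstance
      obtain ⟨R, hR⟩ : ∃ R : Subgroup G, R = (S : Subgroup ↥U).map U.subtype := ⟨_, rfl⟩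
      have hRU : R ≤ U := hR ▸ Subgroup.map_subtype_le _
      have hRp : IsPGroup r R := hR ▸ S.isPGroup'.map _
      have hRidx : ¬ r ∣ R.relIndex U := by
        have h1 : R.relIndex U = (S : Subgroup ↥U).index := by
          rw [hR]
          show (((S : Subgroup ↥U).map U.subtype).subgroupOf U).index = _
          rw [Subgroup.subgroupOf, Subgroup.comap_map_eq_self_of_injective U.subtype_injective]
        rw [h1]; exact S.not_dvd_index
      -- |R| = r ^ b
      obtain ⟨a, ha⟩ := IsPGroup.iff_card.1 hRp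
      have hab : a = b := by
        have h1 := card_mul_relIndex_of_le hRU
        rw [ha, hUcard] at h1
        have hc1 : Nat.Coprime (r ^ a) (Nat.card L) :=
          Nat.Coprime.pow_left a ((Nat.Prime.coprime_iff_not_dvd hr).2 hrL)
        have hc2 : Nat.Coprime (r ^ b) (R.relIndex U) :=
          Nat.Coprime.pow_left b ((Nat.Prime.coprime_iff_not_dvd hr).2 hRidx)
        have h2 : r ^ a ∣ r ^ b := by
          apply hc1.dvd_of_dvd_mul_right
          rw [← h1]; exact dvd_mul_right _ _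
        have h3 : r ^ b ∣ r ^ a := by
          apply hc2.dvd_of_dvd_mul_right
          rw [h1]; exact dvd_mul_right _ _
        have h4 := (Nat.pow_dvd_pow_iff_le_right hr.one_lt).1 h2
        have h5 := (Nat.pow_dvd_pow_iff_le_right hr.one_lt).1 h3
        omega
      have hRL : R ⊓ L = ⊥ := by
        apply disjoint_iff.1
        apply Subgroup.disjoint_of_coprime_natCard
        rw [ha]
        exact Nat.Coprime.pow_left a ((Nat.Prime.coprime_iff_not_dvd hr).2 hrL)
      have hsup : L ⊔ R = U := by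
        apply Subgroup.eq_of_le_of_card_ge (sup_le hLU hRU)
        rw [sup_comm, card_sup_of_normal_disjoint R L hRL, hUcard, ha, hab, mul_comm]
      have hdec : ∀ u ∈ U, ∃ l ∈ L, ∃ ρ ∈ R, u = l * ρ := by
        intro u hu
        rw [← hsup, ← SetLike.mem_coe, Subgroup.normal_mul] at hu
        obtain ⟨l, hl, ρ, hρ, rfl⟩ := hu
        exact ⟨l, hl, ρ, hρ, rfl⟩
      have hgU : ∀ u ∈ U, g * u * g⁻¹ ∈ U := by
        intro u hu
        rw [hU, Subgroup.mem_comap] at hu ⊢
        rw [map_mul, map_mul, map_inv]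
        exact hRbinv _ (Subgroup.mem_zpowers _) _ hu
      have hRgU : R.map (MulAut.conj g).toMonoidHom ≤ U := by
        rintro _ ⟨y, hy, rfl⟩
        exact hgU y (hRU hy)
      obtain ⟨u, huU, hconj⟩ := exists_conj_of_sylow_in_subgroup U R
        (R.map (MulAut.conj g).toMonoidHom) hRU hRgU hRp (hRp.map _) hRidx (card_map_conj R g)
      obtain ⟨l, hl, ρ, hρ, rfl⟩ := hdec u huU
      rw [map_conj_mul, map_conj_of_mem R hρ] at hconj
      have hnorm : l⁻¹ * g ∈ Subgroup.normalizer (R : Set G) :=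
        mem_normalizer_of_map_conj_eq R hconj
      have hnpi : PiElt π (l⁻¹ * g) := by
        apply piElt_of_quotient L hLpi
        rw [map_mul, map_inv, hker l hl, inv_one, one_mul]
        intro q hq hqd
        rw [hgb] at hqd
        rw [(Nat.prime_dvd_prime_iff_eq hq hp).1 (hq.dvd_of_dvd_pow hqd)]; exact hpπ
      have hR1 : R ≠ ⊥ := by
        intro h
        rw [h, Subgroup.card_bot] at ha
        rw [hab] at ha
        have : 1 < r ^ b := Nat.one_lt_pow hb0 hr.one_lt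
        omega
      have hRpi : ∀ q : ℕ, q.Prime → q ∣ Nat.card R → q ∉ π := by
        intro q hq hqd
        rw [ha] at hqd
        rw [(Nat.prime_dvd_prime_iff_eq hq hr).1 (hq.dvd_of_dvd_pow hqd)]; exact hrπ
      have hncen := hcen R hR1 hRpi _ hnorm hnpi
      intro yb hyb
      rw [Subgroup.mem_centralizer_iff]
      intro v hv
      rw [Set.mem_singleton_iff.1 hv]
      obtain ⟨y, rfl⟩ := QuotientGroup.mk'_surjective L yb
      have hyU : y ∈ U := by rw [hU, Subgroup.mem_comap]; exact hyb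
      obtain ⟨l', hl', ρ', hρ', rfl⟩ := hdec y hyU
      have h1 : ρ' * (l⁻¹ * g) = (l⁻¹ * g) * ρ' := Subgroup.mem_centralizer_iff.1 hncen ρ' hρ'
      have h2 := congrArg (QuotientGroup.mk' L) h1
      simp only [map_mul, map_inv, hker l hl, inv_one, one_mul] at h2
      rw [map_mul, hker l' hl', one_mul]
      exact h2.symm
    exact hRbidx (hrd.trans (Subgroup.relIndex_dvd_of_le_left _ hRbC))
  intro kb hkb
  have := Subgroup.relIndex_eq_one.1 hrel hkb
  exact Subgroup.mem_centralizer_iff.1 this _ rfl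

/-- If `K` is normal in `G`, the `π`-elements of `K` are closed under multiplication and so are
those of `G ⧸ K`, and `π`-elements normalizing a nontrivial `π'`-subgroup centralize it, then the
`π`-elements of `G` are closed under multiplication. -/
theorem piElt_mul_closed {G : Type u} [Group G] [Finite G] (π : Set ℕ)
    (hcen : ∀ R : Subgroup G, R ≠ ⊥ → (∀ q : ℕ, q.Prime → q ∣ Nat.card R → q ∉ π) →
      ∀ g ∈ Subgroup.normalizer (R : Set G), PiElt π g → g ∈ Subgroup.centralizer (R : Set G))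
    (K : Subgroup G) [hKn : K.Normal]
    (hK : ∀ x ∈ K, ∀ y ∈ K, PiElt π x → PiElt π y → PiElt π (x * y))
    (hQ : ∀ a b : G ⧸ K, PiElt π a → PiElt π b → PiElt π (a * b)) :
    ∀ x y : G, PiElt π x → PiElt π y → PiElt π (x * y) := by
  obtain ⟨L, hL⟩ : ∃ L : Subgroup G, ∀ x : G, x ∈ L ↔ x ∈ K ∧ PiElt π x := by
    refine ⟨
      { carrier := {x | x ∈ K ∧ PiElt π x}, mul_mem' := ?_, one_mem' := ?_, inv_mem' := ?_ },
      fun x => Iff.rfl⟩
    · rintro a b ⟨ha, ha'⟩ ⟨hb, hb'⟩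
      exact ⟨K.mul_mem ha hb, hK a ha b hb ha' hb'⟩
    · exact ⟨K.one_mem, piElt_one⟩
    · rintro a ⟨ha, ha'⟩
      exact ⟨K.inv_mem ha, ha'.inv⟩
  have hLn : L.Normal :=
    ⟨fun x hx g => (hL _).2 ⟨hKn.conj_mem x ((hL x).1 hx).1 g, ((hL x).1 hx).2.conj g⟩⟩
  have hLpi : ∀ x ∈ L, PiElt π x := fun x hx => ((hL x).1 hx).2
  have hker : ∀ l ∈ L, QuotientGroup.mk' L l = 1 := fun l hl =>
    (QuotientGroup.eq_one_iff l).2 hl
  obtain ⟨M', hM'⟩ : ∃ M' : Subgroup (G ⧸ K), ∀ a : G ⧸ K, a ∈ M' ↔ PiElt π a := by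
    refine ⟨
      { carrier := {a | PiElt π a}, mul_mem' := ?_, one_mem' := ?_, inv_mem' := ?_ },
      fun a => Iff.rfl⟩
    · intro a b ha hb; exact hQ a b ha hb
    · exact piElt_one
    · intro a ha; exact ha.inv
  have he : PiNum π (Nat.card M') :=
    piNum_card_of_forall (fun a => (piElt_coe_iff a).1 ((hM' a.1).1 a.2))
  obtain ⟨M, hM⟩ : ∃ M : Subgroup G, M = M'.comap (QuotientGroup.mk' K) := ⟨_, rfl⟩
  have hMpi : ∀ g : G, PiElt π g → g ∈ M := by
    intro g hg
    rw [hM, Subgroup.mem_comap, hM']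
    exact hg.map _
  have hpowK : ∀ g ∈ M, g ^ Nat.card M' ∈ K := by
    intro g hg
    rw [hM, Subgroup.mem_comap] at hg
    have h2 : (⟨QuotientGroup.mk' K g, hg⟩ : ↥M') ^ Nat.card M' = 1 := pow_card_eq_one'
    have h3 := congrArg Subtype.val h2
    rw [Subgroup.coe_pow, Subgroup.coe_one] at h3
    rw [← QuotientGroup.eq_one_iff]
    show QuotientGroup.mk' K (g ^ Nat.card M') = 1
    rw [map_pow]; exact h3
  have hKbpi : ∀ q : ℕ, q.Prime → q ∣ Nat.card (K.map (QuotientGroup.mk' L)) → q ∉ π := by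
    intro q hq hd hqπ
    have : Fact q.Prime := ⟨hq⟩
    obtain ⟨a, ha⟩ := exists_prime_orderOf_dvd_card' (G := ↥(K.map (QuotientGroup.mk' L))) q hd
    obtain ⟨k, hk, hka⟩ := a.2
    have h1 : PiElt π (QuotientGroup.mk' L k) := by
      rw [hka]
      intro p hp hpd
      rw [Subgroup.orderOf_coe, ha] at hpd
      rw [(Nat.prime_dvd_prime_iff_eq hp hq).1 hpd]; exact hqπ
    have h2 : k ∈ L := (hL k).2 ⟨hk, piElt_of_quotient L hLpi k h1⟩
    have h3 : (a : G ⧸ L) = 1 := by rw [← hka]; exact hker k h2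
    have h4 : orderOf (a : G ⧸ L) = 1 := by rw [h3, orderOf_one]
    rw [Subgroup.orderOf_coe, ha] at h4
    exact hq.ne_one h4
  have hcent : ∀ gb : G ⧸ L, PiElt π gb →
      gb ∈ Subgroup.centralizer
        ((K.map (QuotientGroup.mk' L) : Subgroup (G ⧸ L)) : Set (G ⧸ L)) := by
    intro gb hgb
    refine mem_of_piElt π _ ?_ _ gb rfl hgb
    intro y q v hq hqπ hy
    obtain ⟨g, rfl⟩ := QuotientGroup.mk'_surjective L y
    rw [Subgroup.mem_centralizer_iff]
    intro kb hkb
    exact (piElt_centralizes_aux π hcen K L hLpi hKbpi g q v hqπ hq hy kb hkb).symm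
  obtain ⟨W, hW⟩ : ∃ W : Subgroup (G ⧸ L), W = Subgroup.centralizer
      ((K.map (QuotientGroup.mk' L) : Subgroup (G ⧸ L)) : Set (G ⧸ L)) ⊓
        M.map (QuotientGroup.mk' L) := ⟨_, rfl⟩
  have hWn : PiNum π (Subgroup.center ↥W).index := by
    intro q hq hqd
    have : Fact q.Prime := ⟨hq⟩
    rw [Subgroup.index_eq_card] at hqd
    obtain ⟨a, ha⟩ := exists_prime_orderOf_dvd_card' (G := ↥W ⧸ Subgroup.center ↥W) q hqd
    obtain ⟨w, rfl⟩ := QuotientGroup.mk'_surjective (Subgroup.center ↥W) a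
    have hw : w ^ Nat.card M' ∈ Subgroup.center ↥W := by
      have hw2 : (w : G ⧸ L) ∈ Subgroup.centralizer
          ((K.map (QuotientGroup.mk' L) : Subgroup (G ⧸ L)) : Set (G ⧸ L)) ⊓
            M.map (QuotientGroup.mk' L) := hW ▸ w.2
      obtain ⟨m, hm, hmw⟩ := hw2.2
      have h1 : ((w ^ Nat.card M' : ↥W) : G ⧸ L) ∈ K.map (QuotientGroup.mk' L) := by
        rw [Subgroup.coe_pow, ← hmw, ← map_pow]
        exact ⟨_, hpowK m hm, rfl⟩
      rw [Subgroup.mem_center_iff]
      intro w'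
      have hw' : (w' : G ⧸ L) ∈ Subgroup.centralizer
          ((K.map (QuotientGroup.mk' L) : Subgroup (G ⧸ L)) : Set (G ⧸ L)) ⊓
            M.map (QuotientGroup.mk' L) := hW ▸ w'.2
      apply Subtype.ext
      rw [Subgroup.coe_mul, Subgroup.coe_mul]
      exact (Subgroup.mem_centralizer_iff.1 hw'.1 _ h1).symm
    have h2 : (QuotientGroup.mk' (Subgroup.center ↥W) w) ^ Nat.card M' = 1 := by
      rw [← map_pow]; exact (QuotientGroup.eq_one_iff _).2 hw
    have h3 := orderOf_dvd_of_pow_eq_one h2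
    rw [ha] at h3
    exact he q hq h3
  intro x y hx hy
  have hxW : QuotientGroup.mk' L x ∈ W := by
    rw [hW]
    exact ⟨hcent _ (hx.map _), ⟨x, hMpi x hx, rfl⟩⟩
  have hyW : QuotientGroup.mk' L y ∈ W := by
    rw [hW]
    exact ⟨hcent _ (hy.map _), ⟨y, hMpi y hy, rfl⟩⟩
  have h1 : PiElt π ((⟨QuotientGroup.mk' L x, hxW⟩ : ↥W) * ⟨QuotientGroup.mk' L y, hyW⟩) :=
    piElt_mul_of_center_index hWn ((piElt_coe_iff (⟨QuotientGroup.mk' L x, hxW⟩ : ↥W)).1 (hx.map _))
      ((piElt_coe_iff (⟨QuotientGroup.mk' L y, hyW⟩ : ↥W)).1 (hy.map _))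
  have h2 := (piElt_coe_iff _).2 h1
  rw [Subgroup.coe_mul] at h2
  apply piElt_of_quotient L hLpi
  rw [map_mul]
  exact h2

/-- From the index form of the hypothesis to the elementwise form. -/
theorem hcen_of_hhom {G : Type u} [Group G] [Finite G] (π : Set ℕ)
    (hhom : ∀ H : Subgroup G, H ≠ ⊥ → (∀ p : ℕ, p.Prime → p ∣ Nat.card ↥H → p ∉ π) →
        ∀ p : ℕ, p.Prime → p ∣ (Subgroup.centralizer (H : Set G)).relIndex
          (Subgroup.normalizer (H : Set G)) → p ∉ π) :
    ∀ R : Subgroup G, R ≠ ⊥ → (∀ q : ℕ, q.Prime → q ∣ Nat.card R → q ∉ π) →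
      ∀ g ∈ Subgroup.normalizer (R : Set G), PiElt π g →
        g ∈ Subgroup.centralizer (R : Set G) := by
  intro R hR hRpi g hg hgpi
  have hnorm : ((Subgroup.centralizer (R : Set G)).subgroupOf
      (Subgroup.normalizer (R : Set G))).Normal := by
    constructor
    intro c hc n
    rw [Subgroup.mem_subgroupOf] at hc ⊢
    rw [Subgroup.mem_centralizer_iff] at hc ⊢
    intro r hr
    have h1 : (n : G)⁻¹ * r * (n : G) ∈ R := by
      have := (Subgroup.mem_normalizer_iff.1 (Subgroup.inv_mem _ n.2) r).1 hr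
      simpa using this
    have h2 := hc _ h1
    show r * ((n : G) * (c : G) * (n : G)⁻¹) = (n : G) * (c : G) * (n : G)⁻¹ * r
    calc r * ((n : G) * (c : G) * (n : G)⁻¹)
        = (n : G) * (((n : G)⁻¹ * r * (n : G)) * (c : G)) * (n : G)⁻¹ := by group
      _ = (n : G) * ((c : G) * ((n : G)⁻¹ * r * (n : G))) * (n : G)⁻¹ := by rw [h2]
      _ = (n : G) * (c : G) * (n : G)⁻¹ * r := by group
  have h1 := Subgroup.pow_index_mem ((Subgroup.centralizer (R : Set G)).subgroupOf
    (Subgroup.normalizer (R : Set G))) (⟨g, hg⟩ : ↥(Subgroup.normalizer (R : Set G)))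
  rw [Subgroup.mem_subgroupOf] at h1
  have h2 : g ^ (Subgroup.centralizer (R : Set G)).relIndex (Subgroup.normalizer (R : Set G)) ∈
      Subgroup.centralizer (R : Set G) := h1
  have hcop : Nat.Coprime ((Subgroup.centralizer (R : Set G)).relIndex
      (Subgroup.normalizer (R : Set G))) (orderOf g) := by
    by_contra hne
    obtain ⟨q, hq, hqd⟩ := Nat.exists_prime_and_dvd (show Nat.gcd _ _ ≠ 1 from hne)
    exact hhom R hR hRpi q hq (hqd.trans (Nat.gcd_dvd_left _ _))
      (hgpi q hq (hqd.trans (Nat.gcd_dvd_right _ _)))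
  exact Cfsg.Agent.Lib.Helper2.mem_of_pow_mem_of_coprime _ g _ _ hcop h2
    (by rw [pow_orderOf_eq_one]; exact Subgroup.one_mem _)

/-- The elementwise hypothesis passes to subgroups. -/
theorem hcen_subgroup {G : Type u} [Group G] [Finite G] (π : Set ℕ)
    (hcen : ∀ R : Subgroup G, R ≠ ⊥ → (∀ q : ℕ, q.Prime → q ∣ Nat.card R → q ∉ π) →
      ∀ g ∈ Subgroup.normalizer (R : Set G), PiElt π g → g ∈ Subgroup.centralizer (R : Set G))
    (N : Subgroup G) :
    ∀ R : Subgroup ↥N, R ≠ ⊥ → (∀ q : ℕ, q.Prime → q ∣ Nat.card R → q ∉ π) →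
      ∀ g ∈ Subgroup.normalizer (R : Set ↥N), PiElt π g →
        g ∈ Subgroup.centralizer (R : Set ↥N) := by
  intro R hR hRpi g hg hgpi
  have h1 : R.map N.subtype ≠ ⊥ := by
    intro h
    apply hR
    rw [eq_bot_iff]
    intro y hy
    have : N.subtype y ∈ R.map N.subtype := Subgroup.mem_map_of_mem _ hy
    rw [h, Subgroup.mem_bot] at this
    rw [Subgroup.mem_bot]
    exact Subtype.ext this
  have h2 : Nat.card (R.map N.subtype) = Nat.card R :=
    Subgroup.card_map_of_injective N.subtype_injective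
  have h3 : (g : G) ∈ Subgroup.normalizer ((R.map N.subtype : Subgroup G) : Set G) := by
    apply Cfsg.Agent.Lib.Helper1.mem_normalizer_of_finite
    rintro _ ⟨u, hu, rfl⟩
    exact ⟨g * u * g⁻¹, (Subgroup.mem_normalizer_iff.1 hg u).1 hu, rfl⟩
  have h4 := hcen (R.map N.subtype) h1 (by rw [h2]; exact hRpi) (g : G) h3
    ((piElt_coe_iff g).2 hgpi)
  rw [Subgroup.mem_centralizer_iff]
  intro y hy
  have h5 := Subgroup.mem_centralizer_iff.1 h4 (y : G) ⟨y, hy, rfl⟩
  exact Subtype.ext h5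

theorem exists_subgroup_of_mul_closed {G : Type*} [Group G] (π : Set ℕ)
    (h : ∀ x y : G, PiElt π x → PiElt π y → PiElt π (x * y)) :
    ∃ K : Subgroup G, ∀ x : G, x ∈ K ↔ ∀ p : ℕ, p.Prime → p ∣ orderOf x → p ∈ π :=
  ⟨{ carrier := {x | PiElt π x}, mul_mem' := fun ha hb => h _ _ ha hb, one_mem' := piElt_one,
     inv_mem' := fun ha => ha.inv }, fun x => Iff.rfl⟩

end Cfsg.Agent.Lib.Helper6
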