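import Mathlib
import Cfsg.Agent.Lib.Helper6.SpecA6b

set_option autoImplicit false

namespace Cfsg.Agent.Lib.Helper6.SpecA6

open Equiv Matrix

section
variable {F : Type*} [Field F]

theorem blk_inj_one (B : Matrix (Fin 2) (Fin 2) F) (w : Fin 2 → F) (h : blk B w = 1) : B = 1 := by
  ext i j
  fin_cases i <;> fin_cases j
  · simpa [blk] using congrFun (congrFun h 0) 0
  · simpa [blk] using congrFun (congrFun h 0) 1
  · simpa [blk] using congrFun (congrFun h 1) 0
  · simpa [blk] using congrFun (congrFun h 1) 1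

theorem geom_zero (h2 : (2 : F) = 0) (A : Matrix (Fin 2) (Fin 2) F) (hdet : A.det = 1)
    (ht : A 0 0 + A 1 1 ≠ 0) (n : ℕ) (hn : A ^ n = 1) :
    ∑ i ∈ Finset.range n, A ^ i = 0 := by
  have h1 := mul_geom_sum A n
  rw [hn, sub_self] at h1
  have hdet' : (A - 1).det ≠ 0 := by
    rw [Matrix.det_fin_two] at hdet ⊢
    intro h0
    apply ht
    simp only [Matrix.sub_apply, Matrix.one_apply_eq] at h0
    rw [Matrix.one_apply_ne (by decide : (0 : Fin 2) ≠ 1),
      Matrix.one_apply_ne (by decide : (1 : Fin 2) ≠ 0)] at h0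
    linear_combination (-1 : F) * h0 + hdet + h2
  have hu : IsUnit (A - 1).det := isUnit_iff_ne_zero.mpr hdet'
  have h3 := Matrix.nonsing_inv_mul (A - 1) hu
  rw [← one_mul (∑ i ∈ Finset.range n, A ^ i), ← h3, mul_assoc, h1, mul_zero]

theorem blk_pow_iff (h2 : (2 : F) = 0) (A : Matrix (Fin 2) (Fin 2) F) (hdet : A.det = 1)
    (ht : A 0 0 + A 1 1 ≠ 0) (v : Fin 2 → F) (n : ℕ) : blk A v ^ n = 1 ↔ A ^ n = 1 := by
  constructor
  · intro h
    rw [blk_pow] at h
    exact blk_inj_one _ _ h
  · intro h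
    rw [blk_pow, h, geom_zero h2 A hdet ht n h, Matrix.zero_mulVec, blk_one]

theorem blk_pow_iff0 (A : Matrix (Fin 2) (Fin 2) F) (n : ℕ) : blk A 0 ^ n = 1 ↔ A ^ n = 1 := by
  constructor
  · intro h
    rw [blk_pow] at h
    exact blk_inj_one _ _ h
  · intro h
    rw [blk_pow, h, Matrix.mulVec_zero, blk_one]

theorem K_I (h2 : (2 : F) = 0) (N : ℕ) (h : ↥(Kgrp F N)) :
    h ^ 4 = 1 ∨ ∃ a : Matrix.SpecialLinearGroup (Fin 2) F, orderOf h = orderOf a := by
  have hmem := (mem_Kgrp N h.1).mp h.2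
  have hx : ∀ i, (((h.1 i : ↥(Subgroup.closure (Hs F))) :
      Matrix.SpecialLinearGroup (Fin 3) F) : Matrix (Fin 3) (Fin 3) F)
      = blk (piHom (h.1 0))
        ![(((h.1 i : ↥(Subgroup.closure (Hs F))) :
          Matrix.SpecialLinearGroup (Fin 3) F) : Matrix (Fin 3) (Fin 3) F) 0 2,
          (((h.1 i : ↥(Subgroup.closure (Hs F))) :
          Matrix.SpecialLinearGroup (Fin 3) F) : Matrix (Fin 3) (Fin 3) F) 1 2] := by
    intro i
    obtain ⟨r0, r1, r2⟩ := closure_row (h.1 i).1 (h.1 i).2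
    have := blk_eta (((h.1 i : ↥(Subgroup.closure (Hs F))) :
      Matrix.SpecialLinearGroup (Fin 3) F) : Matrix (Fin 3) (Fin 3) F) r0 r1 r2
    rw [← hmem i]
    exact this
  have hdet : (piHom (h.1 0)).det = 1 := by
    rw [← blk_det (piHom (h.1 0))
      ![(((h.1 0 : ↥(Subgroup.closure (Hs F))) :
          Matrix.SpecialLinearGroup (Fin 3) F) : Matrix (Fin 3) (Fin 3) F) 0 2,
          (((h.1 0 : ↥(Subgroup.closure (Hs F))) :
          Matrix.SpecialLinearGroup (Fin 3) F) : Matrix (Fin 3) (Fin 3) F) 1 2], ← hx 0]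
    exact (h.1 0).1.2
  by_cases ht : piHom (h.1 0) 0 0 + piHom (h.1 0) 1 1 = 0
  · left
    apply Subtype.ext
    rw [Subgroup.coe_pow]
    funext i
    rw [Pi.pow_apply]
    apply (exp3 h2 (h.1 i)).1
    rw [hmem i]
    exact ht
  · right
    obtain ⟨a, ha⟩ : ∃ a : Matrix.SpecialLinearGroup (Fin 2) F,
        (a : Matrix (Fin 2) (Fin 2) F) = piHom (h.1 0) := ⟨⟨piHom (h.1 0), hdet⟩, rfl⟩
    refine ⟨a, ?_⟩
    rw [orderOf_eq_orderOf_iff]
    intro n
    constructor
    · intro hn
      have h0 : (h.1 0) ^ n = 1 := by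
        have := congrArg (fun k : ↥(Kgrp F N) => k.1 0) hn
        simpa using this
      have h0' : ((((h.1 0) ^ n : ↥(Subgroup.closure (Hs F))) :
          Matrix.SpecialLinearGroup (Fin 3) F) : Matrix (Fin 3) (Fin 3) F) = 1 := by
        rw [h0]; rfl
      rw [Subgroup.coe_pow, Matrix.SpecialLinearGroup.coe_pow, hx 0] at h0'
      apply Subtype.ext
      rw [Matrix.SpecialLinearGroup.coe_pow, ha]
      exact (blk_pow_iff h2 _ hdet ht _ n).mp h0'
    · intro hn
      have hA : (piHom (h.1 0)) ^ n = 1 := by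
        have := congrArg (fun a : Matrix.SpecialLinearGroup (Fin 2) F =>
          (a : Matrix (Fin 2) (Fin 2) F)) hn
        rw [Matrix.SpecialLinearGroup.coe_pow, ha] at this
        exact this
      apply Subtype.ext
      rw [Subgroup.coe_pow]
      funext i
      rw [Pi.pow_apply]
      apply Subtype.ext
      apply Subtype.ext
      rw [Subgroup.coe_pow, Matrix.SpecialLinearGroup.coe_pow, hx i]
      exact (blk_pow_iff h2 _ hdet ht _ n).mpr hA

theorem K_II (N : ℕ) (a : Matrix.SpecialLinearGroup (Fin 2) F) :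
    ∃ h : ↥(Kgrp F N), orderOf h = orderOf a := by
  refine ⟨diagHom F N (mkG a.1 0 a.2), ?_⟩
  rw [orderOf_injective _ (diagHom_inj N), orderOf_eq_orderOf_iff]
  intro n
  rw [mkG_pow, blk_pow_iff0]
  constructor
  · intro h
    apply Subtype.ext
    rw [Matrix.SpecialLinearGroup.coe_pow]
    exact h
  · intro h
    have := congrArg (fun a : Matrix.SpecialLinearGroup (Fin 2) F =>
      (a : Matrix (Fin 2) (Fin 2) F)) h
    simpa [Matrix.SpecialLinearGroup.coe_pow] using this

theorem center_bot (h2 : (2 : F) = 0) :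
    Subgroup.center (Matrix.SpecialLinearGroup (Fin 2) F) = ⊥ := by
  rw [Subgroup.eq_bot_iff_forall]
  intro A hA
  rw [Matrix.SpecialLinearGroup.mem_center_iff] at hA
  obtain ⟨r, hr, hA⟩ := hA
  simp only [Fintype.card_fin] at hr
  have hr1 : r = 1 := by
    have : (r - 1) ^ 2 = 0 := by linear_combination hr + (1 - r) * h2
    exact sub_eq_zero.mp ((pow_eq_zero_iff (by norm_num)).mp this)
  apply Subtype.ext
  rw [← hA, hr1]
  simp

noncomputable def slToPsl (h2 : (2 : F) = 0) :
    Matrix.SpecialLinearGroup (Fin 2) F ≃* Matrix.ProjectiveSpecialLinearGroup (Fin 2) F :=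
  MulEquiv.ofBijective (QuotientGroup.mk' (Subgroup.center (Matrix.SpecialLinearGroup (Fin 2) F)))
    ⟨(MonoidHom.ker_eq_bot_iff _).mp (by rw [QuotientGroup.ker_mk', center_bot h2]),
      QuotientGroup.mk'_surjective _⟩

end

def slEquiv {R S : Type*} [CommRing R] [CommRing S] (e : R ≃+* S) :
    Matrix.SpecialLinearGroup (Fin 2) R ≃* Matrix.SpecialLinearGroup (Fin 2) S :=
  MonoidHom.toMulEquiv (Matrix.SpecialLinearGroup.map e.toRingHom)
    (Matrix.SpecialLinearGroup.map e.symm.toRingHom)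
    (by
      ext g i j
      simp [Matrix.SpecialLinearGroup.map_apply_coe])
    (by
      ext g i j
      simp [Matrix.SpecialLinearGroup.map_apply_coe])

/-- A family of groups of unbounded order attached to a finite field of characteristic two,
with the same primes and the same `pq`-orders as `G` whenever `SL₂(F₀) ≃* G`. -/
theorem family {F₀ : Type} [Field F₀] [Finite F₀] (h2 : (2 : F₀) = 0) {G : Type*} [Group G]
    [Finite G] (ψ : Matrix.SpecialLinearGroup (Fin 2) F₀ ≃* G) (N : ℕ) :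
    ∃ (H : Type) (_ : Group H) (_ : Finite H), N < Nat.card H ∧
      ((∀ p : ℕ, p.Prime → (p ∣ Nat.card G ↔ p ∣ Nat.card H)) ∧
      (∀ p q : ℕ, p.Prime → q.Prime → p ≠ q →
        ((∃ g : G, orderOf g = p * q) ↔ (∃ g : H, orderOf g = p * q)))) := by
  classical
  haveI : Finite (Matrix.SpecialLinearGroup (Fin 3) F₀) := Subtype.finite
  refine ⟨↥(Kgrp F₀ N), inferInstance, inferInstance, K_card N, ?_, ?_⟩
  · intro p hp
    haveI : Fact p.Prime := ⟨hp⟩
    constructor
    · intro hdvd
      obtain ⟨g, hg⟩ := exists_prime_orderOf_dvd_card' p hdvd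
      obtain ⟨h, hh⟩ := K_II (F := F₀) N (ψ.symm g)
      rw [MulEquiv.orderOf_eq, hg] at hh
      rw [← hh]
      exact orderOf_dvd_natCard h
    · intro hdvd
      obtain ⟨h, hh⟩ := exists_prime_orderOf_dvd_card' p hdvd
      rcases K_I h2 N h with h4 | ⟨a, ha⟩
      · have hd := orderOf_dvd_of_pow_eq_one h4
        rw [hh] at hd
        have hp2 : p = 2 := by
          have : p ∣ 2 ^ 2 := by simpa using hd
          exact (Nat.prime_dvd_prime_iff_eq hp Nat.prime_two).mp (hp.dvd_of_dvd_pow this)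
        subst hp2
        -- an element of order two
        have hdet : (!![1, 1; 0, 1] : Matrix (Fin 2) (Fin 2) F₀).det = 1 := by
          rw [Matrix.det_fin_two_of]
          ring
        obtain ⟨u, hu⟩ : ∃ u : Matrix.SpecialLinearGroup (Fin 2) F₀,
            (u : Matrix (Fin 2) (Fin 2) F₀) = !![1, 1; 0, 1] := ⟨⟨!![1, 1; 0, 1], hdet⟩, rfl⟩
        have ho : orderOf u = 2 := by
          apply orderOf_eq_prime
          · apply Subtype.ext
            rw [Matrix.SpecialLinearGroup.coe_pow, hu, pow_two]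
            ext i j
            fin_cases i <;> fin_cases j <;> simp [Matrix.mul_apply, Fin.sum_univ_two]
            linear_combination h2
          · intro h1
            have := congrArg (fun a : Matrix.SpecialLinearGroup (Fin 2) F₀ =>
              (a : Matrix (Fin 2) (Fin 2) F₀) 0 1) h1
            simp [hu] at this
        have := orderOf_dvd_natCard (ψ u)
        rw [MulEquiv.orderOf_eq, ho] at this
        exact this
      · have := orderOf_dvd_natCard (ψ a)
        rw [MulEquiv.orderOf_eq, ← ha, hh] at this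
        exact this
  · intro p q hp hq hpq
    constructor
    · rintro ⟨g, hg⟩
      obtain ⟨h, hh⟩ := K_II (F := F₀) N (ψ.symm g)
      rw [MulEquiv.orderOf_eq, hg] at hh
      exact ⟨h, hh⟩
    · rintro ⟨h, hh⟩
      rcases K_I h2 N h with h4 | ⟨a, ha⟩
      · exfalso
        have hd := orderOf_dvd_of_pow_eq_one h4
        rw [hh] at hd
        have h22 : (4 : ℕ) = 2 ^ 2 := by norm_num
        rw [h22] at hd
        have hp2 : p = 2 := (Nat.prime_dvd_prime_iff_eq hp Nat.prime_two).mp
          (hp.dvd_of_dvd_pow (dvd_trans (dvd_mul_right p q) hd))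
        have hq2 : q = 2 := (Nat.prime_dvd_prime_iff_eq hq Nat.prime_two).mp
          (hq.dvd_of_dvd_pow (dvd_trans (dvd_mul_left q p) hd))
        exact hpq (hp2.trans hq2.symm)
      · refine ⟨ψ a, ?_⟩
        rw [MulEquiv.orderOf_eq, ← ha, hh]

end Cfsg.Agent.Lib.Helper6.SpecA6
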