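import Mathlib
import Cfsg.Agent.Lib.Helper6.SpecA6c

set_option autoImplicit false

namespace Cfsg.Agent.Lib.Helper6.SpecA6

open Equiv Matrix

section
variable {F : Type*} [Field F]

theorem CHg (A : Matrix (Fin 2) (Fin 2) F) :
    A * A = (A 0 0 + A 1 1) • A + (-(A.det)) • (1 : Matrix (Fin 2) (Fin 2) F) := by
  rw [Matrix.det_fin_two]
  ext i j
  fin_cases i <;> fin_cases j <;> simp [Matrix.mul_apply, Fin.sum_univ_two] <;> ring

theorem stepg (A : Matrix (Fin 2) (Fin 2) F) (t d : F) (hA : A * A = t • A + d • 1) (x y : F) :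
    (x • A + y • (1 : Matrix (Fin 2) (Fin 2) F)) * A = (x * t + y) • A + (x * d) • 1 := by
  rw [add_mul, smul_mul_assoc, smul_mul_assoc, one_mul, hA, smul_add, smul_smul, smul_smul,
    add_smul]
  abel

theorem powsg (A : Matrix (Fin 2) (Fin 2) F) (t : F) (hA : A * A = t • A + (-1 : F) • 1) :
    A ^ 2 = t • A + (-1 : F) • 1 ∧ A ^ 3 = (t ^ 2 - 1) • A + (-t) • 1 ∧
      A ^ 4 = (t ^ 3 - 2 * t) • A + (-(t ^ 2 - 1)) • 1 ∧
      A ^ 7 = (t ^ 6 - 5 * t ^ 4 + 6 * t ^ 2 - 1) • A + (-(t ^ 5 - 4 * t ^ 3 + 3 * t)) • 1 ∧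
      A ^ 8 = (t ^ 7 - 6 * t ^ 5 + 10 * t ^ 3 - 4 * t) • A
        + (-(t ^ 6 - 5 * t ^ 4 + 6 * t ^ 2 - 1)) • 1 := by
  have e2 : A ^ 2 = t • A + (-1 : F) • 1 := by rw [pow_two, hA]
  have e3 : A ^ 3 = (t ^ 2 - 1) • A + (-t) • 1 := by
    rw [pow_succ, e2, stepg A t (-1) hA]
    congr 1 <;> congr 1 <;> ring
  have e4 : A ^ 4 = (t ^ 3 - 2 * t) • A + (-(t ^ 2 - 1)) • 1 := by
    rw [pow_succ, e3, stepg A t (-1) hA]
    congr 1 <;> congr 1 <;> ring
  have e5 : A ^ 5 = (t ^ 4 - 3 * t ^ 2 + 1) • A + (-(t ^ 3 - 2 * t)) • 1 := by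
    rw [pow_succ, e4, stepg A t (-1) hA]
    congr 1 <;> congr 1 <;> ring
  have e6 : A ^ 6 = (t ^ 5 - 4 * t ^ 3 + 3 * t) • A + (-(t ^ 4 - 3 * t ^ 2 + 1)) • 1 := by
    rw [pow_succ, e5, stepg A t (-1) hA]
    congr 1 <;> congr 1 <;> ring
  have e7 : A ^ 7 = (t ^ 6 - 5 * t ^ 4 + 6 * t ^ 2 - 1) • A
      + (-(t ^ 5 - 4 * t ^ 3 + 3 * t)) • 1 := by
    rw [pow_succ, e6, stepg A t (-1) hA]
    congr 1 <;> congr 1 <;> ring
  have e8 : A ^ 8 = (t ^ 7 - 6 * t ^ 5 + 10 * t ^ 3 - 4 * t) • A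
      + (-(t ^ 6 - 5 * t ^ 4 + 6 * t ^ 2 - 1)) • 1 := by
    rw [pow_succ, e7, stepg A t (-1) hA]
    congr 1 <;> congr 1 <;> ring
  exact ⟨e2, e3, e4, e7, e8⟩

theorem sl_CH (a : Matrix.SpecialLinearGroup (Fin 2) F) :
    (a : Matrix (Fin 2) (Fin 2) F) * (a : Matrix (Fin 2) (Fin 2) F)
      = ((a : Matrix (Fin 2) (Fin 2) F) 0 0 + (a : Matrix (Fin 2) (Fin 2) F) 1 1) •
        (a : Matrix (Fin 2) (Fin 2) F) + (-1 : F) • 1 := by
  have := CHg (a : Matrix (Fin 2) (Fin 2) F)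
  rw [a.2] at this
  exact this

/-! ### the field with eight elements -/

theorem sl8 [Fintype F] (hF : Fintype.card F = 8) (h2 : (2 : F) = 0)
    (a : Matrix.SpecialLinearGroup (Fin 2) F) : a ^ 2 = 1 ∨ a ^ 7 = 1 ∨ a ^ 9 = 1 := by
  have hA := sl_CH a
  obtain ⟨e2, e3, e4, e7, e8⟩ := powsg _ _ hA
  generalize (a : Matrix (Fin 2) (Fin 2) F) 0 0 + (a : Matrix (Fin 2) (Fin 2) F) 1 1 = t at *
  have hm1 : (-1 : F) = 1 := by linear_combination (-1 : F) * h2
  by_cases ht : t = 0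
  · left
    apply Subtype.ext
    rw [Matrix.SpecialLinearGroup.coe_pow, e2, ht, zero_smul, zero_add, hm1, one_smul]
    rfl
  · have ht7 : t ^ 7 = 1 := by
      have := FiniteField.pow_card_sub_one_eq_one t ht
      simpa [hF] using this
    have hx8 : t ^ 7 - 6 * t ^ 5 + 10 * t ^ 3 - 4 * t = 1 := by
      linear_combination ht7 + (-3 * t ^ 5 + 5 * t ^ 3 - 2 * t) * h2
    have hcc : (-(t ^ 6 - 5 * t ^ 4 + 6 * t ^ 2 - 1)) *
        ((-(t ^ 6 - 5 * t ^ 4 + 6 * t ^ 2 - 1)) + t) = 0 := by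
      linear_combination (t ^ 5 + 37 * t - 1) * ht7 +
        (3 * t ^ 5 - 5 * t ^ 10 + 19 * t - 31 * t ^ 6 + 23 * t ^ 4 - 3 * t ^ 3 - 6 * t ^ 2) * h2
    rcases mul_eq_zero.mp hcc with h0 | h0
    · right; left
      have h8 : a ^ 8 = a := by
        apply Subtype.ext
        rw [Matrix.SpecialLinearGroup.coe_pow, e8, hx8, h0, one_smul, zero_smul, add_zero]
      have h78 : a ^ 7 * a = 1 * a := by rw [← pow_succ, one_mul]; exact h8
      exact mul_right_cancel h78
    · right; right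
      apply Subtype.ext
      rw [Matrix.SpecialLinearGroup.coe_pow, pow_succ, e8, stepg _ t (-1) hA, hx8]
      have h1 : (1 * t + -(t ^ 6 - 5 * t ^ 4 + 6 * t ^ 2 - 1)) = 0 := by linear_combination h0
      rw [h1, zero_smul, zero_add]
      have h3 : (1 * (-1 : F)) = 1 := by linear_combination (-1 : F) * h2
      rw [h3, one_smul]
      rfl

theorem diag_pow (x y : F) (n : ℕ) :
    (!![x, 0; 0, y] : Matrix (Fin 2) (Fin 2) F) ^ n = !![x ^ n, 0; 0, y ^ n] := by
  induction n with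
  | zero =>
    ext i j
    fin_cases i <;> fin_cases j <;> simp
  | succ n ih =>
    rw [pow_succ, ih]
    ext i j
    fin_cases i <;> fin_cases j <;> simp [Matrix.mul_apply, Fin.sum_univ_two, pow_succ]

theorem sl8_has [Fintype F] (hF : Fintype.card F = 8) (h2 : (2 : F) = 0) (p : ℕ)
    (hp : p = 2 ∨ p = 3 ∨ p = 7) : p ∣ Nat.card (Matrix.SpecialLinearGroup (Fin 2) F) := by
  classical
  have : Fact (Nat.Prime 2) := ⟨Nat.prime_two⟩
  have : Fact (Nat.Prime 3) := ⟨Nat.prime_three⟩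
  have : Fact (Nat.Prime 7) := ⟨by norm_num⟩
  have hm1 : (-1 : F) = 1 := by linear_combination (-1 : F) * h2
  rcases hp with rfl | rfl | rfl
  · have hdet : (!![1, 1; 0, 1] : Matrix (Fin 2) (Fin 2) F).det = 1 := by
      rw [Matrix.det_fin_two_of]
      ring
    obtain ⟨u, hu⟩ : ∃ u : Matrix.SpecialLinearGroup (Fin 2) F,
        (u : Matrix (Fin 2) (Fin 2) F) = !![1, 1; 0, 1] := ⟨⟨!![1, 1; 0, 1], hdet⟩, rfl⟩
    have ho : orderOf u = 2 := by
      apply orderOf_eq_prime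
      · apply Subtype.ext
        rw [Matrix.SpecialLinearGroup.coe_pow, hu, pow_two]
        ext i j
        fin_cases i <;> fin_cases j <;> simp [Matrix.mul_apply, Fin.sum_univ_two]
        linear_combination h2
      · intro h1
        have := congrArg (fun a : Matrix.SpecialLinearGroup (Fin 2) F =>
          (a : Matrix (Fin 2) (Fin 2) F) 0 1) h1
        simp [hu] at this
    have hdv := orderOf_dvd_natCard u
    rw [ho] at hdv
    exact hdv
  · have hdet : (!![0, 1; 1, 1] : Matrix (Fin 2) (Fin 2) F).det = 1 := by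
      rw [Matrix.det_fin_two_of]
      linear_combination (-1 : F) * h2
    obtain ⟨u, hu⟩ : ∃ u : Matrix.SpecialLinearGroup (Fin 2) F,
        (u : Matrix (Fin 2) (Fin 2) F) = !![0, 1; 1, 1] := ⟨⟨!![0, 1; 1, 1], hdet⟩, rfl⟩
    have ho : orderOf u = 3 := by
      apply orderOf_eq_prime
      · have hA := sl_CH u
        obtain ⟨e2, e3, e4, e7, e8⟩ := powsg _ _ hA
        have ht : (u : Matrix (Fin 2) (Fin 2) F) 0 0 + (u : Matrix (Fin 2) (Fin 2) F) 1 1 = 1 := by
          rw [hu]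
          simp
        rw [ht] at e3
        apply Subtype.ext
        rw [Matrix.SpecialLinearGroup.coe_pow, e3]
        have h0 : ((1 : F) ^ 2 - 1) = 0 := by ring
        rw [h0, zero_smul, zero_add, hm1, one_smul]
        rfl
      · intro h1
        have := congrArg (fun a : Matrix.SpecialLinearGroup (Fin 2) F =>
          (a : Matrix (Fin 2) (Fin 2) F) 0 1) h1
        simp [hu] at this
    have hdv := orderOf_dvd_natCard u
    rw [ho] at hdv
    exact hdv
  · obtain ⟨α, hα0, hα1⟩ : ∃ α : F, α ≠ 0 ∧ α ≠ 1 := by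
      by_contra hno
      push_neg at hno
      have hsub : (Finset.univ : Finset F) ⊆ {0, 1} := by
        intro t _
        by_cases h0 : t = 0
        · simp [h0]
        · simp [hno t h0]
      have := Finset.card_le_card hsub
      rw [Finset.card_univ, hF] at this
      have h2' : ({0, 1} : Finset F).card ≤ 2 := Finset.card_le_two
      omega
    have hdet : (!![α, 0; 0, α⁻¹] : Matrix (Fin 2) (Fin 2) F).det = 1 := by
      rw [Matrix.det_fin_two_of]
      field_simp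
      ring
    obtain ⟨u, hu⟩ : ∃ u : Matrix.SpecialLinearGroup (Fin 2) F,
        (u : Matrix (Fin 2) (Fin 2) F) = !![α, 0; 0, α⁻¹] := ⟨⟨!![α, 0; 0, α⁻¹], hdet⟩, rfl⟩
    have hα7 : α ^ 7 = 1 := by
      have := FiniteField.pow_card_sub_one_eq_one α hα0
      simpa [hF] using this
    have ho : orderOf u = 7 := by
      apply orderOf_eq_prime
      · apply Subtype.ext
        rw [Matrix.SpecialLinearGroup.coe_pow, hu, diag_pow, inv_pow, hα7, inv_one]
        ext i j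
        fin_cases i <;> fin_cases j <;> simp
      · intro h1
        have := congrArg (fun a : Matrix.SpecialLinearGroup (Fin 2) F =>
          (a : Matrix (Fin 2) (Fin 2) F) 0 0) h1
        simp [hu] at this
        exact hα1 this
    have hdv := orderOf_dvd_natCard u
    rw [ho] at hdv
    exact hdv

/-! ### the field with seven elements -/

theorem mk_pow_eq_one (a : Matrix.SpecialLinearGroup (Fin 2) F) (n : ℕ) (r : F) (hr : r ^ 2 = 1)
    (h : (a : Matrix (Fin 2) (Fin 2) F) ^ n = r • 1) :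
    (QuotientGroup.mk a : Matrix.ProjectiveSpecialLinearGroup (Fin 2) F) ^ n = 1 := by
  rw [← QuotientGroup.mk_pow, QuotientGroup.eq_one_iff, Matrix.SpecialLinearGroup.mem_center_iff]
  refine ⟨r, by simpa using hr, ?_⟩
  rw [Matrix.SpecialLinearGroup.coe_pow, h, Matrix.scalar_apply, Matrix.smul_one_eq_diagonal]

theorem mk_ne_one (a : Matrix.SpecialLinearGroup (Fin 2) F)
    (h : (a : Matrix (Fin 2) (Fin 2) F) 1 0 ≠ 0 ∨ (a : Matrix (Fin 2) (Fin 2) F) 0 1 ≠ 0) :
    (QuotientGroup.mk a : Matrix.ProjectiveSpecialLinearGroup (Fin 2) F) ≠ 1 := by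
  intro h1
  rw [QuotientGroup.eq_one_iff, Matrix.SpecialLinearGroup.mem_center_iff] at h1
  obtain ⟨r, -, hr⟩ := h1
  rcases h with h | h
  · apply h
    rw [← hr]
    simp [Matrix.scalar_apply]
  · apply h
    rw [← hr]
    simp [Matrix.scalar_apply]

theorem psl7a (h7 : (7 : F) = 0) (a : Matrix.SpecialLinearGroup (Fin 2) F) (t : F)
    (ht : (a : Matrix (Fin 2) (Fin 2) F) 0 0 + (a : Matrix (Fin 2) (Fin 2) F) 1 1 = t) :
    (t = 0 → (QuotientGroup.mk a : Matrix.ProjectiveSpecialLinearGroup (Fin 2) F) ^ 2 = 1) ∧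
    (t = 1 → (QuotientGroup.mk a : Matrix.ProjectiveSpecialLinearGroup (Fin 2) F) ^ 3 = 1) ∧
    (t = -1 → (QuotientGroup.mk a : Matrix.ProjectiveSpecialLinearGroup (Fin 2) F) ^ 3 = 1) ∧
    (t = 2 → (QuotientGroup.mk a : Matrix.ProjectiveSpecialLinearGroup (Fin 2) F) ^ 7 = 1) ∧
    (t = -2 → (QuotientGroup.mk a : Matrix.ProjectiveSpecialLinearGroup (Fin 2) F) ^ 7 = 1) ∧
    (t = 3 → (QuotientGroup.mk a : Matrix.ProjectiveSpecialLinearGroup (Fin 2) F) ^ 4 = 1) ∧
    (t = -3 → (QuotientGroup.mk a : Matrix.ProjectiveSpecialLinearGroup (Fin 2) F) ^ 4 = 1) := by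
  have hA := sl_CH a
  rw [ht] at hA
  obtain ⟨e2, e3, e4, e7, e8⟩ := powsg _ _ hA
  refine ⟨?_, ?_, ?_, ?_, ?_, ?_, ?_⟩
  · rintro rfl
    apply mk_pow_eq_one a 2 (-1) (by ring)
    rw [e2, zero_smul, zero_add]
  · rintro rfl
    apply mk_pow_eq_one a 3 (-1) (by ring)
    rw [e3]
    have : ((1 : F) ^ 2 - 1) = 0 := by ring
    rw [this, zero_smul, zero_add]
  · rintro rfl
    apply mk_pow_eq_one a 3 (-(-1)) (by ring)
    rw [e3]
    have : ((-1 : F) ^ 2 - 1) = 0 := by ring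
    rw [this, zero_smul, zero_add]
  · rintro rfl
    apply mk_pow_eq_one a 7 (-((2 : F) ^ 5 - 4 * 2 ^ 3 + 3 * 2)) (by linear_combination 5 * h7)
    rw [e7]
    have : ((2 : F) ^ 6 - 5 * 2 ^ 4 + 6 * 2 ^ 2 - 1) = 0 := by linear_combination h7
    rw [this, zero_smul, zero_add]
  · rintro rfl
    apply mk_pow_eq_one a 7 (-((-2 : F) ^ 5 - 4 * (-2) ^ 3 + 3 * (-2)))
      (by linear_combination 5 * h7)
    rw [e7]
    have : ((-2 : F) ^ 6 - 5 * (-2) ^ 4 + 6 * (-2) ^ 2 - 1) = 0 := by linear_combination h7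
    rw [this, zero_smul, zero_add]
  · rintro rfl
    apply mk_pow_eq_one a 4 (-((3 : F) ^ 2 - 1)) (by linear_combination 9 * h7)
    rw [e4]
    have : ((3 : F) ^ 3 - 2 * 3) = 0 := by linear_combination 3 * h7
    rw [this, zero_smul, zero_add]
  · rintro rfl
    apply mk_pow_eq_one a 4 (-((-3 : F) ^ 2 - 1)) (by linear_combination 9 * h7)
    rw [e4]
    have : ((-3 : F) ^ 3 - 2 * (-3)) = 0 := by linear_combination (-3 : F) * h7
    rw [this, zero_smul, zero_add]

theorem seven_zero [Fintype F] (hF : Fintype.card F = 7) : (7 : F) = 0 := by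
  haveI := ringChar.charP F
  obtain ⟨n, hp, hc⟩ := FiniteField.card F (ringChar F)
  rw [hF] at hc
  have hdvd : ringChar F ∣ 7 := by rw [hc]; exact dvd_pow_self _ n.ne_zero
  have h7' : ringChar F = 7 :=
    (Nat.prime_dvd_prime_iff_eq hp (by norm_num)).mp hdvd
  have h := CharP.cast_eq_zero F (ringChar F)
  rw [h7'] at h
  exact_mod_cast h

theorem psl7 [Fintype F] (hF : Fintype.card F = 7)
    (g : Matrix.ProjectiveSpecialLinearGroup (Fin 2) F) :
    ∃ m, (m = 2 ∨ m = 3 ∨ m = 7 ∨ m = 4 ∨ m = 9) ∧ g ^ m = 1 := by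
  have h7 := seven_zero hF
  obtain ⟨a, rfl⟩ := QuotientGroup.mk_surjective g
  obtain ⟨c0, c1, c1', c2, c2', c3, c3'⟩ := psl7a h7 a _ rfl
  generalize (a : Matrix (Fin 2) (Fin 2) F) 0 0 + (a : Matrix (Fin 2) (Fin 2) F) 1 1 = t at *
  have h4 := FiniteField.pow_card t
  rw [hF] at h4
  have hprod : t * ((t - 1) * ((t + 1) * ((t - 2) * ((t + 2) * ((t - 3) * (t + 3)))))) = 0 := by
    linear_combination h4 + (-2 * t ^ 5 + 7 * t ^ 3 - 5 * t) * h7
  rcases mul_eq_zero.mp hprod with h | h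
  · exact ⟨2, by simp, c0 h⟩
  rcases mul_eq_zero.mp h with h | h
  · exact ⟨3, by simp, c1 (sub_eq_zero.mp h)⟩
  rcases mul_eq_zero.mp h with h | h
  · exact ⟨3, by simp, c1' (eq_neg_of_add_eq_zero_left h)⟩
  rcases mul_eq_zero.mp h with h | h
  · exact ⟨7, by simp, c2 (sub_eq_zero.mp h)⟩
  rcases mul_eq_zero.mp h with h | h
  · exact ⟨7, by simp, c2' (eq_neg_of_add_eq_zero_left h)⟩
  rcases mul_eq_zero.mp h with h | h
  · exact ⟨4, by simp, c3 (sub_eq_zero.mp h)⟩
  · exact ⟨4, by simp, c3' (eq_neg_of_add_eq_zero_left h)⟩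

theorem psl7_has [Fintype F] (hF : Fintype.card F = 7) (p : ℕ)
    (hp : p = 2 ∨ p = 3 ∨ p = 7) :
    p ∣ Nat.card (Matrix.ProjectiveSpecialLinearGroup (Fin 2) F) := by
  classical
  have h7 := seven_zero hF
  have : Fact (Nat.Prime 2) := ⟨Nat.prime_two⟩
  have : Fact (Nat.Prime 3) := ⟨Nat.prime_three⟩
  have : Fact (Nat.Prime 7) := ⟨by norm_num⟩
  rcases hp with rfl | rfl | rfl
  · have hdet : (!![0, -1; 1, 0] : Matrix (Fin 2) (Fin 2) F).det = 1 := by
      rw [Matrix.det_fin_two_of]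
      ring
    obtain ⟨u, hu⟩ : ∃ u : Matrix.SpecialLinearGroup (Fin 2) F,
        (u : Matrix (Fin 2) (Fin 2) F) = !![0, -1; 1, 0] := ⟨⟨!![0, -1; 1, 0], hdet⟩, rfl⟩
    have ho : orderOf (QuotientGroup.mk u : Matrix.ProjectiveSpecialLinearGroup (Fin 2) F) = 2 := by
      apply orderOf_eq_prime
      · exact (psl7a h7 u 0 (by rw [hu]; simp)).1 rfl
      · apply mk_ne_one
        left
        rw [hu]
        simp
    have hdv := orderOf_dvd_natCard
      (QuotientGroup.mk u : Matrix.ProjectiveSpecialLinearGroup (Fin 2) F)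
    rw [ho] at hdv
    exact hdv
  · have hdet : (!![0, -1; 1, -1] : Matrix (Fin 2) (Fin 2) F).det = 1 := by
      rw [Matrix.det_fin_two_of]
      ring
    obtain ⟨u, hu⟩ : ∃ u : Matrix.SpecialLinearGroup (Fin 2) F,
        (u : Matrix (Fin 2) (Fin 2) F) = !![0, -1; 1, -1] := ⟨⟨!![0, -1; 1, -1], hdet⟩, rfl⟩
    have ho : orderOf (QuotientGroup.mk u : Matrix.ProjectiveSpecialLinearGroup (Fin 2) F) = 3 := by
      apply orderOf_eq_prime
      · exact (psl7a h7 u (-1) (by rw [hu]; simp)).2.2.1 rfl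
      · apply mk_ne_one
        left
        rw [hu]
        simp
    have hdv := orderOf_dvd_natCard
      (QuotientGroup.mk u : Matrix.ProjectiveSpecialLinearGroup (Fin 2) F)
    rw [ho] at hdv
    exact hdv
  · have hdet : (!![1, 1; 0, 1] : Matrix (Fin 2) (Fin 2) F).det = 1 := by
      rw [Matrix.det_fin_two_of]
      ring
    obtain ⟨u, hu⟩ : ∃ u : Matrix.SpecialLinearGroup (Fin 2) F,
        (u : Matrix (Fin 2) (Fin 2) F) = !![1, 1; 0, 1] := ⟨⟨!![1, 1; 0, 1], hdet⟩, rfl⟩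
    have ho : orderOf (QuotientGroup.mk u : Matrix.ProjectiveSpecialLinearGroup (Fin 2) F) = 7 := by
      apply orderOf_eq_prime
      · exact (psl7a h7 u 2 (by rw [hu]; simp; norm_num)).2.2.2.1 rfl
      · apply mk_ne_one
        right
        rw [hu]
        simp
    have hdv := orderOf_dvd_natCard
      (QuotientGroup.mk u : Matrix.ProjectiveSpecialLinearGroup (Fin 2) F)
    rw [ho] at hdv
    exact hdv

end

theorem no_pq {G : Type*} [Group G] (x : G) (m : ℕ)
    (hm : m = 2 ∨ m = 3 ∨ m = 7 ∨ m = 4 ∨ m = 9) (hx : x ^ m = 1) (p q : ℕ) (hp : p.Prime)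
    (hq : q.Prime) (hpq : p ≠ q) : orderOf x ≠ p * q := by
  intro ho
  have hd := orderOf_dvd_of_pow_eq_one hx
  rw [ho] at hd
  have hp2 := hp.two_le
  have hq2 := hq.two_le
  have hm9 : m ≤ 9 := by omega
  have hle : p * q ≤ m := Nat.le_of_dvd (by omega) hd
  have hp4 : p ≤ 4 := by nlinarith
  have hq4 : q ≤ 4 := by nlinarith
  interval_cases p <;> interval_cases q <;>
    first
    | omega
    | (exfalso; revert hp; norm_num)
    | (exfalso; revert hq; norm_num)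
    | (rcases hm with rfl | rfl | rfl | rfl | rfl <;> revert hd <;> norm_num)

theorem prime_of {G : Type*} [Group G] (x : G) (m : ℕ)
    (hm : m = 2 ∨ m = 3 ∨ m = 7 ∨ m = 4 ∨ m = 9) (hx : x ^ m = 1) (p : ℕ) (hp : p.Prime)
    (ho : orderOf x = p) : p = 2 ∨ p = 3 ∨ p = 7 := by
  have hd := orderOf_dvd_of_pow_eq_one hx
  rw [ho] at hd
  have hp2 := hp.two_le
  rcases hm with rfl | rfl | rfl | rfl | rfl
  · have := Nat.le_of_dvd (by norm_num) hd
    interval_cases p
    omega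
  · have := Nat.le_of_dvd (by norm_num) hd
    interval_cases p <;> first | omega | (exfalso; revert hp; norm_num)
  · have := Nat.le_of_dvd (by norm_num) hd
    interval_cases p <;> first | omega | (exfalso; revert hp; norm_num)
  · have := Nat.le_of_dvd (by norm_num) hd
    interval_cases p <;> first | omega | (exfalso; revert hp; norm_num)
  · have := Nat.le_of_dvd (by norm_num) hd
    interval_cases p <;> first | omega | (exfalso; revert hp; norm_num)

end Cfsg.Agent.Lib.Helper6.SpecA6
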