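import Mathlib
import Cfsg.Prelude.Def_Transfer
import Cfsg.Agent.Lib.Helper6.PParts
import Cfsg.Agent.Lib.Helper6.PSolv
import Cfsg.Agent.Lib.Helper3.NPC
import Cfsg.Agent.Lib.Lead.PNilp2
import Cfsg.Agent.Lib.Lead.SZ2
import Cfsg.Agent.Lib.Helper1.Basic

set_option autoImplicit false

namespace Cfsg.Agent.Lib.Helper6

open scoped Pointwise

/-- A `p`-element normalizing a Sylow `p`-subgroup lies in it. -/
theorem mem_sylow_of_mem_normalizer_of_order {X : Type*} [Group X] [Finite X] {p : ℕ}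
    [Fact p.Prime] (P : Sylow p X) (a : X) (ha : a ∈ Subgroup.normalizer ((P : Subgroup X) : Set X))
    (k : ℕ) (hk : orderOf a = p ^ k) : a ∈ (P : Subgroup X) := by
  have h1 : IsPGroup p ↥(Subgroup.zpowers a) := by
    apply IsPGroup.of_card (n := k)
    rw [Nat.card_zpowers, hk]
  have h2 : Subgroup.zpowers a ≤ Subgroup.normalizer ((P : Subgroup X) : Set X) := by
    rw [Subgroup.zpowers_le]
    exact ha
  have h3 : IsPGroup p ↥(Subgroup.zpowers a ⊔ (P : Subgroup X)) :=
    IsPGroup.to_sup_of_normal_right' h1 P.2 h2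
  have h4 : Subgroup.zpowers a ⊔ (P : Subgroup X) = (P : Subgroup X) := P.3 h3 le_sup_right
  rw [← h4]
  exact Subgroup.mem_sup_left (Subgroup.mem_zpowers a)

/-- Non-generator property of a subgroup of the Frattini subgroup. -/
theorem le_of_le_sup_frattini {G : Type*} [Group G] [Finite G] (P Q P₁ : Subgroup G)
    (hQ : Q ≤ (frattini ↥P).map P.subtype) (hP₁ : P₁ ≤ P) (h : P ≤ Q ⊔ P₁) : P ≤ P₁ := by
  have h1 : P₁.subgroupOf P ⊔ frattini ↥P = ⊤ := by
    rw [eq_top_iff]
    intro x _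
    have hx : (x : G) ∈ Q ⊔ P₁ := h x.2
    have h2 : Q ⊔ P₁ ≤ (P₁.subgroupOf P ⊔ frattini ↥P).map P.subtype := by
      rw [Subgroup.map_sup]
      apply sup_le
      · exact hQ.trans le_sup_right
      · refine le_trans ?_ le_sup_left
        rw [Subgroup.subgroupOf_map_subtype]
        exact le_inf le_rfl hP₁
    obtain ⟨y, hy, hyx⟩ := h2 hx
    have : y = x := Subtype.ext hyx
    rw [← this]
    exact hy
  have h2 : P₁.subgroupOf P = ⊤ := frattini_nongenerating h1
  exact Subgroup.subgroupOf_eq_top.mp h2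

/-- A Tate-type criterion: if `Q ≤ P` is normal in `X`, `P / Q` is abelian, `Q` consists of
non-generators of `P` and `N_X(P)` has a normal `p`-complement, then so does `X`. -/
theorem npc_of_normalizer_npc_of_nongen {X : Type*} [Group X] [Finite X] {p : ℕ} [Fact p.Prime]
    (P : Sylow p X) (Q : Subgroup X) [hQn : Q.Normal] (hQP : Q ≤ (P : Subgroup X))
    (hab : ∀ a ∈ (P : Subgroup X), ∀ b ∈ (P : Subgroup X), a * b * a⁻¹ * b⁻¹ ∈ Q)
    (hfr : ∀ P₁ : Subgroup X, P₁ ≤ (P : Subgroup X) → (P : Subgroup X) ≤ Q ⊔ P₁ →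
      (P : Subgroup X) ≤ P₁)
    (hN : Cfsg.HasNormalPComplement p ↥(Subgroup.normalizer ((P : Subgroup X) : Set X))) :
    Cfsg.HasNormalPComplement p X := by
  classical
  have hp : p.Prime := Fact.out
  -- Step A: the normalizer of P centralizes P modulo Q
  have hA : ∀ y ∈ Subgroup.normalizer ((P : Subgroup X) : Set X), ∀ u ∈ (P : Subgroup X),
      y * u * y⁻¹ * u⁻¹ ∈ Q := by
    intro y hy u hu
    set NP := Subgroup.normalizer ((P : Subgroup X) : Set X) with hNP
    obtain ⟨S, M, hMn, hMc⟩ := hN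
    haveI := hMn
    haveI hP'n : ((P : Subgroup X).subgroupOf NP).Normal := Subgroup.normal_in_normalizer
    have hP'p : IsPGroup p ↥((P : Subgroup X).subgroupOf NP) :=
      P.2.comap_of_injective NP.subtype (Subgroup.subtype_injective NP)
    obtain ⟨a, z, hyaz, -, ⟨k, hk⟩, hzcop, -, -⟩ := exists_p_decomp p (⟨y, hy⟩ : ↥NP)
    have hz : ∀ q ∈ (P : Subgroup X), q * (z : X) = (z : X) * q := by
      intro q hq
      have hqN : q ∈ NP := Subgroup.le_normalizer hq
      have := Cfsg.Agent.Lib.Lead.centralizes_of_complement S M hMc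
        ((P : Subgroup X).subgroupOf NP) hP'p z hzcop ⟨q, hqN⟩ (Subgroup.mem_subgroupOf.mpr hq)
      exact congrArg Subtype.val this
    have haP : (a : X) ∈ (P : Subgroup X) := by
      apply mem_sylow_of_mem_normalizer_of_order P (a : X) a.2 k
      rw [Subgroup.orderOf_coe]
      exact hk
    have hy' : y = (a : X) * (z : X) := congrArg Subtype.val hyaz
    have h1 := hz u hu
    have h2 : y * u * y⁻¹ * u⁻¹ = (a : X) * u * (a : X)⁻¹ * u⁻¹ := by
      rw [hy']
      calc (a : X) * (z : X) * u * ((a : X) * (z : X))⁻¹ * u⁻¹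
          = (a : X) * ((z : X) * u) * (z : X)⁻¹ * (a : X)⁻¹ * u⁻¹ := by group
        _ = (a : X) * (u * (z : X)) * (z : X)⁻¹ * (a : X)⁻¹ * u⁻¹ := by rw [h1]
        _ = (a : X) * u * (a : X)⁻¹ * u⁻¹ := by group
    rw [h2]
    exact hab _ haP u hu
  -- Step B: Burnside in the quotient
  let mk := QuotientGroup.mk' Q
  have hmks : Function.Surjective mk := QuotientGroup.mk'_surjective Q
  let Pb : Sylow p (X ⧸ Q) := P.mapSurjective hmks
  have hPb : (Pb : Subgroup (X ⧸ Q)) = (P : Subgroup X).map mk := Sylow.coe_mapSurjective hmks P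
  have hNC : Subgroup.normalizer ((Pb : Subgroup (X ⧸ Q)) : Set (X ⧸ Q)) ≤
      Subgroup.centralizer ((Pb : Subgroup (X ⧸ Q)) : Set (X ⧸ Q)) := by
    intro yb hyb
    obtain ⟨y, rfl⟩ := hmks yb
    have hyN : y ∈ Subgroup.normalizer ((P : Subgroup X) : Set X) := by
      apply Cfsg.Agent.Lib.Helper1.mem_normalizer_of_finite
      intro v hv
      have h1 : mk v ∈ (Pb : Subgroup (X ⧸ Q)) := by
        rw [hPb]
        exact Subgroup.mem_map_of_mem _ hv
      have h2 : mk y * mk v * (mk y)⁻¹ ∈ (Pb : Subgroup (X ⧸ Q)) :=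
        (Subgroup.mem_normalizer_iff.mp hyb (mk v)).mp h1
      rw [hPb] at h2
      obtain ⟨w, hw, hwe⟩ := h2
      have h3 : mk w = mk (y * v * y⁻¹) := by
        rw [hwe, map_mul, map_mul, map_inv]
      have h4 : w⁻¹ * (y * v * y⁻¹) ∈ Q := by
        have := (QuotientGroup.eq (s := Q) (a := w) (b := y * v * y⁻¹)).mp h3
        exact this
      have h5 : y * v * y⁻¹ = w * (w⁻¹ * (y * v * y⁻¹)) := by group
      rw [h5]
      exact Subgroup.mul_mem _ hw (hQP h4)
    rw [Subgroup.mem_centralizer_iff]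
    intro ub hub
    have hub' : ub ∈ (Pb : Subgroup (X ⧸ Q)) := hub
    rw [hPb] at hub'
    obtain ⟨u, hu, rfl⟩ := hub'
    have h1 := hA y hyN u hu
    have h2 : mk (y * u * y⁻¹ * u⁻¹) = 1 := (QuotientGroup.eq_one_iff _).mpr h1
    rw [map_mul, map_mul, map_mul, map_inv, map_inv] at h2
    have h3 : mk y * mk u = mk u * mk y := by
      calc mk y * mk u = (mk y * mk u * (mk y)⁻¹ * (mk u)⁻¹) * (mk u * mk y) := by group
        _ = mk u * mk y := by rw [h2, one_mul]
    exact h3.symm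
  set S := (MonoidHom.transferSylow Pb hNC).ker with hS
  have hSc : S.IsComplement' (Pb : Subgroup (X ⧸ Q)) :=
    MonoidHom.ker_transferSylow_isComplement' Pb hNC
  have hScop : (Nat.card S).Coprime p := by
    apply Nat.Coprime.symm
    rw [Nat.Prime.coprime_iff_not_dvd hp]
    exact MonoidHom.not_dvd_card_ker_transferSylow Pb hNC
  have hSidx : ∃ n : ℕ, S.index = p ^ n := by
    obtain ⟨n, hn⟩ := IsPGroup.iff_card.mp Pb.2
    exact ⟨n, by rw [hSc.symm.index_eq_card, hn]⟩
  obtain ⟨m, hQm⟩ := IsPGroup.iff_card.mp (P.2.to_le hQP)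
  obtain ⟨K, hKcop, ⟨n', hKidx⟩, hsup, hinf⟩ := pcompl_compl hp Q m hQm S hScop hSidx
  have hLn : (S.comap mk).Normal := by
    haveI : S.Normal := MonoidHom.normal_ker _
    exact Subgroup.Normal.comap inferInstance mk
  -- Step C: Frattini argument
  have hFr : ∀ x : X, ∃ n ∈ Q, n⁻¹ * x ∈ Subgroup.normalizer (K : Set X) := by
    intro x
    have h1 : MulAut.conj x • K ≤ K ⊔ Q := by
      intro a ha
      rw [Cfsg.Agent.Lib.Helper1.mem_conj_smul] at ha
      rw [hsup]
      have h2 : x⁻¹ * a * x ∈ S.comap mk := by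
        rw [← hsup]
        exact Subgroup.mem_sup_left ha
      have h3 := hLn.conj_mem _ h2 x
      have h4 : x * (x⁻¹ * a * x) * x⁻¹ = a := by group
      rw [h4] at h3
      exact h3
    have hcop : (Nat.card Q).Coprime (Nat.card K) := by
      rw [hQm]
      exact Nat.Coprime.pow_left m hKcop.symm
    have hsolv : Group.IsSolvable ↥Q := by
      haveI : Group.IsNilpotent ↥Q := (P.2.to_le hQP).isNilpotent
      infer_instance
    obtain ⟨n, hn, hne⟩ := Cfsg.Agent.Lib.Lead.szc Q K (MulAut.conj x • K)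
      (by rw [Subgroup.normalizer_eq_top_iff.mpr hQn]; exact le_top) h1
      (Cfsg.Agent.Lib.Lead.card_conj_smul x K) hcop (Or.inl hsolv)
    refine ⟨n, hn, ?_⟩
    apply Cfsg.Agent.Lib.Helper1.mem_normalizer_of_finite
    intro a ha
    have h2 : x * a * x⁻¹ ∈ MulAut.conj x • K := by
      rw [Cfsg.Agent.Lib.Helper1.mem_conj_smul]
      have : x⁻¹ * (x * a * x⁻¹) * x = a := by group
      rw [this]
      exact ha
    rw [← hne, Cfsg.Agent.Lib.Helper1.mem_conj_smul] at h2
    have h3 : n⁻¹ * x * a * (n⁻¹ * x)⁻¹ = n⁻¹ * (x * a * x⁻¹) * n := by group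
    rw [h3]
    exact h2
  -- Step D: P normalizes K
  have hPR : (P : Subgroup X) ≤ Subgroup.normalizer (K : Set X) := by
    have h1 : (P : Subgroup X) ≤ (P : Subgroup X) ⊓ Subgroup.normalizer (K : Set X) := by
      apply hfr _ inf_le_left
      intro u hu
      obtain ⟨n, hn, hnu⟩ := hFr u
      have h2 : u = n * (n⁻¹ * u) := by group
      rw [h2]
      apply Subgroup.mul_mem
      · exact Subgroup.mem_sup_left hn
      · apply Subgroup.mem_sup_right
        exact ⟨Subgroup.mul_mem _ (Subgroup.inv_mem _ (hQP hn)) hu, hnu⟩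
    exact h1.trans inf_le_right
  have hKn : K.Normal := by
    rw [← Subgroup.normalizer_eq_top_iff, eq_top_iff]
    intro x _
    obtain ⟨n, hn, hnx⟩ := hFr x
    have h2 : x = n * (n⁻¹ * x) := by group
    rw [h2]
    exact Subgroup.mul_mem _ (hPR (hQP hn)) hnx
  apply Cfsg.Agent.Lib.Helper3.npc_of_exists K hKcop
  intro g
  refine ⟨n', ?_⟩
  rw [← hKidx]
  exact Subgroup.pow_index_mem K g

end Cfsg.Agent.Lib.Helper6
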